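import Cfsg.Agent.Lib.Helper30.BG8

/-!
Bender-Glauberman section 10, basics.  Everything is conditional on `UT G`, the text of the Uniqueness
Theorem (statement S1403) for the group `G`.
-/

set_option autoImplicit false

namespace Cfsg.Agent.Lib.Helper2

open Subgroup Cfsg.Agent.Lib.Helper30
open scoped Pointwise commutatorElement

universe u

variable {G : Type u} [Group G]

/-- The text of the Uniqueness Theorem for the group `G`. -/
def UT (G : Type u) [Group G] : Prop :=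
  ∀ K : Subgroup G, K ≠ ⊤ → ¬ Cfsg.RankLE 1 K →
    (¬ Cfsg.RankLE 2 K ∨ ¬ Cfsg.RankLE 2 (Subgroup.centralizer (K : Set G))) → Cfsg.InUniqueMaximal K

theorem exists_coatom_ge [Finite G] {X : Subgroup G} (hX : X ≠ ⊤) : ∃ L, IsCoatom L ∧ X ≤ L :=
  (eq_top_or_exists_le_coatom X).resolve_left hX

theorem uniq_eq {X M L : Subgroup G} (h : Cfsg.InUniqueMaximal X) (hM : IsCoatom M) (hXM : X ≤ M)
    (hL : IsCoatom L) (hXL : X ≤ L) : L = M := h.unique ⟨hL, hXL⟩ ⟨hM, hXM⟩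

theorem uniq_le [Finite G] {X Y M : Subgroup G} (h : Cfsg.InUniqueMaximal X) (hM : IsCoatom M)
    (hXM : X ≤ M) (hXY : X ≤ Y) (hY : Y ≠ ⊤) : Y ≤ M := by
  obtain ⟨L, hL, hYL⟩ := exists_coatom_ge hY
  rw [← uniq_eq h hM hXM hL (hXY.trans hYL)]
  exact hYL

theorem uniq_mono [Finite G] {X Y : Subgroup G} (h : Cfsg.InUniqueMaximal X) (hXY : X ≤ Y)
    (hY : Y ≠ ⊤) : Cfsg.InUniqueMaximal Y := by
  obtain ⟨L, hL, hYL⟩ := exists_coatom_ge hY
  refine ⟨L, ⟨hL, hYL⟩, ?_⟩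
  rintro L' ⟨hL', hYL'⟩
  exact uniq_eq h hL (hXY.trans hYL) hL' (hXY.trans hYL')

theorem centralizer_ne_top' (hG : Cfsg.IsMinSimpleOddOrder G) {X : Subgroup G} (hX : X ≠ ⊥) :
    centralizer (X : Set G) ≠ ⊤ := by
  obtain ⟨⟨x, hx⟩, hx1'⟩ := Subgroup.ne_bot_iff_exists_ne_one.mp hX
  have hx1 : x ≠ 1 := fun h => hx1' (Subtype.ext h)
  intro h
  apply centralizer_singleton_ne_top hG hx1
  rw [eq_top_iff, ← h]
  exact centralizer_le (by simpa using hx)

theorem ea_isPGroup {p : ℕ} {A : Subgroup G} (h : Cfsg.IsElementaryAbelian p A) : IsPGroup p A :=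
  fun a => ⟨1, by
    apply Subtype.ext
    simpa using h.2 a.1 a.2⟩

theorem ea_comm {p : ℕ} {A : Subgroup G} (h : Cfsg.IsElementaryAbelian p A) {a b : G} (ha : a ∈ A)
    (hb : b ∈ A) : a * b = b * a := by
  have := h.1.is_comm.comm (⟨a, ha⟩ : A) ⟨b, hb⟩
  exact congrArg (Subtype.val : A → G) this

theorem ea_le_centralizer {p : ℕ} {A B : Subgroup G} (h : Cfsg.IsElementaryAbelian p B) (hAB : A ≤ B) :
    B ≤ centralizer (A : Set G) := by
  intro b hb
  rw [mem_centralizer_iff]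
  intro a ha
  exact ea_comm h (hAB ha) hb

theorem ea_of_le {p : ℕ} {A B : Subgroup G} (h : Cfsg.IsElementaryAbelian p B) (hAB : A ≤ B) :
    Cfsg.IsElementaryAbelian p A :=
  ⟨⟨⟨fun a b => Subtype.ext (ea_comm h (hAB a.2) (hAB b.2))⟩⟩, fun a ha => h.2 a (hAB ha)⟩

theorem ea_cj {p : ℕ} {A : Subgroup G} (h : Cfsg.IsElementaryAbelian p A) (g : G) :
    Cfsg.IsElementaryAbelian p (cj g A) := by
  refine ⟨⟨⟨?_⟩⟩, ?_⟩
  · rintro ⟨_, a, ha, rfl⟩ ⟨_, b, hb, rfl⟩
    apply Subtype.ext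
    have := ea_comm h ha hb
    simp only [MulEquiv.coe_toMonoidHom, MulAut.conj_apply]
    calc g * a * g⁻¹ * (g * b * g⁻¹) = g * (a * b) * g⁻¹ := by group
      _ = g * (b * a) * g⁻¹ := by rw [this]
      _ = g * b * g⁻¹ * (g * a * g⁻¹) := by group
  · rintro _ ⟨a, ha, rfl⟩
    simp only [MulEquiv.coe_toMonoidHom, MulAut.conj_apply]
    rw [conj_pow, h.2 a ha]; group

theorem ea_sup {p : ℕ} {A B : Subgroup G} (hA : Cfsg.IsElementaryAbelian p A)
    (hB : Cfsg.IsElementaryAbelian p B) (hc : ∀ a ∈ A, ∀ b ∈ B, a * b = b * a) :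
    Cfsg.IsElementaryAbelian p (A ⊔ B) := by
  have h1 : A ⊔ B ≤ centralizer ((A ⊔ B : Subgroup G) : Set G) := by
    have hAc : A ⊔ B ≤ centralizer (A : Set G) := by
      refine sup_le (ea_le_centralizer hA le_rfl) ?_
      intro b hb
      rw [mem_centralizer_iff]
      intro a ha
      exact hc a ha b hb
    have hBc : A ⊔ B ≤ centralizer (B : Set G) := by
      refine sup_le ?_ (ea_le_centralizer hB le_rfl)
      intro a ha
      rw [mem_centralizer_iff]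
      intro b hb
      exact (hc a ha b hb).symm
    have h2 : A ≤ centralizer ((A ⊔ B : Subgroup G) : Set G) := le_centralizer_iff.mp hAc
    have h3 : B ≤ centralizer ((A ⊔ B : Subgroup G) : Set G) := le_centralizer_iff.mp hBc
    exact sup_le h2 h3
  have hcomm : ∀ x ∈ A ⊔ B, ∀ y ∈ A ⊔ B, x * y = y * x := by
    intro x hx y hy
    exact (mem_centralizer_iff.mp (h1 hy) x hx)
  refine ⟨⟨⟨fun a b => Subtype.ext (hcomm a.1 a.2 b.1 b.2)⟩⟩, ?_⟩
  intro x hx
  have hle : A ⊔ B ≤ (A ⊔ B) ⊓ (A ⊔ B) := le_inf le_rfl le_rfl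
  have key : ∀ y ∈ A ⊔ B, y ∈ A ⊔ B ∧ y ^ p = 1 := by
    intro y hy
    rw [sup_eq_closure] at hy
    induction hy using closure_induction with
    | mem y hy =>
      rcases hy with hy | hy
      · exact ⟨mem_sup_left hy, hA.2 y hy⟩
      · exact ⟨mem_sup_right hy, hB.2 y hy⟩
    | one => exact ⟨one_mem _, one_pow _⟩
    | mul y z _ _ hy hz =>
      refine ⟨mul_mem hy.1 hz.1, ?_⟩
      rw [(show Commute y z from hcomm y hy.1 z hz.1).mul_pow, hy.2, hz.2, one_mul]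
    | inv y _ hy => exact ⟨inv_mem hy.1, by rw [inv_pow, hy.2, inv_one]⟩
  exact (key x hx).2

theorem not_pRankLE_of_elementary {p k : ℕ} {E Z : Subgroup G} (hEZ : E ≤ Z)
    (hE : Cfsg.IsElementaryAbelian p E) (hk : p ^ k < Nat.card E) : ¬ Cfsg.PRankLE p k Z := by
  intro h
  have h1 := h (E.subgroupOf Z) ?_ ?_
  · rw [card_subgroupOf hEZ] at h1
    exact absurd h1 (not_le.mpr hk)
  · exact ⟨⟨fun a b => Subtype.ext (Subtype.ext (ea_comm hE (mem_subgroupOf.mp a.2) (mem_subgroupOf.mp b.2)))⟩⟩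
  · intro a ha
    exact Subtype.ext (hE.2 a.1 (mem_subgroupOf.mp ha))

theorem card_le_of_pRankLE {p k : ℕ} {E Z : Subgroup G} (h : Cfsg.PRankLE p k Z) (hEZ : E ≤ Z)
    (hE : Cfsg.IsElementaryAbelian p E) : Nat.card E ≤ p ^ k := by
  by_contra hlt
  exact not_pRankLE_of_elementary hEZ hE (not_le.mp hlt) h

/-- an elementary abelian subgroup of order `> p` in a group of `p`-rank `≤ 2` has order `p ^ 2`. -/
theorem card_eq_sq [Finite G] {p : ℕ} [hp : Fact p.Prime] {E Z : Subgroup G} (h : Cfsg.PRankLE p 2 Z)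
    (hEZ : E ≤ Z) (hE : Cfsg.IsElementaryAbelian p E) (hlt : p < Nat.card E) : Nat.card E = p ^ 2 := by
  have h1 := card_le_of_pRankLE h hEZ hE
  obtain ⟨n, hn⟩ := IsPGroup.iff_card.mp (ea_isPGroup hE)
  rw [hn] at hlt h1 ⊢
  have h2 : 1 < n := by
    have : p ^ 1 < p ^ n := by simpa using hlt
    exact (Nat.pow_lt_pow_iff_right hp.out.one_lt).mp this
  have h3 : n ≤ 2 := (Nat.pow_le_pow_iff_right hp.out.one_lt).mp h1
  have : n = 2 := by omega
  rw [this]

/-- B-G 10.5, second half: elementary abelian subgroups of order `p ^ 2` of `M` are maximal in `G`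
if `M` has `p`-rank `2`. -/
theorem ea_max_of_rank_two [Finite G] (hG : Cfsg.IsMinSimpleOddOrder G) (hU : UT G) {M : Subgroup G}
    (hM : IsCoatom M) {p : ℕ} [hp : Fact p.Prime] (hr2 : Cfsg.PRankLE p 2 M) {A B : Subgroup G}
    (hAM : A ≤ M) (hA : Cfsg.IsElementaryAbelian p A) (hA2 : Nat.card A = p ^ 2)
    (hB : Cfsg.IsElementaryAbelian p B) (hAB : A ≤ B) : B = A := by
  by_contra hne
  have hlt : A < B := lt_of_le_of_ne hAB (Ne.symm hne)
  have hcard : p ^ 2 < Nat.card B := hA2 ▸ card_lt_of_lt hlt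
  have hA1 : A ≠ ⊥ := by
    rintro rfl
    rw [Subgroup.card_bot] at hA2
    have := hp.out.one_lt
    nlinarith
  have hAtop : A ≠ ⊤ := fun h => hM.1 (top_le_iff.mp (h ▸ hAM))
  have h1 : ¬ Cfsg.RankLE 1 A := not_rankLE_of_elementary hp.out le_rfl hA (by
    rw [hA2]; exact Nat.pow_lt_pow_right hp.out.one_lt (by norm_num))
  have h2 : ¬ Cfsg.RankLE 2 (centralizer (A : Set G)) :=
    not_rankLE_of_elementary hp.out (ea_le_centralizer hB hAB) hB hcard
  have hUA := hU A hAtop h1 (Or.inr h2)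
  have hC : centralizer (A : Set G) ≤ M :=
    uniq_le hUA hM hAM (ea_le_centralizer hA le_rfl) (centralizer_ne_top' hG hA1)
  exact not_pRankLE_of_elementary ((ea_le_centralizer hB hAB).trans hC) hB hcard hr2

/-- B-G 10.5 (statement S1408), conditional on the Uniqueness Theorem. -/
theorem S1408_of [Finite G] (hG : Cfsg.IsMinSimpleOddOrder G) (hU : UT G)
    (M : Subgroup G) (hM : IsCoatom M) (p : ℕ) [hp : Fact p.Prime]
    (hr2 : Cfsg.PRankLE p 2 M) (hr1 : ¬ Cfsg.PRankLE p 1 M) :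
    ¬ Cfsg.IsIdealPrime p G ∧ ∀ A : Subgroup G, A ≤ M → Cfsg.IsElementaryAbelian p A → Nat.card A = p ^ 2 →
        ∀ B : Subgroup G, Cfsg.IsElementaryAbelian p B → A ≤ B → B = A := by
  refine ⟨?_, fun A hAM hA hA2 B hB hAB => ea_max_of_rank_two hG hU hM hr2 hAM hA hA2 hB hAB⟩
  rintro ⟨_, _, hall⟩
  obtain ⟨E, hEM, hE, hEc⟩ := exists_elementary_of_not_pRankLE hr1
  have hE2 : Nat.card E = p ^ 2 := card_eq_sq hr2 hEM hE (by simpa using hEc)
  obtain ⟨P, hP⟩ := (ea_isPGroup hE).exists_le_sylow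
  obtain ⟨B, _, hB, hEB⟩ := hall P E hP hE hE2
  exact hEB.ne (ea_max_of_rank_two hG hU hM hr2 hEM hE hE2 hB hEB.le).symm

end Cfsg.Agent.Lib.Helper2
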