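import Cfsg.Agent.Lib.Helper2.BG10A
import Cfsg.Agent.Lib.Helper3.RankTwoAut

/-!
Bender-Glauberman Theorem 10.1 (statement S1404), conditional on `UT G`.
-/

set_option autoImplicit false

namespace Cfsg.Agent.Lib.Helper2

open Subgroup Cfsg.Agent.Lib.Helper30
open scoped Pointwise commutatorElement

universe u

variable {G : Type u} [Group G]

theorem IsSylowIn_of_le {p : ℕ} {S K N : Subgroup G} (h : IsSylowIn p S N) (hSK : S ≤ K) (hKN : K ≤ N) :
    IsSylowIn p S K :=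
  ⟨hSK, h.isPGroup, fun hd => h.not_dvd (by
    rw [← relIndex_mul_relIndex S K N hSK hKN]
    exact Dvd.dvd.mul_right hd _)⟩

theorem conj_mem_centralizer' {X : Subgroup G} {m c : G} (hm : m ∈ normalizer (X : Set G))
    (hc : c ∈ centralizer (X : Set G)) : m⁻¹ * c * m ∈ centralizer (X : Set G) := by
  have h1 : m⁻¹ ∈ normalizer ((centralizer (X : Set G) : Subgroup G) : Set G) :=
    normalizer_le_normalizer_centralizer X (inv_mem hm)
  have h2 := (mem_normalizer_iff.mp h1 c).mp hc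
  simpa using h2

/-- every element of `N(X)'` has a `p`-power in `C(X)` when `X` has rank at most two. -/
theorem exists_pow_mem_centralizer [Finite G] {p : ℕ} [hpp : Fact p.Prime] (hp : p ≠ 2) {X : Subgroup G}
    (hX : IsPGroup p X) (hr : Cfsg.PRankLE p 2 X) (hsol : Group.IsSolvable (normalizer (X : Set G)))
    (hodd : Odd (Nat.card (normalizer (X : Set G)))) {h : G}
    (hh : h ∈ ⁅normalizer (X : Set G), normalizer (X : Set G)⁆) :
    ∃ k : ℕ, h ^ p ^ k ∈ centralizer (X : Set G) := by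
  have key := Cfsg.Agent.Lib.Helper3.commutator_act_trivial_of_rank_two hp hX hr hodd
    X.normalizerMonoidHom
  rw [← map_subtype_commutator] at hh
  obtain ⟨y, hy, rfl⟩ := hh
  have hy0 : orderOf y ≠ 0 := (orderOf_pos y).ne'
  obtain ⟨k, m, hm, hkm⟩ := Nat.exists_eq_pow_mul_and_not_dvd hy0 p hpp.out.ne_one
  refine ⟨k, ?_⟩
  have hcop : m.Coprime p := (Nat.Coprime.symm ((Nat.Prime.coprime_iff_not_dvd hpp.out).mpr hm))
  have hpow : (y ^ p ^ k) ^ m = 1 := by
    rw [← pow_mul, ← hkm, pow_orderOf_eq_one]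
  have hord : (orderOf (X.normalizerMonoidHom (y ^ p ^ k))).Coprime p := by
    apply Nat.Coprime.coprime_dvd_left _ hcop
    apply orderOf_dvd_of_pow_eq_one
    rw [← map_pow, hpow, map_one]
  have h1 := key _ (Subgroup.pow_mem _ hy _) hord
  rw [mem_centralizer_iff]
  intro r hr'
  have h3 := congrArg (fun a : MulAut ↥X => ((a ⟨r, hr'⟩ : ↥X) : G)) h1
  have h4 : ((y ^ p ^ k : normalizer (X : Set G)) : G) * r * ((y ^ p ^ k : normalizer (X : Set G)) : G)⁻¹ = r := h3
  rw [mul_inv_eq_iff_eq_mul] at h4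
  simpa using h4.symm

theorem commutator_le_sup_sylow [Finite G] {p : ℕ} [hpp : Fact p.Prime] {N C S : Subgroup G}
    (hCN : C ≤ N) (hNC : N ≤ normalizer (C : Set G))
    (hstep : ∀ h ∈ ⁅N, N⁆, ∃ k : ℕ, h ^ p ^ k ∈ C) (hS : IsSylowIn p S N) :
    ⁅N, N⁆ ≤ C ⊔ S := by
  have hNN : N ≤ normalizer (N : Set G) := le_normalizer
  have hN' : N ≤ normalizer ((⁅N, N⁆ : Subgroup G) : Set G) := le_normalizer_commutator hNN hNN
  have hN'N : ⁅N, N⁆ ≤ N := commutator_le_of_le_normalizer hNN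
  obtain ⟨D, hD⟩ : ∃ D, D = ⁅N, N⁆ ⊔ C := ⟨_, rfl⟩
  have hDN : D ≤ N := hD ▸ sup_le hN'N hCN
  have hCD : C ≤ D := hD ▸ le_sup_right
  have hND : N ≤ normalizer (D : Set G) := hD ▸ le_normalizer_sup hN' hNC
  have : (C.subgroupOf D).Normal := normal_subgroupOf_of_le_normalizer (hDN.trans hNC)
  have hpq : IsPGroup p (D ⧸ C.subgroupOf D) := by
    intro q
    obtain ⟨d, rfl⟩ := QuotientGroup.mk_surjective q
    have hd : (d : G) ∈ ⁅N, N⁆ ⊔ C := hD ▸ d.2
    obtain ⟨h, hh, c, hc, hdc⟩ := (mem_sup_of_le_normalizer (hCN.trans hN')).mp hd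
    obtain ⟨k, hk⟩ := hstep h hh
    refine ⟨k, ?_⟩
    have hhD : h ∈ D := hD ▸ mem_sup_left hh
    have e1 : (QuotientGroup.mk d : D ⧸ C.subgroupOf D) = QuotientGroup.mk (⟨h, hhD⟩ : D) := by
      symm
      rw [QuotientGroup.eq, mem_subgroupOf]
      show h⁻¹ * (d : G) ∈ C
      rw [hdc]
      simpa using hc
    rw [e1, ← QuotientGroup.mk_pow, QuotientGroup.eq_one_iff, mem_subgroupOf]
    exact hk
  obtain ⟨n, hn⟩ := IsPGroup.iff_card.mp hpq
  have hrel : C.relIndex D = p ^ n := by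
    rw [relIndex, index_eq_card, hn]
  obtain ⟨T, hT⟩ := exists_isSylowIn p D
  have h1 : (C ⊔ T).relIndex D = 1 := by
    have d1 : (C ⊔ T).relIndex D ∣ p ^ n := hrel ▸ relIndex_dvd_of_le_left D le_sup_left
    have d2 : (C ⊔ T).relIndex D ∣ T.relIndex D := relIndex_dvd_of_le_left D le_sup_right
    obtain ⟨j, _, hj⟩ := (Nat.dvd_prime_pow hpp.out).mp d1
    rcases Nat.eq_zero_or_pos j with rfl | hjpos
    · simpa using hj
    · exfalso
      apply hT.not_dvd
      refine dvd_trans ?_ d2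
      rw [hj]
      exact dvd_pow_self p hjpos.ne'
  have h2 : D ≤ C ⊔ T := relIndex_eq_one.mp h1
  obtain ⟨S', hS', hTS'⟩ := exists_isSylowIn_ge (hT.le.trans hDN) hT.isPGroup
  obtain ⟨x, hx, rfl⟩ := hS.conj hS'
  have h3 : D ≤ cj x (C ⊔ S) := by
    rw [cj_sup, cj_eq_of_mem_normalizer (hNC hx)]
    exact h2.trans (sup_le_sup_left hTS' C)
  have h4 : cj x⁻¹ D = D := cj_eq_of_mem_normalizer (hND (inv_mem hx))
  have h5 : D ≤ C ⊔ S := by
    rw [← h4]
    exact cj_le_iff.mpr (by simpa using h3)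
  exact (hD ▸ le_sup_left : ⁅N, N⁆ ≤ D).trans h5

theorem commutator_normalizer_le [Finite G] {p : ℕ} [hpp : Fact p.Prime] (hp : p ≠ 2) {X S : Subgroup G}
    (hX : IsPGroup p X) (hr : Cfsg.PRankLE p 2 X) (hsol : Group.IsSolvable (normalizer (X : Set G)))
    (hodd : Odd (Nat.card (normalizer (X : Set G)))) (hS : IsSylowIn p S (normalizer (X : Set G))) :
    ⁅normalizer (X : Set G), normalizer (X : Set G)⁆ ≤ centralizer (X : Set G) ⊔ S :=
  commutator_le_sup_sylow (centralizer_le_normalizer' X) (normalizer_le_normalizer_centralizer X)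
    (fun _ hh => exists_pow_mem_centralizer hp hX hr hsol hodd hh) hS

/-- Frattini-type consequence. -/
theorem exists_centralizer_conj [Finite G] {p : ℕ} [hpp : Fact p.Prime] (hp : p ≠ 2) {X S : Subgroup G}
    (hX : IsPGroup p X) (hr : Cfsg.PRankLE p 2 X) (hsol : Group.IsSolvable (normalizer (X : Set G)))
    (hodd : Odd (Nat.card (normalizer (X : Set G)))) (hS : IsSylowIn p S (normalizer (X : Set G)))
    {n : G} (hn : n ∈ normalizer (X : Set G)) :
    ∃ c ∈ centralizer (X : Set G), cj n S = cj c S := by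
  have hcomm := commutator_normalizer_le hp hX hr hsol hodd hS
  have hCN : centralizer (X : Set G) ≤ normalizer (X : Set G) := centralizer_le_normalizer' X
  have hKN : centralizer (X : Set G) ⊔ S ≤ normalizer (X : Set G) := sup_le hCN hS.le
  have h1 : cj n S ≤ centralizer (X : Set G) ⊔ S := by
    rintro _ ⟨s, hs, rfl⟩
    have e : (MulAut.conj n).toMonoidHom s = ⁅n, s⁆ * s := by
      simp [commutatorElement_def]
    rw [e]
    exact mul_mem (hcomm (commutator_mem_commutator hn (hS.le hs))) (mem_sup_right hs)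
  have hS1 : IsSylowIn p S (centralizer (X : Set G) ⊔ S) := IsSylowIn_of_le hS le_sup_right hKN
  have hS2 : IsSylowIn p (cj n S) (normalizer (X : Set G)) := by
    have := hS.cj n
    rwa [cj_eq_of_mem hn] at this
  have hS3 : IsSylowIn p (cj n S) (centralizer (X : Set G) ⊔ S) := IsSylowIn_of_le hS2 h1 hKN
  obtain ⟨k, hk, hk2⟩ := hS1.conj hS3
  obtain ⟨c, hc, s, hs, rfl⟩ := (mem_sup_of_le_normalizer
    (hS.le.trans (normalizer_le_normalizer_centralizer X))).mp hk
  refine ⟨c, hc, ?_⟩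
  rw [hk2, cj_mul, cj_eq_of_mem hs]

/-- the conclusion of B-G 10.1(a) for the subgroup `X`. -/
def Ctl (M X : Subgroup G) : Prop :=
  ∀ g : G, cj g X ≤ M → ∃ m ∈ M, ∃ c ∈ centralizer (X : Set G), g = m * c

theorem ctl_aux [Finite G] (hG : Cfsg.IsMinSimpleOddOrder G) (hU : UT G) {M : Subgroup G}
    (hM : IsCoatom M) {p : ℕ} [hpp : Fact p.Prime] {P0 : Subgroup G} (hP0 : IsSylowIn p P0 M)
    (hNP0 : normalizer (P0 : Set G) ≤ M) :
    ∀ (k : ℕ) (X : Subgroup G), Nat.card P0 ≤ Nat.card X + k → IsPGroup p X → X ≠ ⊥ → X ≤ M →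
      Ctl M X := by
  have F1 : ∀ P, IsSylowIn p P M → normalizer (P : Set G) ≤ M := by
    intro P hP
    obtain ⟨m, hm, rfl⟩ := hP0.conj hP
    rw [normalizer_cj]
    calc cj m (normalizer (P0 : Set G)) ≤ cj m M := cj_mono m hNP0
      _ = M := cj_eq_of_mem hm
  have F3 : ∀ P, IsSylowIn p P M → Nat.card P = Nat.card P0 := by
    intro P hP
    obtain ⟨m, hm, rfl⟩ := hP0.conj hP
    exact card_cj _ _
  have F4 : ∀ Y : Subgroup G, IsPGroup p Y → ∃ h : G, cj h Y ≤ P0 := by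
    intro Y hY
    obtain ⟨Q, hQ, hYQ⟩ := exists_isSylowIn_ge (le_top : Y ≤ ⊤) hY
    obtain ⟨h, _, rfl⟩ := (isSylowIn_top_of_normalizer_le hP0 hNP0).conj hQ
    exact ⟨h⁻¹, cj_le_iff.mpr (by simpa using hYQ)⟩
  intro k
  induction k with
  | zero =>
    intro X hcard hX hX1 hXM g hg
    obtain ⟨P, hP, hXP⟩ := exists_isSylowIn_ge hXM hX
    have hXP' : X = P := eq_of_le_of_card_ge hXP (by rw [F3 P hP]; simpa using hcard)
    subst hXP'
    obtain ⟨P', hP', hgP'⟩ := exists_isSylowIn_ge hg (isPGroup_cj g hX)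
    have e1 : cj g X = P' := eq_of_le_of_card_ge hgP' (by rw [F3 P' hP', card_cj, F3 X hP])
    obtain ⟨m, hm, hm2⟩ := hP.conj hP'
    have e2 : cj (m⁻¹ * g) X = X := by rw [cj_mul, e1, hm2, cj_inv_cj]
    have h3 : m⁻¹ * g ∈ M := F1 X hP (mem_normalizer_of_cj_eq e2)
    refine ⟨g, ?_, 1, one_mem _, (mul_one g).symm⟩
    have := mul_mem hm h3
    simpa using this
  | succ k ih =>
    intro X hcard hX hX1 hXM
    by_cases hcard0 : Nat.card P0 ≤ Nat.card X + k
    · exact ih X hcard0 hX hX1 hXM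
    have hlt0 : Nat.card X < Nat.card P0 := by omega
    -- induction hypothesis in convenient form
    have IH : ∀ Y : Subgroup G, IsPGroup p Y → Y ≤ M → Nat.card X < Nat.card Y → Ctl M Y := by
      intro Y hY hYM hlt
      refine ih Y (by omega) hY ?_ hYM
      rintro rfl
      rw [Subgroup.card_bot] at hlt
      have : 0 < Nat.card X := Nat.card_pos
      omega
    have hXtop : X ≠ ⊤ := fun h => hM.1 (top_le_iff.mp (h ▸ hXM))
    have hNtop : normalizer (X : Set G) ≠ ⊤ := normalizer_ne_top hG hX1 hXtop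
    have hCN : centralizer (X : Set G) ≤ normalizer (X : Set G) := centralizer_le_normalizer' X
    have hXN : X ≤ normalizer (X : Set G) := le_normalizer
    -- growth of normalizers
    have grow : ∀ Q : Subgroup G, IsPGroup p Q → X ≤ Q → Nat.card X < Nat.card Q →
        Nat.card X < Nat.card (Q ⊓ normalizer (X : Set G) : Subgroup G) := by
      intro Q hQ hXQ hlt
      have hltQ : X < Q := lt_of_le_of_ne hXQ (by rintro rfl; exact lt_irrefl _ hlt)
      obtain ⟨t, htQ, htN, htX⟩ := exists_mem_normalizer_not_mem hQ hltQ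
      apply card_lt_of_lt
      refine lt_of_le_of_ne (le_inf hXQ hXN) ?_
      intro h
      exact htX (h ▸ (⟨htQ, htN⟩ : t ∈ Q ⊓ normalizer (X : Set G)))
    obtain ⟨P, hP, hXP⟩ := exists_isSylowIn_ge hXM hX
    obtain ⟨R, hR⟩ : ∃ R, R = P ⊓ normalizer (X : Set G) := ⟨_, rfl⟩
    have hRcard : Nat.card X < Nat.card R := hR ▸ grow P hP.isPGroup hXP (by rw [F3 P hP]; exact hlt0)
    have hRP : R ≤ P := hR ▸ inf_le_left
    have hRN : R ≤ normalizer (X : Set G) := hR ▸ inf_le_right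
    have hXR : X ≤ R := hR ▸ le_inf hXP hXN
    have hRp : IsPGroup p R := hP.isPGroup.to_le hRP
    have hRM : R ≤ M := hRP.trans hP.le
    -- a Sylow subgroup of `N(X)` inside `M`
    obtain ⟨S, hS, hRS, hSM⟩ : ∃ S, IsSylowIn p S (normalizer (X : Set G)) ∧ R ≤ S ∧ S ≤ M := by
      obtain ⟨S0, hS0, hRS0⟩ := exists_isSylowIn_ge hRN hRp
      obtain ⟨h, hh⟩ := F4 S0 hS0.isPGroup
      obtain ⟨m, hm, c, hc, rfl⟩ := IH R hRp hRM hRcard h (((cj_mono h hRS0).trans hh).trans hP0.le)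
      have hcX : c ∈ centralizer (X : Set G) := centralizer_le hXR hc
      refine ⟨cj c S0, ?_, ?_, ?_⟩
      · have := hS0.cj c
        rwa [cj_eq_of_mem (hCN hcX)] at this
      · have e : cj c R = R := cj_eq_of_mem_normalizer (centralizer_le_normalizer' R hc)
        rw [← e]
        exact cj_mono c hRS0
      · have h1 : cj m (cj c S0) ≤ M := by
          rw [← cj_mul]; exact hh.trans hP0.le
        have h2 := cj_le_iff.mp h1
        rwa [cj_eq_of_mem (inv_mem hm)] at h2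
    have hXS : X ≤ S := hXR.trans hRS
    have hScard : Nat.card X < Nat.card S :=
      lt_of_lt_of_le hRcard (Subgroup.card_le_of_le hRS)
    have hpG : p ∣ Nat.card G :=
      (dvd_card_of_isPGroup_ne_bot hX hX1).trans (Subgroup.card_subgroup_dvd_card X)
    have hp2 : p ≠ 2 := ne_two_of_dvd_card hG hpG
    -- (i) the normalizer
    have hi : ∀ n ∈ normalizer (X : Set G), ∃ m ∈ M, ∃ c ∈ centralizer (X : Set G), n = m * c := by
      intro n hn
      by_cases hr : Cfsg.PRankLE p 2 X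
      · obtain ⟨c', hc', hcj⟩ := exists_centralizer_conj hp2 hX hr (solvable_of_ne_top hG hNtop)
          (Odd.of_dvd_nat hG.1 (Subgroup.card_subgroup_dvd_card _)) hS hn
        have e1 : cj (c'⁻¹ * n) S = S := by rw [cj_mul, hcj, cj_inv_cj]
        obtain ⟨m, hm, c'', hc'', hmc⟩ := IH S hS.isPGroup hSM hScard (c'⁻¹ * n) (e1.le.trans hSM)
        have hc''X : c'' ∈ centralizer (X : Set G) := centralizer_le hXS hc''
        have hmN : m ∈ normalizer (X : Set G) := by
          have : m = c'⁻¹ * n * c''⁻¹ := by rw [hmc]; group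
          rw [this]
          exact mul_mem (mul_mem (inv_mem (hCN hc')) hn) (inv_mem (hCN hc''X))
        refine ⟨m, hm, m⁻¹ * c' * m * c'', mul_mem (conj_mem_centralizer' hmN hc') hc''X, ?_⟩
        have : n = c' * (m * c'') := by rw [← hmc]; group
        rw [this]; group
      · obtain ⟨E, hEX, hE, hEc⟩ := exists_elementary_of_not_pRankLE hr
        have h2 : ¬ Cfsg.RankLE 2 X := not_rankLE_of_elementary hpp.out hEX hE hEc
        have h1 : ¬ Cfsg.RankLE 1 X := not_rankLE_of_elementary hpp.out hEX hE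
          (lt_trans (Nat.pow_lt_pow_right hpp.out.one_lt (by norm_num)) hEc)
        have hUX := hU X hXtop h1 (Or.inl h2)
        exact ⟨n, uniq_le hUX hM hXM hXN hNtop hn, 1, one_mem _, (mul_one n).symm⟩
    -- (ii) the general case
    intro g hg
    obtain ⟨P1, hP1, hgP1⟩ := exists_isSylowIn_ge hg (isPGroup_cj g hX)
    obtain ⟨P2, hP2⟩ : ∃ P2, P2 = cj g⁻¹ P1 := ⟨_, rfl⟩
    have hXP2 : X ≤ P2 := hP2 ▸ cj_le_iff.mp hgP1
    have hP2p : IsPGroup p P2 := hP2 ▸ isPGroup_cj _ hP1.isPGroup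
    have hP2card : Nat.card X < Nat.card P2 := by rw [hP2, card_cj, F3 P1 hP1]; exact hlt0
    obtain ⟨R2, hR2⟩ : ∃ R2, R2 = P2 ⊓ normalizer (X : Set G) := ⟨_, rfl⟩
    have hR2card : Nat.card X < Nat.card R2 := hR2 ▸ grow P2 hP2p hXP2 hP2card
    have hR2P : R2 ≤ P2 := hR2 ▸ inf_le_left
    have hR2N : R2 ≤ normalizer (X : Set G) := hR2 ▸ inf_le_right
    have hXR2 : X ≤ R2 := hR2 ▸ le_inf hXP2 hXN
    have hR2p : IsPGroup p R2 := hP2p.to_le hR2P
    obtain ⟨S2, hS2, hR2S2⟩ := exists_isSylowIn_ge hR2N hR2p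
    obtain ⟨n', hn', rfl⟩ := hS.conj hS2
    obtain ⟨Y, hY⟩ : ∃ Y, Y = cj n'⁻¹ R2 := ⟨_, rfl⟩
    have hYS : Y ≤ S := hY ▸ cj_le_iff.mpr (by simpa using hR2S2)
    have hYcard : Nat.card X < Nat.card Y := by rw [hY, card_cj]; exact hR2card
    have hXY : X ≤ Y := by
      have e : cj n'⁻¹ X = X := cj_eq_of_mem_normalizer (inv_mem hn')
      rw [hY, ← e]
      exact cj_mono _ hXR2
    have hgY : cj (g * n') Y ≤ M := by
      rw [hY, cj_mul, cj_cj_inv]
      calc cj g R2 ≤ cj g P2 := cj_mono g hR2P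
        _ = P1 := by rw [hP2, cj_cj_inv]
        _ ≤ M := hP1.le
    obtain ⟨m, hm, c, hc, hmc⟩ := IH Y (hS.isPGroup.to_le hYS) (hYS.trans hSM) hYcard (g * n') hgY
    have hcX : c ∈ centralizer (X : Set G) := centralizer_le hXY hc
    obtain ⟨m', hm', c', hc', hmc'⟩ := hi n'⁻¹ (inv_mem hn')
    have hm'N : m' ∈ normalizer (X : Set G) := by
      have : m' = n'⁻¹ * c'⁻¹ := by rw [hmc']; group
      rw [this]
      exact mul_mem (inv_mem hn') (inv_mem (hCN hc'))
    refine ⟨m * m', mul_mem hm hm', m'⁻¹ * c * m' * c', mul_mem (conj_mem_centralizer' hm'N hcX) hc', ?_⟩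
    have : g = (m * c) * (m' * c') := by rw [← hmc, ← hmc']; group
    rw [this]; group

/-- the Sylow subgroup witnessing `p ∈ σ(M)`. -/
theorem exists_sylow_of_mem_sigma [Finite G] {M : Subgroup G} {p : ℕ} [Fact p.Prime]
    (hp : p ∈ Cfsg.sigma M) : ∃ P0, IsSylowIn p P0 M ∧ normalizer (P0 : Set G) ≤ M := by
  obtain ⟨_, _, P, hP⟩ := hp
  exact ⟨_, isSylowIn_of_sylow P, hP⟩

theorem ctl_of_mem_sigma [Finite G] (hG : Cfsg.IsMinSimpleOddOrder G) (hU : UT G) {M : Subgroup G}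
    (hM : IsCoatom M) {p : ℕ} [Fact p.Prime] (hp : p ∈ Cfsg.sigma M) {X : Subgroup G}
    (hXp : IsPGroup p X) (hX1 : X ≠ ⊥) (hXM : X ≤ M) : Ctl M X := by
  obtain ⟨P0, hP0, hNP0⟩ := exists_sylow_of_mem_sigma hp
  exact ctl_aux hG hU hM hP0 hNP0 (Nat.card P0) X (Nat.le_add_left _ _) hXp hX1 hXM

/-- B-G 10.1 (statement S1404), conditional on the Uniqueness Theorem. -/
theorem S1404_of [Finite G] (hG : Cfsg.IsMinSimpleOddOrder G) (hU : UT G)
    (M : Subgroup G) (hM : IsCoatom M) (p : ℕ) [Fact p.Prime] (hp : p ∈ Cfsg.sigma M)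
    (X : Subgroup G) (hXp : IsPGroup p X) (hX1 : X ≠ ⊥) (hXM : X ≤ M) :
    (∀ g : G, X.map (MulAut.conj g).toMonoidHom ≤ M → ∃ m ∈ M, ∃ c ∈ Subgroup.centralizer (X : Set G), g = m * c) ∧
      Subgroup.normalizer (X : Set G) = (M ⊓ Subgroup.normalizer (X : Set G)) ⊔ Subgroup.centralizer (X : Set G) := by
  have h := ctl_of_mem_sigma hG hU hM hp hXp hX1 hXM
  refine ⟨h, le_antisymm ?_ (sup_le inf_le_right (centralizer_le_normalizer' X))⟩
  intro n hn
  obtain ⟨m, hm, c, hc, rfl⟩ := h n ((cj_eq_of_mem_normalizer hn).le.trans hXM)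
  refine mul_mem (mem_sup_left (mem_inf.mpr ⟨hm, ?_⟩)) (mem_sup_right hc)
  have : m = m * c * c⁻¹ := by group
  rw [this]
  exact mul_mem hn (inv_mem (centralizer_le_normalizer' X hc))

end Cfsg.Agent.Lib.Helper2
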