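import Cfsg.Agent.Lib.Helper2.BG96D
import Cfsg.Agent.Lib.Helper68.BG10C
import Cfsg.Agent.S1453

/-!
Bender-Glauberman Lemma 10.3 (statement S1406), conditional on `UT G` (S1403) and on the Hall
property of `M_α` (part of S1405).
-/

set_option autoImplicit false
set_option linter.unusedSectionVars false

namespace Cfsg.Agent.Lib.Helper2

open Subgroup Cfsg.Agent.Lib.Helper30 Cfsg.Agent.Lib.Helper2.BG96
open scoped commutatorElement

universe u

variable {G : Type u} [Group G]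

theorem closure_pow_characteristic {R : Type u} [Group R] (C : Subgroup R) [hC : C.Characteristic]
    (p : ℕ) : (Subgroup.closure {x : R | x ∈ C ∧ x ^ p = 1}).Characteristic := by
  rw [characteristic_iff_map_le]
  intro φ
  rw [MonoidHom.map_closure, Subgroup.closure_le]
  rintro _ ⟨x, ⟨hx1, hx2⟩, rfl⟩
  apply Subgroup.subset_closure
  refine ⟨(characteristic_iff_le_comap.mp hC φ) hx1, ?_⟩
  change (φ x) ^ p = 1
  rw [← map_pow, hx2, map_one]

/-- An automorphism of order prime to `p` of a `p`-group `R` of rank at least `3` that centralizes a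
maximal elementary abelian subgroup of order `p ^ 2` centralizes `Ω₁(Z₂(R))`. -/
theorem aut_fixes_W {R : Type u} [Group R] [Finite R] {p : ℕ} [hp : Fact p.Prime] (hp2 : p ≠ 2)
    (hR : IsPGroup p R) (hr : ¬ Cfsg.PRankLE p 2 R) {E : Subgroup R}
    (hE : Cfsg.IsElementaryAbelian p E) (hE2 : Nat.card E = p ^ 2)
    (hEmax : ∀ B : Subgroup R, Cfsg.IsElementaryAbelian p B → E ≤ B → B = E)
    (φ : MulAut R) {n : ℕ} (hn : n.Coprime p) (hφn : φ ^ n = 1) (hφE : ∀ e ∈ E, φ e = e) :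
    ∀ w ∈ Subgroup.closure {x : R | x ∈ Subgroup.upperCentralSeries R 2 ∧ x ^ p = 1}, φ w = w := by
  obtain ⟨hEW, hZc, ⟨hW, hWc⟩, -, -⟩ := Cfsg.Agent.S1453.result p hp2 hR hr E hE hE2 hEmax
  have hWchar := closure_pow_characteristic (Subgroup.upperCentralSeries R 2) p
  set W := Subgroup.closure {x : R | x ∈ Subgroup.upperCentralSeries R 2 ∧ x ^ p = 1} with hWdef
  set Z := Subgroup.closure {x : R | x ∈ center R ∧ x ^ p = 1} with hZdef
  have hWn : W.Normal := inferInstance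
  have hWZ2 : W ≤ Subgroup.upperCentralSeries R 2 := (Subgroup.closure_le _).mpr (fun x hx => hx.1)
  have hZcen : Z ≤ center R := (Subgroup.closure_le _).mpr (fun x hx => hx.1)
  have hZW : Z ≤ W := Subgroup.closure_mono (fun x hx =>
    ⟨Subgroup.upperCentralSeries_mono R (by norm_num : 1 ≤ 2) (by rw [Subgroup.upperCentralSeries_one]; exact hx.1), hx.2⟩)
  have hZea : Cfsg.IsElementaryAbelian p Z := ea_of_le hW hZW
  have hZE : Z ≤ E := by
    have h1 := hEmax (E ⊔ Z) (ea_sup hE hZea (fun a _ b hb => mem_center_iff.mp (hZcen hb) a))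
      le_sup_left
    exact h1 ▸ le_sup_right
  obtain ⟨b, hbE, hbW⟩ := SetLike.not_le_iff_exists.mp hEW
  have hc : ∀ w ∈ W, ⁅w, b⁆ ∈ Z := by
    intro w hw
    apply Subgroup.subset_closure
    refine ⟨?_, hW.2 _ ?_⟩
    · have h1 := (Subgroup.mem_upperCentralSeries_succ_iff (n := 1)).mp (hWZ2 hw) b
      rwa [Subgroup.upperCentralSeries_one] at h1
    · rw [commutatorElement_def, mul_assoc, mul_assoc, ← mul_assoc b]
      exact mul_mem hw (hWn.conj_mem _ (inv_mem hw) b)
  have hker : ∀ d ∈ W, d * b = b * d → d ∈ Z := by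
    set K := W ⊓ centralizer {b} with hK
    have hZK : Z ≤ K := le_inf hZW (fun z hz => by
      rw [mem_centralizer_singleton_iff]
      exact (mem_center_iff.mp (hZcen hz) b).symm)
    have hKW : K ≠ W := by
      intro h
      apply hbW
      rw [mem_centralizer_iff]
      intro w hw
      have h1 : w ∈ K := h ▸ hw
      exact (mem_centralizer_singleton_iff.mp h1.2)
    obtain ⟨k, hk, hKc⟩ := (Nat.dvd_prime_pow hp.out).mp
      (hWc ▸ card_dvd_of_le (inf_le_left : K ≤ W))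
    have hk2 : k ≠ 2 := by
      rintro rfl
      exact hKW (eq_of_le_of_card_ge inf_le_left (by rw [hWc, hKc]))
    have hk0 : k ≠ 0 := by
      rintro rfl
      have h1 := card_le_of_le hZK
      rw [hZc, hKc, pow_zero] at h1
      exact absurd h1 (not_le.mpr hp.out.one_lt)
    have hk1 : k = 1 := by omega
    have hZKeq : Z = K := eq_of_le_of_card_ge hZK (by rw [hZc, hKc, hk1, pow_one])
    intro d hd hdb
    rw [hZKeq]
    exact mem_inf.mpr ⟨hd, mem_centralizer_singleton_iff.mpr hdb⟩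
  intro w hw
  have hu : φ w ∈ W := (characteristic_iff_le_comap.mp hWchar φ) hw
  set d := w⁻¹ * φ w with hd
  have hdW : d ∈ W := mul_mem (inv_mem hw) hu
  have hcomm : ⁅φ w, b⁆ = ⁅w, b⁆ := by
    have h1 : φ ⁅w, b⁆ = ⁅w, b⁆ := hφE _ (hZE (hc w hw))
    rw [map_commutatorElement, hφE b hbE] at h1
    exact h1
  have hdb : d * b = b * d := by
    rw [commutatorElement_def, commutatorElement_def] at hcomm
    have h' : φ w * b * (φ w)⁻¹ = w * b * w⁻¹ := mul_right_cancel hcomm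
    calc d * b = w⁻¹ * (φ w * b * (φ w)⁻¹) * φ w := by rw [hd]; group
      _ = w⁻¹ * (w * b * w⁻¹) * φ w := by rw [h']
      _ = b * d := by rw [hd]; group
  have hdZ := hker d hdW hdb
  have hφd : φ d = d := hφE d (hZE hdZ)
  have hφw : φ w = w * d := by rw [hd]; group
  have hpow : ∀ k : ℕ, (φ ^ k) w = w * d ^ k := by
    intro k
    induction k with
    | zero => simp
    | succ k ih =>
      rw [pow_succ', MulAut.mul_apply, ih, map_mul, map_pow, hφd, hφw, pow_succ', mul_assoc]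
  have h1 := hpow n
  rw [hφn, MulAut.one_apply] at h1
  have h2 : d ^ n = 1 := by
    have : w * 1 = w * d ^ n := by rw [mul_one]; exact h1
    exact (mul_left_cancel this).symm
  have h3 : d ^ p = 1 := hW.2 d hdW
  have h4 : orderOf d ∣ Nat.gcd n p :=
    Nat.dvd_gcd (orderOf_dvd_of_pow_eq_one h2) (orderOf_dvd_of_pow_eq_one h3)
  rw [hn, Nat.dvd_one, orderOf_eq_one_iff] at h4
  rw [hφw, h4, mul_one]

theorem exists_W_centralized [Finite G] {p : ℕ} [hp : Fact p.Prime] (hp2 : p ≠ 2) {P B : Subgroup G}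
    (hP : IsPGroup p P) (hr : ¬ Cfsg.PRankLE p 2 P) (hBP : B ≤ P)
    (hB : Cfsg.IsElementaryAbelian p B) (hB2 : Nat.card B = p ^ 2)
    (hmax : ∀ B' : Subgroup G, B' ≤ P → Cfsg.IsElementaryAbelian p B' → B ≤ B' → B' = B) :
    ∃ W : Subgroup G, W ≤ P ∧ P ≤ normalizer (W : Set G) ∧ Cfsg.IsElementaryAbelian p W ∧
      Nat.card W = p ^ 2 ∧ ∀ x ∈ normalizer (P : Set G), x ∈ centralizer (B : Set G) →
        (orderOf x).Coprime p → x ∈ centralizer (W : Set G) := by
  have hE := Cfsg.Agent.Lib.Helper58.BG9.elementary_subgroupOf hB P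
  have hE2 : Nat.card (B.subgroupOf P) = p ^ 2 := by rw [card_subgroupOf hBP, hB2]
  have hEmax : ∀ B'' : Subgroup P, Cfsg.IsElementaryAbelian p B'' → B.subgroupOf P ≤ B'' →
      B'' = B.subgroupOf P := by
    intro B'' hB'' hle
    have h1 := hmax (B''.map P.subtype) (map_subtype_le _)
      (Cfsg.Agent.Lib.Helper58.BG9.elementary_map hB''.1 hB''.2) (by
        intro b hb
        exact ⟨⟨b, hBP hb⟩, hle (mem_subgroupOf.mpr hb), rfl⟩)
    rw [← h1, subgroupOf, comap_map_eq_self_of_injective P.subtype_injective]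
  obtain ⟨-, -, ⟨hW, hWc⟩, -, -⟩ :=
    Cfsg.Agent.S1453.result (R := P) p hp2 hP hr (B.subgroupOf P) hE hE2 hEmax
  have hWchar := closure_pow_characteristic (Subgroup.upperCentralSeries P 2) p
  have hfix := fun (φ : MulAut P) (n : ℕ) (hn : n.Coprime p) (h1 : φ ^ n = 1)
    (h2 : ∀ e ∈ B.subgroupOf P, φ e = e) => aut_fixes_W hp2 hP hr hE hE2 hEmax φ hn h1 h2
  set W := Subgroup.closure {x : P | x ∈ Subgroup.upperCentralSeries P 2 ∧ x ^ p = 1} with hWdef
  have hWn : W.Normal := inferInstance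
  refine ⟨W.map P.subtype, map_subtype_le _, Cfsg.Agent.Lib.Helper28.le_normalizer_map_subtype hWn,
    Cfsg.Agent.Lib.Helper58.BG9.elementary_map hW.1 hW.2,
    by rw [card_map_of_injective P.subtype_injective, hWc], ?_⟩
  intro x hxP hxB hxo
  have h1 : (P.normalizerMonoidHom ⟨x, hxP⟩) ^ (orderOf x) = 1 := by
    rw [← map_pow]
    have : (⟨x, hxP⟩ : normalizer (P : Set G)) ^ orderOf x = 1 :=
      Subtype.ext (by simp [pow_orderOf_eq_one])
    rw [this, map_one]
  have h2 : ∀ e ∈ B.subgroupOf P, (P.normalizerMonoidHom ⟨x, hxP⟩) e = e := by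
    intro e he
    apply Subtype.ext
    change x * (e : G) * x⁻¹ = e
    rw [← mem_centralizer_iff.mp hxB e (mem_subgroupOf.mp he)]
    group
  rw [mem_centralizer_iff]
  rintro _ ⟨w, hw, rfl⟩
  have h3 := congrArg Subtype.val (hfix _ _ hxo h1 h2 w hw)
  change x * (w : G) * x⁻¹ = w at h3
  change (w : G) * x = x * w
  calc (w : G) * x = (x * (w : G) * x⁻¹) * x := by rw [h3]
    _ = x * w := by group

/-- B-G Lemma 10.3, conditionally. -/
theorem S1406_of [Finite G] (hG : Cfsg.IsMinSimpleOddOrder G) (hU : UT G)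
    (h5 : Cfsg.Agent.Lib.Helper68.T1405 G)
    (M : Subgroup G) (hM : IsCoatom M) (X : Subgroup G) (hXM : X ≤ M)
    (hXα : ∀ p : ℕ, p.Prime → p ∣ Nat.card X → p ∉ Cfsg.alpha M)
    (hr : ¬ Cfsg.RankLE 1 ↥(Cfsg.alphaCore M ⊓ Subgroup.centralizer (X : Set G))) :
    Cfsg.InUniqueMaximal (M ⊓ Subgroup.centralizer (X : Set G)) := by
  obtain ⟨hαM, hαpi, hαidx⟩ := h5 M hM
  obtain ⟨p, hp, B0, hB0le, hB0, hB0c⟩ := exists_elementary_of_not_rankLE hr
  have : Fact p.Prime := ⟨hp⟩
  obtain ⟨B, hBB0, hB2⟩ := Cfsg.Agent.Lib.Helper58.BG9.exists_le_card_eq (k := 2) (ea_isPGroup hB0)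
    (Cfsg.Agent.Lib.Helper58.BG9.pow_succ_le_card_of_lt (ea_isPGroup hB0) hB0c)
  have hB := ea_of_le hB0 hBB0
  have hBα : B ≤ Cfsg.alphaCore M := (hBB0.trans hB0le).trans inf_le_left
  have hBX : B ≤ centralizer (X : Set G) := (hBB0.trans hB0le).trans inf_le_right
  have hBM : B ≤ M := hBα.trans hαM
  have hpB : p ∣ Nat.card B := by rw [hB2]; exact dvd_pow_self p (by norm_num)
  have hpα : p ∈ Cfsg.alpha M := hαpi p hp (hpB.trans (card_dvd_of_le hBα))
  have hp2 : p ≠ 2 := ne_two_of_dvd_card hG (hpB.trans (Subgroup.card_subgroup_dvd_card B))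
  have hcop : (Nat.card X).Coprime (Nat.card (Cfsg.alphaCore M)) := by
    apply Nat.coprime_of_dvd
    intro k hk hkX hkα
    exact hXα k hk hkX (hαpi k hk hkα)
  have hXN : X ≤ normalizer (Cfsg.alphaCore M : Set G) :=
    hXM.trans (le_normalizer_piCoreOf (Cfsg.alpha M) M)
  have hXB : X ≤ centralizer (B : Set G) := le_centralizer_iff.mp hBX
  have hXsol : Group.IsSolvable X :=
    solvable_of_ne_top hG (fun h => hM.1 (top_le_iff.mp (h ▸ hXM)))
  obtain ⟨P, hP, hBP, hXP⟩ := exists_invariant_isSylowIn_ge hXN hcop (Or.inl hXsol) p hBα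
    (ea_isPGroup hB) (hXB.trans (centralizer_le_normalizer' B))
  have hPM : IsSylowIn p P M := by
    refine ⟨hP.le.trans hαM, hP.isPGroup, ?_⟩
    rw [← relIndex_mul_relIndex P _ M hP.le hαM]
    intro hd
    rcases (Nat.Prime.dvd_mul hp).mp hd with h | h
    · exact hP.not_dvd h
    · exact hαidx p hp hpα h
  have hPr : ¬ Cfsg.PRankLE p 2 P := by
    obtain ⟨E3, hE3M, hE3, hE3c⟩ := exists_elementary_of_not_pRankLE hpα.2
    obtain ⟨P1, hP1, hE3P1⟩ := exists_isSylowIn_ge hE3M (ea_isPGroup hE3)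
    obtain ⟨m, -, hm⟩ := hP1.conj hPM
    rw [hm]
    exact not_pRankLE_of_elementary (cj_mono m hE3P1) (ea_cj hE3 m) (by rw [card_cj]; exact hE3c)
  have hCtop : M ⊓ centralizer (X : Set G) ≠ ⊤ := fun h => hM.1 (top_le_iff.mp (h ▸ inf_le_left))
  have hsq : ∀ D : Subgroup G, Cfsg.IsElementaryAbelian p D → Nat.card D = p ^ 2 → D ≤ M →
      ¬ Cfsg.PRankLE p 2 (centralizer (D : Set G)) → Cfsg.InUniqueMaximal D := by
    intro D hD hD2 hDM hDr
    refine hU D (fun h => hM.1 (top_le_iff.mp (h ▸ hDM))) ?_ (Or.inr (fun h => hDr (h p hp)))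
    exact Cfsg.Agent.Lib.Helper58.BG9.not_rankLE_one_of_elementary le_rfl hD hD2.ge
  by_cases hmax : ∀ B' : Subgroup G, B' ≤ P → Cfsg.IsElementaryAbelian p B' → B ≤ B' → B' = B
  · obtain ⟨W, hWP, hPW, hW, hW2, hWx⟩ := exists_W_centralized hp2 hP.isPGroup hPr hBP hB hB2 hmax
    have hWU := hsq W hW hW2 (hWP.trans hPM.le)
      (not_pRankLE_centralizer_of_normal_sq hp2 hP.isPGroup hPr hWP hPW hW hW2)
    refine uniq_mono hWU (le_inf (hWP.trans hPM.le) ?_) hCtop
    apply le_centralizer_iff.mp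
    intro x hx
    refine hWx x (hXP hx) (hXB hx) ?_
    apply Nat.Coprime.coprime_dvd_left (Subgroup.orderOf_dvd_natCard X hx)
    exact ((Nat.Prime.coprime_iff_not_dvd hp).mpr (fun hd => hXα p hp hd hpα)).symm
  · push Not at hmax
    obtain ⟨B', hB'P, hB', hBB', hne⟩ := hmax
    have hlt : B < B' := lt_of_le_of_ne hBB' (Ne.symm hne)
    have hBU := hsq B hB hB2 hBM (not_pRankLE_of_elementary (ea_le_centralizer hB' hBB') hB'
      (by rw [← hB2]; exact card_lt_of_lt hlt))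
    exact uniq_mono hBU (le_inf hBM hBX) hCtop

end Cfsg.Agent.Lib.Helper2
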