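import Cfsg.Agent.Lib.Helper2.BG10E

/-!
Bender-Glauberman Lemma 10.4 (statement S1407), conditional on `UT G` (S1403) and on the Hall
property of `M_α` (part of S1405).
-/

set_option autoImplicit false
set_option linter.unusedSectionVars false

namespace Cfsg.Agent.Lib.Helper2

open Subgroup Cfsg.Agent.Lib.Helper30 Cfsg.Agent.Lib.Helper2.BG96

universe u

variable {G : Type u} [Group G]

theorem centralizer_zpowers' (a : G) :
    centralizer ((zpowers a : Subgroup G) : Set G) = centralizer {a} := by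
  rw [zpowers_eq_closure, centralizer_closure]

/-- the contrapositive of B-G 10.3 for a subgroup of prime order. -/
theorem uniq_of_not_isZGroup [Finite G] (hG : Cfsg.IsMinSimpleOddOrder G) (hU : UT G)
    (h5 : Cfsg.Agent.Lib.Helper68.T1405 G) {M : Subgroup G} (hM : IsCoatom M) {p : ℕ}
    [hp : Fact p.Prime] (hpα : p ∉ Cfsg.alpha M) {x : G} (hxM : x ∈ M) (hx : orderOf x = p)
    (hZ : ¬ IsZGroup ↥(Cfsg.alphaCore M ⊓ Subgroup.centralizer ({x} : Set G))) :
    Subgroup.centralizer ({x} : Set G) ≤ M ∧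
      ∀ L : Subgroup G, IsCoatom L → Subgroup.centralizer ({x} : Set G) ≤ L → L = M := by
  have hx1 : x ≠ 1 := by
    rintro rfl
    rw [orderOf_one] at hx
    exact hp.out.one_lt.ne hx
  set K := Cfsg.alphaCore M ⊓ Subgroup.centralizer ({x} : Set G) with hK
  rw [isZGroup_iff] at hZ
  push Not at hZ
  obtain ⟨q, hq, Q, hQ⟩ := hZ
  have : Fact q.Prime := ⟨hq⟩
  have hQ'p : IsPGroup q ((Q : Subgroup K).map K.subtype) := Q.2.map _
  have hQ'c : ¬ IsCyclic ((Q : Subgroup K).map K.subtype) := by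
    intro h
    apply hQ
    exact isCyclic_of_injective
      ((Q : Subgroup K).equivMapOfInjective K.subtype K.subtype_injective).toMonoidHom
      ((Q : Subgroup K).equivMapOfInjective K.subtype K.subtype_injective).injective
  have hQ'1 : (Q : Subgroup K).map K.subtype ≠ ⊥ := by
    intro h
    apply hQ'c
    rw [h]
    infer_instance
  have hq2 := Cfsg.Agent.Lib.Helper58.BG9.ne_two_of_isPGroup hG hQ'p hQ'1
  obtain ⟨D, hDQ, -, hD, hD2⟩ := Cfsg.Agent.Lib.Helper58.BG9.exists_normal_sq hq2 hQ'p hQ'c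
  have hr : ¬ Cfsg.RankLE 1 K :=
    Cfsg.Agent.Lib.Helper58.BG9.not_rankLE_one_of_elementary (hDQ.trans (map_subtype_le _)) hD hD2.ge
  have hu : Cfsg.InUniqueMaximal (M ⊓ centralizer ({x} : Set G)) := by
    have := S1406_of hG hU h5 M hM (zpowers x) (by rwa [zpowers_le]) (by
      intro r hr hrd
      rw [Nat.card_zpowers, hx] at hrd
      rw [(Nat.prime_dvd_prime_iff_eq hr hp.out).mp hrd]
      exact hpα) (by rw [centralizer_zpowers']; exact hr)
    rwa [centralizer_zpowers'] at this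
  exact ⟨uniq_le hu hM inf_le_left inf_le_right (centralizer_singleton_ne_top hG hx1),
    fun L hL hCL => uniq_eq hu hM inf_le_left hL (inf_le_right.trans hCL)⟩

/-- B-G Lemma 10.4, conditionally. -/
theorem S1407_of [Finite G] (hG : Cfsg.IsMinSimpleOddOrder G) (hU : UT G)
    (h5 : Cfsg.Agent.Lib.Helper68.T1405 G)
    (M : Subgroup G) (hM : IsCoatom M) (p : ℕ) [hpp : Fact p.Prime] (hpM : p ∣ Nat.card M)
    (hp : p ∉ Cfsg.sigma M) (P : Sylow p M) :
    ∃ x : G, x ∈ ((Subgroup.center ↥(P : Subgroup M)).map (P : Subgroup M).subtype).map M.subtype ∧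
      orderOf x = p ∧ IsZGroup ↥(Cfsg.alphaCore M ⊓ Subgroup.centralizer ({x} : Set G)) ∧
        ¬ (Subgroup.centralizer ({x} : Set G) ≤ M ∧
          ∀ L : Subgroup G, IsCoatom L → Subgroup.centralizer ({x} : Set G) ≤ L → L = M) := by
  set PG := (P : Subgroup M).map M.subtype with hPGdef
  have hPG : IsSylowIn p PG M := isSylowIn_of_sylow P
  have hPG1 : PG ≠ ⊥ := by
    intro h
    apply hPG.not_dvd
    rw [h, relIndex_bot_left]
    exact hpM
  have hNP : ¬ normalizer (PG : Set G) ≤ M :=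
    fun h => hp (Cfsg.Agent.Lib.Helper68.mem_sigma_of_normalizer_le hPG hPG1 h)
  have hpα : p ∉ Cfsg.alpha M := fun h => hp (Cfsg.Agent.Lib.Helper68.mem_sigma_of_mem_alpha hG hU hM h)
  have hA : ∀ x ∈ omZ p PG, x ≠ 1 →
      x ∈ ((Subgroup.center ↥(P : Subgroup M)).map (P : Subgroup M).subtype).map M.subtype ∧
        orderOf x = p := by
    rintro x ⟨hxP, hxc, hxp⟩ hx1
    refine ⟨?_, orderOf_eq_prime hxp hx1⟩
    obtain ⟨y, hy, rfl⟩ := hxP
    refine ⟨y, ⟨⟨y, hy⟩, ?_, rfl⟩, rfl⟩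
    rw [SetLike.mem_coe, mem_center_iff]
    intro g
    apply Subtype.ext
    apply Subtype.ext
    exact mem_centralizer_iff.mp hxc ((g : M) : G) ⟨(g : M), g.2, rfl⟩
  by_contra hcon
  push Not at hcon
  have hall : ∀ x ∈ omZ p PG, x ≠ 1 → (Subgroup.centralizer ({x} : Set G) ≤ M ∧
      ∀ L : Subgroup G, IsCoatom L → Subgroup.centralizer ({x} : Set G) ≤ L → L = M) := by
    intro x hx hx1
    obtain ⟨h1, h2⟩ := hA x hx hx1
    by_cases hZ : IsZGroup ↥(Cfsg.alphaCore M ⊓ Subgroup.centralizer ({x} : Set G))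
    · exact hcon x h1 h2 hZ
    · exact uniq_of_not_isZGroup hG hU h5 hM hpα (hPG.le hx.1) h2 hZ
  obtain ⟨⟨x0, hx0⟩, hx01'⟩ :=
    Subgroup.ne_bot_iff_exists_ne_one.mp (omZ_ne_bot hPG.isPGroup hPG1)
  have hx01 : x0 ≠ 1 := fun h => hx01' (Subtype.ext h)
  apply hNP
  intro n hn
  have hy : n * x0 * n⁻¹ ∈ omZ p PG :=
    (mem_normalizer_iff.mp (normalizer_le_normalizer_omZ p PG hn) x0).mp hx0
  have hy1 : n * x0 * n⁻¹ ≠ 1 := by
    intro h
    apply hx01
    have : x0 = n⁻¹ * (n * x0 * n⁻¹) * n := by group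
    rw [this, h]; group
  have h1 : centralizer ({x0} : Set G) ≤ cj n⁻¹ M := by
    intro c hc
    rw [mem_cj, inv_inv]
    apply (hall _ hy hy1).1
    rw [mem_centralizer_singleton_iff] at hc ⊢
    calc n * c * n⁻¹ * (n * x0 * n⁻¹) = n * (c * x0) * n⁻¹ := by group
      _ = n * (x0 * c) * n⁻¹ := by rw [hc]
      _ = n * x0 * n⁻¹ * (n * c * n⁻¹) := by group
  have h2 := (hall x0 hx0 hx01).2 _ (Cfsg.Agent.Lib.Helper58.BG9.isCoatom_cj hM n⁻¹) h1
  have h3 : n⁻¹ ∈ normalizer (M : Set G) := mem_normalizer_of_cj_eq h2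
  have hM1 : M ≠ ⊥ := fun h => hPG1 (le_bot_iff.mp (h ▸ hPG.le))
  rw [normalizer_eq_of_coatom hG hM hM1 le_rfl le_normalizer] at h3
  exact (inv_mem_iff (x := n)).mp h3

end Cfsg.Agent.Lib.Helper2
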