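import Cfsg.Agent.Lib.Helper54.CoprimeGen
import Cfsg.Agent.Lib.Helper68.BG10D
import Cfsg.Agent.Lib.Helper51.PCore

/-!
Tools for Bender-Glauberman Lemma 12.13 (statement S1422): coprime generation for two elements that
commute in their action, the Frattini factorization `M = M_α N_M(P)`, groups of order `p ^ 3`.
-/

set_option autoImplicit false
set_option linter.unusedSectionVars false

namespace Cfsg.Agent.Lib.Helper2.BG12

open Subgroup Cfsg.Agent.Lib.Helper30 Cfsg.Agent.Lib.Helper2 Cfsg.Agent.Lib.Helper54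
open scoped commutatorElement

universe u

variable {G : Type u} [Group G]

theorem le_sup_commutator_of_pair' [Finite G] (p : ℕ) [hp : Fact p.Prime] {K : Subgroup G} {a b : G}
    (ha : a ∈ normalizer (K : Set G)) (hb : b ∈ normalizer (K : Set G))
    (hab : ∀ k ∈ K, a * (b * k * b⁻¹) * a⁻¹ = b * (a * k * a⁻¹) * b⁻¹)
    (hap : a ^ p = 1) (hpw : ∀ i : ℕ, (a ^ i * b) ^ p = 1) (hK : ¬ p ∣ Nat.card K) (D : Subgroup G)
    (hDa : K ⊓ centralizer {a} ≤ D) (hDb : ∀ i : ℕ, K ⊓ centralizer {a ^ i * b} ≤ D) :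
    K ≤ D ⊔ ⁅K, K⁆ := by
  intro x hx
  set D' : Subgroup (Abelianization K) := (D.subgroupOf K).map Abelianization.of with hD'
  have key : ∀ g : (normalizer (K : Set G) : Subgroup G), (g : G) ^ p = 1 →
      K ⊓ centralizer {(g : G)} ≤ D → ∀ w, abAct K g w = w → w ∈ D' := by
    intro g hg hgD w hw
    have hcop : (orderOf (g : G)).Coprime (Nat.card K) :=
      Nat.Coprime.coprime_dvd_left (orderOf_dvd_of_pow_eq_one hg)
        ((Nat.Prime.coprime_iff_not_dvd hp.out).mpr hK)
    obtain ⟨c, hc, rfl⟩ := exists_lift_of_fixed g hcop w hw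
    exact ⟨c, mem_subgroupOf.mpr (hgD ⟨c.2, hc⟩), rfl⟩
  set α := abAct K ⟨a, ha⟩ with hα
  set β := abAct K ⟨b, hb⟩ with hβ
  set v : Abelianization K := Abelianization.of ⟨x, hx⟩ with hv
  have hαp : α ^ p = 1 := by
    rw [hα, ← map_pow]
    have : (⟨a, ha⟩ : (normalizer (K : Set G) : Subgroup G)) ^ p = 1 := Subtype.ext (by simpa using hap)
    rw [this, map_one]
  have hc : Commute α β := by
    apply MonoidHom.ext
    intro w
    obtain ⟨w, rfl⟩ := QuotientGroup.mk_surjective w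
    change abAct K ⟨a, ha⟩ (abAct K ⟨b, hb⟩ (Abelianization.of w)) =
      abAct K ⟨b, hb⟩ (abAct K ⟨a, ha⟩ (Abelianization.of w))
    rw [abAct_of, abAct_of, abAct_of, abAct_of]
    congr 1
    exact Subtype.ext (hab w w.2)
  have hid := trace_identity p α β hc hαp v
  have h1 : ∀ w, trc p α w ∈ D' := fun w => key ⟨a, ha⟩ hap hDa _ (trc_fixed hαp w)
  have h2 : ∀ i : ℕ, trc p (α ^ i * β) v ∈ D' := by
    intro i
    have e : α ^ i * β = abAct K (⟨a, ha⟩ ^ i * ⟨b, hb⟩) := by rw [map_mul, map_pow]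
    rw [e]
    refine key _ (hpw i) (hDb i) _ (trc_fixed ?_ v)
    rw [← map_pow]
    have : ((⟨a, ha⟩ : (normalizer (K : Set G) : Subgroup G)) ^ i * ⟨b, hb⟩) ^ p = 1 :=
      Subtype.ext (by simpa using hpw i)
    rw [this, map_one]
  have h3 : v ^ p ∈ D' := by
    have : v ^ p = (∏ i ∈ Finset.range p, trc p (α ^ i * β) v) * trc p α v * (trc p α (trc p β v))⁻¹ := by
      rw [hid]; simp
    rw [this]
    exact D'.mul_mem (D'.mul_mem (D'.prod_mem (fun i _ => h2 i)) (h1 _)) (D'.inv_mem (h1 _))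
  have h4 : v ∈ D' := by
    have hcop : (Nat.card (Abelianization K)).Coprime p := by
      have hdvd : Nat.card (Abelianization K) ∣ Nat.card K :=
        Subgroup.card_quotient_dvd_card _
      exact (Nat.Coprime.coprime_dvd_right hdvd ((Nat.Prime.coprime_iff_not_dvd hp.out).mpr hK)).symm
    have : v = (powCoprime hcop).symm (v ^ p) := by
      rw [Equiv.eq_symm_apply]; rfl
    rw [this, powCoprime_symm_apply]
    exact D'.zpow_mem h3 _
  obtain ⟨d, hd, hdv⟩ := h4
  rw [hv, of_eq_of_iff] at hdv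
  have : x = d * ((d : G)⁻¹ * x) := by group
  rw [this]
  exact (D ⊔ ⁅K, K⁆).mul_mem (le_sup_left (b := ⁅K, K⁆) (mem_subgroupOf.mp hd)) (le_sup_right (a := D) hdv)

/-- Coprime generation for two elements of order `p` whose actions on `K` commute. -/
theorem le_genC' [Finite G] (p : ℕ) [hp : Fact p.Prime] {a b : G}
    (hap : a ^ p = 1) (hpw : ∀ i : ℕ, (a ^ i * b) ^ p = 1) (K : Subgroup G)
    (hsol : Group.IsSolvable K)
    (hab : ∀ k ∈ K, a * (b * k * b⁻¹) * a⁻¹ = b * (a * k * a⁻¹) * b⁻¹)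
    (ha : a ∈ normalizer (K : Set G)) (hb : b ∈ normalizer (K : Set G)) (hK : ¬ p ∣ Nat.card K) :
    K ≤ genC a b K := by
  induction hn : Nat.card K using Nat.strong_induction_on generalizing K with
  | _ n ih =>
    by_cases hbot : K = ⊥
    · rw [hbot]; exact bot_le
    have hlt : ⁅K, K⁆ < K := by
      have : Nontrivial K := (nontrivial_iff_ne_bot K).mpr hbot
      have h1 := Group.IsSolvable.commutator_lt_top_of_nontrivial K
      rw [← map_subtype_commutator_eq]
      conv_rhs => rw [← K.range_subtype, MonoidHom.range_eq_map]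
      exact (map_subtype_lt_map_subtype).mpr h1
    have hza : zpowers a ≤ normalizer (K : Set G) := by rwa [zpowers_le]
    have hzb : zpowers b ≤ normalizer (K : Set G) := by rwa [zpowers_le]
    have hN : ⁅K, K⁆ ≤ genC a b ⁅K, K⁆ := by
      refine ih (Nat.card (⁅K, K⁆ : Subgroup G)) ?_ ⁅K, K⁆
        (Cfsg.Agent.Lib.Helper30.isSolvable_of_le hlt.le hsol)
        (fun k hk => hab k (hlt.le hk))
        (Cfsg.Agent.Lib.Helper30.le_normalizer_commutator hza hza (mem_zpowers a))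
        (Cfsg.Agent.Lib.Helper30.le_normalizer_commutator hzb hzb (mem_zpowers b))
        (fun h => hK (h.trans (card_dvd_of_le hlt.le))) rfl
      rw [← hn]
      exact Set.ncard_lt_ncard hlt (Set.toFinite _)
    have h1 := le_sup_commutator_of_pair' p ha hb hab hap hpw hK (genC a b K) le_sup_left
      (fun i => le_trans (le_iSup (fun i : ℕ => K ⊓ centralizer {a ^ i * b}) i) le_sup_right)
    exact h1.trans (sup_le le_rfl (hN.trans (genC_mono a b hlt.le)))

/-- `M = M_α N_M(P)` for a Sylow `p`-subgroup `P` of `M`, `p ∈ σ(M)`. -/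
theorem frattini_alpha [Finite G] (hG : Cfsg.IsMinSimpleOddOrder G) (hU : UT G)
    (h5 : Cfsg.Agent.Lib.Helper68.T1405n G) {M : Subgroup G} (hM : IsCoatom M) {p : ℕ}
    [Fact p.Prime] (hp : p ∈ Cfsg.sigma M) {P : Subgroup G} (hP : IsSylowIn p P M) :
    ∀ m ∈ M, ∃ a ∈ Cfsg.alphaCore M, ∃ n ∈ M ⊓ normalizer (P : Set G), m = a * n := by
  obtain ⟨S, hS⟩ := hP.exists_sylow
  set A : Subgroup ↥M := Cfsg.piCore (Cfsg.alpha M) ↥M with hA
  have hsurj := QuotientGroup.mk'_surjective A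
  have hS1 : (S : Subgroup ↥M) ≤ commutator ↥M := by
    rw [← map_le_map_iff_of_injective M.subtype_injective, map_subtype_commutator]
    exact Cfsg.Agent.Lib.Helper68.sylow_le_commutator_of_mem_sigma hG hU hM hp (isSylowIn_of_sylow S)
  have hDn : ((commutator ↥M).map (QuotientGroup.mk' A)).Normal := Normal.map inferInstance _ hsurj
  have h1 : (S : Subgroup ↥M).map (QuotientGroup.mk' A) ≤ Cfsg.pCore p (↥M ⧸ A) :=
    Cfsg.Agent.Lib.Helper68.isPGroup_le_pCore_of_le_nilpotent_normal hDn (h5 M hM)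
      (Subgroup.map_mono hS1) (S.2.map _)
  have h2 : Cfsg.pCore p (↥M ⧸ A) ≤ (S : Subgroup ↥M).map (QuotientGroup.mk' A) :=
    Cfsg.Agent.Lib.Helper51.pCore_le_sylow p (S.mapSurjective hsurj)
  have h3 : ((S : Subgroup ↥M).map (QuotientGroup.mk' A)).Normal := by
    rw [le_antisymm h1 h2]; exact Cfsg.Agent.Lib.Helper51.pCore_normal p
  have h4 : (((S : Subgroup ↥M).map (QuotientGroup.mk' A)).comap (QuotientGroup.mk' A)).Normal :=
    h3.comap _
  have h6 := Sylow.normalizer_sup_eq_top' S (le_comap_map (QuotientGroup.mk' A) (S : Subgroup ↥M))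
  rw [comap_map_eq, QuotientGroup.ker_mk'] at h6
  have h7 : A ⊔ normalizer ((S : Subgroup ↥M) : Set ↥M) = ⊤ := by
    rw [eq_top_iff, ← h6]
    exact sup_le le_sup_right (sup_le (le_normalizer.trans le_sup_right) le_sup_left)
  intro m hm
  have hmem : (⟨m, hm⟩ : M) ∈ A ⊔ normalizer ((S : Subgroup ↥M) : Set ↥M) := by
    rw [h7]; exact mem_top _
  rw [mem_sup_normal_left] at hmem
  obtain ⟨k, hk, n, hn, hkn⟩ := hmem
  refine ⟨k, mem_map_of_mem _ hk, n, mem_inf.mpr ⟨n.2, ?_⟩, congrArg Subtype.val hkn⟩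
  apply mem_normalizer_of_cj_eq
  have h8 := cj_eq_of_mem_normalizer hn
  have h9 := map_cj M.subtype n (S : Subgroup ↥M)
  rw [← hS]
  change cj (M.subtype n) _ = _
  rw [← h9]
  exact congrArg _ h8

theorem card_center_of_card_cube {T : Type*} [Group T] {p : ℕ} [hp : Fact p.Prime]
    (hc : Nat.card T = p ^ 3) (hna : ¬ IsMulCommutative T) : Nat.card (center T) = p := by
  have hfin : Finite T := Nat.finite_of_card_ne_zero (by rw [hc]; exact pow_ne_zero _ hp.out.ne_zero)
  have hT : IsPGroup p T := IsPGroup.of_card hc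
  have hnt : Nontrivial T := by
    rw [← Finite.one_lt_card_iff_nontrivial, hc]
    exact Nat.one_lt_pow (by norm_num) hp.out.one_lt
  have hZ1 : Nontrivial (center T) := hT.center_nontrivial
  obtain ⟨k, hk3, hk⟩ := (Nat.dvd_prime_pow hp.out).mp (hc ▸ card_subgroup_dvd_card (center T))
  have hq : Nat.card (T ⧸ center T) = p ^ (3 - k) := by
    have h1 : Nat.card (center T) * (center T).index = p ^ k * p ^ (3 - k) := by
      rw [card_mul_index, hc, ← pow_add]
      congr 1
      omega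
    rw [hk] at h1
    rw [← index_eq_card]
    exact Nat.eq_of_mul_eq_mul_left (pow_pos hp.out.pos k) h1
  have hk0 : k ≠ 0 := by
    rintro rfl
    rw [pow_zero] at hk
    have := Finite.one_lt_card_iff_nontrivial.mpr hZ1
    omega
  have hk3' : k ≠ 3 := by
    rintro rfl
    apply hna
    have htop : center T = ⊤ := eq_top_of_card_eq _ (by rw [hk, hc])
    refine ⟨⟨fun a b => ?_⟩⟩
    have hb : b ∈ center T := htop ▸ mem_top b
    exact mem_center_iff.mp hb a
  have hk2 : k ≠ 2 := by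
    rintro rfl
    apply hna
    have hcyc : IsCyclic (T ⧸ center T) := isCyclic_of_prime_card (p := p) (by rw [hq]; norm_num)
    exact MonoidHom.isMulCommutative_of_isCyclic_of_ker_le_center (QuotientGroup.mk' (center T))
      (by rw [QuotientGroup.ker_mk'])
  have hk1 : k = 1 := by omega
  rw [hk, hk1, pow_one]

section cube

variable {p : ℕ} [hp : Fact p.Prime] {P₁ : Subgroup G}

theorem card_Z (hc : Nat.card P₁ = p ^ 3) (hna : ¬ IsMulCommutative P₁) :
    Nat.card (P₁ ⊓ centralizer (P₁ : Set G) : Subgroup G) = p := by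
  rw [← Cfsg.Agent.Lib.Helper68.map_subtype_center, card_map_of_injective P₁.subtype_injective]
  exact card_center_of_card_cube hc hna

theorem comm_mem_Z (hc : Nat.card P₁ = p ^ 3) (hna : ¬ IsMulCommutative P₁) {s u : G} (hs : s ∈ P₁)
    (hu : u ∈ P₁) : s * u * s⁻¹ * u⁻¹ ∈ P₁ ⊓ centralizer (P₁ : Set G) := by
  rw [← Cfsg.Agent.Lib.Helper68.map_subtype_center,
    ← Cfsg.Agent.Lib.Helper68.commutator_eq_center_of_card_cube hc hna]
  exact ⟨⁅(⟨s, hs⟩ : P₁), ⟨u, hu⟩⁆, commutator_mem_commutator (mem_top _) (mem_top _), rfl⟩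

theorem exists_conj_mul (hc : Nat.card P₁ = p ^ 3) (hna : ¬ IsMulCommutative P₁) {u z : G}
    (hu : u ∈ P₁) (huZ : u ∉ centralizer (P₁ : Set G))
    (hz : z ∈ P₁ ⊓ centralizer (P₁ : Set G)) : ∃ s ∈ P₁, s * u * s⁻¹ = z * u := by
  rw [mem_centralizer_iff] at huZ
  push Not at huZ
  obtain ⟨t, ht, htu⟩ := huZ
  set c := t * u * t⁻¹ * u⁻¹ with hcdef
  have hcZ := comm_mem_Z hc hna ht hu
  have hc1 : c ≠ 1 := by
    intro h
    apply htu
    have : t * u = c * (u * t) := by rw [hcdef]; group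
    rw [this, h, one_mul]
  have hfin : Finite (P₁ ⊓ centralizer (P₁ : Set G) : Subgroup G) :=
    Nat.finite_of_card_ne_zero (by rw [card_Z hc hna]; exact hp.out.ne_zero)
  have hmem : (⟨z, hz⟩ : (P₁ ⊓ centralizer (P₁ : Set G) : Subgroup G)) ∈
      zpowers (⟨c, hcZ⟩ : (P₁ ⊓ centralizer (P₁ : Set G) : Subgroup G)) :=
    mem_zpowers_of_prime_card (card_Z hc hna) (fun h => hc1 (congrArg Subtype.val h))
  rw [← mem_powers_iff_mem_zpowers] at hmem
  obtain ⟨j, hj⟩ := hmem
  have hj' : c ^ j = z := congrArg Subtype.val hj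
  have hct : ∀ j : ℕ, t * c ^ j = c ^ j * t := by
    intro j
    exact mem_centralizer_iff.mp (pow_mem (mem_inf.mp hcZ).2 j) t ht
  have key : ∀ j : ℕ, t ^ j * u * (t ^ j)⁻¹ = c ^ j * u := by
    intro j
    induction j with
    | zero => simp
    | succ j ih =>
      calc t ^ (j + 1) * u * (t ^ (j + 1))⁻¹ = t * (t ^ j * u * (t ^ j)⁻¹) * t⁻¹ := by
            rw [pow_succ']; group
        _ = t * (c ^ j * u) * t⁻¹ := by rw [ih]
        _ = (t * c ^ j) * (u * t⁻¹) := by group
        _ = (c ^ j * t) * (u * t⁻¹) := by rw [hct]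
        _ = c ^ j * (t * u * t⁻¹ * u⁻¹) * u := by group
        _ = c ^ (j + 1) * u := by rw [← hcdef, pow_succ]
  exact ⟨t ^ j, pow_mem ht j, by rw [key j, hj']⟩

end cube

end Cfsg.Agent.Lib.Helper2.BG12
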