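import Cfsg.Agent.Lib.Helper2.BG96A
import Cfsg.Agent.S1324

/-!
Bender-Glauberman Theorem 9.6: local consequences of a `Pack`.
-/

set_option autoImplicit false
set_option linter.unusedSectionVars false

namespace Cfsg.Agent.Lib.Helper2.BG96

open Subgroup Cfsg.Agent.Lib.Helper30 Cfsg.Agent.Lib.Helper2

universe u

variable {G : Type u} [Group G] [Finite G]

theorem Pack.uniqV {H V : Subgroup G} {s : ℕ} (h : Pack H V s) : Cfsg.InUniqueMaximal V :=
  h.uniq2 V le_rfl h.card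

theorem Pack.centralizer_le (hG : Cfsg.IsMinSimpleOddOrder G) {H V : Subgroup G} {s : ℕ}
    (h : Pack H V s) {X : Subgroup G} (hX : X ≠ ⊥)
    (hc : s ^ 2 ≤ Nat.card (V ⊓ centralizer (X : Set G) : Subgroup G)) :
    centralizer (X : Set G) ≤ H :=
  uniq_le (h.uniq2 _ inf_le_left hc) h.coatom (inf_le_left.trans h.le) inf_le_right
    (centralizer_ne_top' hG hX)

theorem Pack.card_lt {p : ℕ} {A : Subgroup G} (hNC : NC p A) {H V : Subgroup G} {s : ℕ}
    (h : Pack H V s) {B : Subgroup G} (hBA : B ≤ A) (hB : Cfsg.IsElementaryAbelian p B)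
    (hB2 : p ^ 2 ≤ Nat.card B) : Nat.card (V ⊓ centralizer (B : Set G) : Subgroup G) < s ^ 2 := by
  by_contra hcon
  push Not at hcon
  exact hNC B hBA hB hB2 _ (h.uniq2 _ inf_le_left hcon) (le_centralizer_iff.mp inf_le_right)

theorem relIndex_le_of_card {p : ℕ} [hp : Fact p.Prime] {E B : Subgroup G} (hE3 : Nat.card E = p ^ 3)
    (hBE : B ≤ E) (hB : p ^ 2 ≤ Nat.card B) : B.relIndex E ≤ p := by
  have h1 := card_eq_card_mul_relIndex hBE
  rw [hE3] at h1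
  by_contra hcon
  push Not at hcon
  have hp0 := hp.out.pos
  have : p ^ 2 * (p + 1) ≤ Nat.card B * B.relIndex E := Nat.mul_le_mul hB hcon
  have h3 : p ^ 3 < p ^ 2 * (p + 1) := by
    have : 0 < p ^ 2 := by positivity
    nlinarith
  omega

theorem card_ge_of_relIndex {p : ℕ} [hp : Fact p.Prime] {E B : Subgroup G} (hE3 : Nat.card E = p ^ 3)
    (hBE : B ≤ E) (hB : B.relIndex E ≤ p) : p ^ 2 ≤ Nat.card B := by
  have h1 := card_eq_card_mul_relIndex hBE
  rw [hE3] at h1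
  by_contra hcon
  push Not at hcon
  have hp0 := hp.out.pos
  have h2 : Nat.card B * B.relIndex E ≤ Nat.card B * p := Nat.mul_le_mul_left _ hB
  have h3 : Nat.card B * p < p ^ 2 * p := Nat.mul_lt_mul_of_pos_right hcon hp0
  have h4 : p ^ 2 * p = p ^ 3 := by ring
  omega

theorem inf_ne_bot_of_card {p : ℕ} [hp : Fact p.Prime] {E B B' : Subgroup G}
    (hE3 : Nat.card E = p ^ 3) (hBE : B ≤ E) (hBE' : B' ≤ E) (hB : p ^ 2 ≤ Nat.card B)
    (hB' : p ^ 2 ≤ Nat.card B') : B ⊓ B' ≠ ⊥ := by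
  intro h
  have h1 := card_eq_card_mul_relIndex (inf_le_left.trans hBE : B ⊓ B' ≤ E)
  rw [h, Subgroup.card_bot, one_mul, hE3, ← h] at h1
  have h2 : (B ⊓ B').relIndex E ≤ B.relIndex E * B'.relIndex E := relIndex_inf_le
  have h3 := Nat.mul_le_mul (relIndex_le_of_card hE3 hBE hB) (relIndex_le_of_card hE3 hBE' hB')
  have hp1 := hp.out.one_lt
  have h4 : p * p < p ^ 3 := by
    have : p * p * 1 < p * p * p := Nat.mul_lt_mul_of_pos_left hp1 (by positivity)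
    calc p * p = p * p * 1 := by ring
      _ < p * p * p := this
      _ = p ^ 3 := by ring
  omega

theorem not_dvd_card_of_ea {p s : ℕ} [hp : Fact p.Prime] [hs : Fact s.Prime] (hsp : s ≠ p)
    {V : Subgroup G} (hV : IsPGroup s V) : ¬ p ∣ Nat.card V := by
  obtain ⟨n, hn⟩ := IsPGroup.iff_card.mp hV
  rw [hn]
  intro h
  exact hsp ((Nat.prime_dvd_prime_iff_eq hp.out hs.out).mp (hp.out.dvd_of_dvd_pow h)).symm

theorem Pack.exists_two {p s : ℕ} [hp : Fact p.Prime] [hs : Fact s.Prime] (hsp : s ≠ p)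
    {A E : Subgroup G} (hNC : NC p A) (hEA : E ≤ A) (hE : Cfsg.IsElementaryAbelian p E)
    (hE3 : Nat.card E = p ^ 3) {H V : Subgroup G} (h : Pack H V s) (hEH : E ≤ H) :
    ∃ B₁ B₂ : Subgroup G, B₁ ≤ E ∧ B₂ ≤ E ∧ p ^ 2 ≤ Nat.card B₁ ∧ p ^ 2 ≤ Nat.card B₂ ∧
      Nat.card (V ⊓ centralizer (B₁ : Set G) : Subgroup G) = s ∧
      Nat.card (V ⊓ centralizer (B₂ : Set G) : Subgroup G) = s ∧
      s ^ 2 ≤ Nat.card ((V ⊓ centralizer (B₁ : Set G)) ⊔ (V ⊓ centralizer (B₂ : Set G)) : Subgroup G) := by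
  have hVs : IsPGroup s V := ea_isPGroup h.ea
  have hgen := Cfsg.Agent.S1324.result p E V hE
    (by rw [hE3]; exact Nat.pow_le_pow_right hp.out.pos (by norm_num))
    (not_dvd_card_of_ea hsp hVs) (hEH.trans h.norm)
  have hs1 := hs.out.one_lt
  have hV1 : V ≠ ⊥ := by
    intro h0
    have := h.card
    rw [h0, Subgroup.card_bot] at this
    nlinarith
  have hlt : ∀ B : Subgroup G, B ≤ E → B.relIndex E ≤ p →
      Nat.card (V ⊓ centralizer (B : Set G) : Subgroup G) < s ^ 2 := fun B hBE hBr =>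
    h.card_lt hNC (hBE.trans hEA) (ea_of_le hE hBE) (card_ge_of_relIndex hE3 hBE hBr)
  obtain ⟨B₁, hB₁E, hB₁r, hB₁⟩ : ∃ B : Subgroup G, B ≤ E ∧ B.relIndex E ≤ p ∧
      V ⊓ centralizer (B : Set G) ≠ ⊥ := by
    by_contra hcon
    push Not at hcon
    apply hV1
    rw [hgen]
    apply le_bot_iff.mp
    apply iSup_le
    rintro ⟨B, hB1, hB2⟩
    exact (hcon B hB1 hB2).le
  obtain ⟨B₂, hB₂E, hB₂r, hB₂⟩ : ∃ B : Subgroup G, B ≤ E ∧ B.relIndex E ≤ p ∧
      ¬ (V ⊓ centralizer (B : Set G) ≤ V ⊓ centralizer (B₁ : Set G)) := by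
    by_contra hcon
    push Not at hcon
    have hle : V ≤ V ⊓ centralizer (B₁ : Set G) := by
      conv_lhs => rw [hgen]
      apply iSup_le
      rintro ⟨B, hB1, hB2⟩
      exact hcon B hB1 hB2
    have := Subgroup.card_le_of_le hle
    have h2 := hlt B₁ hB₁E hB₁r
    have h3 := h.card
    omega
  have hB₂' : V ⊓ centralizer (B₂ : Set G) ≠ ⊥ := by
    intro h0
    exact hB₂ (h0 ▸ bot_le)
  have hc₁ := card_eq_prime_of_lt_sq (hVs.to_le inf_le_left) hB₁ (hlt B₁ hB₁E hB₁r)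
  have hc₂ := card_eq_prime_of_lt_sq (hVs.to_le inf_le_left) hB₂' (hlt B₂ hB₂E hB₂r)
  refine ⟨B₁, B₂, hB₁E, hB₂E, card_ge_of_relIndex hE3 hB₁E hB₁r, card_ge_of_relIndex hE3 hB₂E hB₂r,
    hc₁, hc₂, ?_⟩
  apply sq_le_card_of_lt (hVs.to_le (sup_le inf_le_left inf_le_left))
  rw [← hc₁]
  apply card_lt_of_lt
  refine lt_of_le_of_ne le_sup_left ?_
  intro h0
  exact hB₂ (h0 ▸ le_sup_right)

/-- `C(A) ≤ H`. -/
theorem Pack.centralizer_A_le (hG : Cfsg.IsMinSimpleOddOrder G) {p s : ℕ} [hp : Fact p.Prime]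
    [hs : Fact s.Prime] (hsp : s ≠ p)
    {A E : Subgroup G} (hNC : NC p A) (hEA : E ≤ A) (hE : Cfsg.IsElementaryAbelian p E)
    (hE3 : Nat.card E = p ^ 3) {H V : Subgroup G} (h : Pack H V s) (hAH : A ≤ H) :
    centralizer (A : Set G) ≤ H := by
  obtain ⟨B₁, B₂, h₁E, h₂E, h₁c, h₂c, -, -, hsup⟩ := h.exists_two hsp hNC hEA hE hE3 (hEA.trans hAH)
  have hl := inf_ne_bot_of_card hE3 h₁E h₂E h₁c h₂c
  have h1 : (V ⊓ centralizer (B₁ : Set G)) ⊔ (V ⊓ centralizer (B₂ : Set G)) ≤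
      V ⊓ centralizer ((B₁ ⊓ B₂ : Subgroup G) : Set G) :=
    sup_le (inf_le_inf_left V (Subgroup.centralizer_le inf_le_left))
      (inf_le_inf_left V (Subgroup.centralizer_le inf_le_right))
  have h2 := h.centralizer_le hG hl (hsup.trans (Subgroup.card_le_of_le h1))
  exact (Subgroup.centralizer_le ((inf_le_left.trans h₁E).trans hEA)).trans h2

theorem Pack.exists_hyper {p s : ℕ} [hp : Fact p.Prime] [hs : Fact s.Prime] (hsp : s ≠ p)
    {A E : Subgroup G} (hNC : NC p A) (hEA : E ≤ A) (hE : Cfsg.IsElementaryAbelian p E)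
    (hE3 : Nat.card E = p ^ 3) {H V : Subgroup G} (h : Pack H V s) (hEH : E ≤ H) {M : Subgroup G}
    (hM : Nat.card (V ⊓ M : Subgroup G) < s ^ 2) :
    ∃ B : Subgroup G, B ≤ E ∧ p ^ 2 ≤ Nat.card B ∧
      Nat.card (V ⊓ centralizer (B : Set G) : Subgroup G) = s ∧
      ¬ (V ⊓ centralizer (B : Set G) ≤ M) := by
  obtain ⟨B₁, B₂, h₁E, h₂E, h₁c, h₂c, hc₁, hc₂, hsup⟩ := h.exists_two hsp hNC hEA hE hE3 hEH
  by_cases h1 : V ⊓ centralizer (B₁ : Set G) ≤ M
  · refine ⟨B₂, h₂E, h₂c, hc₂, fun h2 => ?_⟩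
    have h3 : (V ⊓ centralizer (B₁ : Set G)) ⊔ (V ⊓ centralizer (B₂ : Set G)) ≤ V ⊓ M :=
      sup_le (le_inf inf_le_left h1) (le_inf inf_le_left h2)
    have := Subgroup.card_le_of_le h3
    omega
  · exact ⟨B₁, h₁E, h₁c, hc₁, h1⟩

theorem le_of_prime_card {s : ℕ} [hs : Fact s.Prime] {V₁ K : Subgroup G} (hc : Nat.card V₁ = s)
    {y : G} (hy : y ∈ V₁) (hy1 : y ≠ 1) (hyK : y ∈ K) : V₁ ≤ K := by
  have h1 : Nat.card (V₁ ⊓ K : Subgroup G) ∣ s := hc ▸ card_dvd_of_le inf_le_left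
  rcases (Nat.dvd_prime hs.out).mp h1 with h2 | h2
  · exfalso
    have h3 := (Subgroup.card_eq_one).mp h2
    have : y ∈ (V₁ ⊓ K : Subgroup G) := mem_inf.mpr ⟨hy, hyK⟩
    rw [h3, mem_bot] at this
    exact hy1 this
  · have h3 : V₁ ⊓ K = V₁ := eq_of_le_of_card_ge inf_le_left (by rw [h2, hc])
    exact h3 ▸ inf_le_right

theorem ea_zpowers {s : ℕ} {x : G} (hx : x ^ s = 1) : Cfsg.IsElementaryAbelian s (zpowers x) := by
  refine ⟨⟨⟨?_⟩⟩, ?_⟩
  · rintro ⟨_, a, rfl⟩ ⟨_, b, rfl⟩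
    apply Subtype.ext
    show x ^ a * x ^ b = x ^ b * x ^ a
    rw [← zpow_add, ← zpow_add, add_comm]
  · rintro _ ⟨a, rfl⟩
    show (x ^ a) ^ s = 1
    rw [← zpow_natCast, ← zpow_mul, mul_comm, zpow_mul, zpow_natCast, hx, one_zpow]

theorem zpowers_le_centralizer_zpowers {x y : G} (h : x * y = y * x) :
    zpowers x ≤ centralizer (zpowers y : Set G) := by
  rw [zpowers_le, mem_centralizer_iff]
  rintro _ ⟨k, rfl⟩
  exact ((show Commute y x from h.symm).zpow_left k).eq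

/-- The data of a "root subgroup" `V₁ = C_V(β)` of order `s`. -/
structure Root (H V β V₁ : Subgroup G) (s : ℕ) : Prop where
  pack : Pack H V s
  cop : ∀ b ∈ β, (orderOf b).Coprime s
  le : β ≤ H
  eq : V ⊓ centralizer (β : Set G) = V₁
  card : Nat.card V₁ = s

theorem Root.leV {H V β V₁ : Subgroup G} {s : ℕ} (h : Root H V β V₁ s) : V₁ ≤ V := h.eq ▸ inf_le_left

theorem Root.leC {H V β V₁ : Subgroup G} {s : ℕ} (h : Root H V β V₁ s) :
    V₁ ≤ centralizer (β : Set G) := h.eq ▸ inf_le_right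

/-- Claim Z. -/
theorem Root.normalizer_le (hG : Cfsg.IsMinSimpleOddOrder G) {s : ℕ} [hs : Fact s.Prime]
    {H V β V₁ : Subgroup G} (h : Root H V β V₁ s) {S : Subgroup G} (hSH : S ≤ H)
    (hSβ : S ≤ centralizer (β : Set G)) (hSs : IsPGroup s S) (hV₁S : V₁ ≤ S) :
    normalizer (S : Set G) ≤ H := by
  have hs1 := hs.out.one_lt
  have hP := h.pack
  have hV₁1 : V₁ ≠ ⊥ := by
    intro h0
    have := h.card
    rw [h0, Subgroup.card_bot] at this
    omega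
  have hV₁s : IsPGroup s V₁ := (ea_isPGroup hP.ea).to_le h.leV
  have hSN : S ≤ normalizer (V₁ : Set G) := by
    rw [← h.eq]
    exact le_normalizer_inf (hSH.trans hP.norm) (hSβ.trans le_normalizer)
  obtain ⟨y, hy, hy1, hyc⟩ := exists_central_of_pgroup hV₁s hV₁1 hSs hSN
  have hV₁C : V₁ ≤ centralizer (S : Set G) := le_of_prime_card h.card hy hy1 hyc
  have hV₁Z : V₁ ≤ omZ s S := fun v hv => ⟨hV₁S hv, hV₁C hv, hP.ea.2 v (h.leV hv)⟩
  refine (normalizer_le_normalizer_omZ s S).trans ?_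
  have hZ1 : omZ s S ≠ ⊥ := fun h0 => hV₁1 (le_bot_iff.mp (h0 ▸ hV₁Z))
  have hZH : omZ s S ≤ H := (omZ_le s S).trans hSH
  have hZtop : omZ s S ≠ ⊤ := fun h0 => hP.coatom.1 (top_le_iff.mp (h0 ▸ hZH))
  have hNtop := normalizer_ne_top hG hZ1 hZtop
  by_cases hZ : omZ s S ≤ V₁
  · have hZe : omZ s S = V₁ := le_antisymm hZ hV₁Z
    rw [hZe] at hNtop ⊢
    exact uniq_le hP.uniqV hP.coatom hP.le
      ((ea_le_centralizer hP.ea h.leV).trans (centralizer_le_normalizer' V₁)) hNtop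
  · obtain ⟨x, hxZ, hxV₁⟩ := SetLike.not_le_iff_exists.mp hZ
    have hxS : x ∈ S := omZ_le s S hxZ
    have hxV : x ∉ V := fun hxV => hxV₁ (h.eq ▸ mem_inf.mpr ⟨hxV, hSβ hxS⟩)
    obtain ⟨b, hbβ, hbV⟩ : ∃ b ∈ β, b ∉ centralizer (V : Set G) := by
      by_contra hcon
      push Not at hcon
      have h1 : V ≤ centralizer (β : Set G) := le_centralizer_iff.mp hcon
      have h2 : V₁ = V := by rw [← h.eq]; exact inf_eq_left.mpr h1
      have h3 := hP.card
      rw [← h2, h.card] at h3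
      nlinarith
    obtain ⟨y, hyV, hy1, hxy, hby⟩ := exists_comm_not_fixed hP.ea (hP.norm (h.le hbβ)) (h.cop b hbβ) hbV
      (hP.norm (hSH hxS)) (hSs.to_le (zpowers_le.mpr hxS))
      (mem_centralizer_iff.mp (hSβ hxS) b hbβ).symm
    have hyV₁ : y ∉ V₁ := fun hy => hby (mem_centralizer_iff.mp (h.leC hy) b hbβ)
    have hxs : x ^ s = 1 := hxZ.2.2
    have hys : y ^ s = 1 := hP.ea.2 y hyV
    have hV₁ea : Cfsg.IsElementaryAbelian s V₁ := ea_of_le hP.ea h.leV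
    have hD : Cfsg.IsElementaryAbelian s (V₁ ⊔ zpowers x) := by
      apply ea_sup hV₁ea (ea_zpowers hxs)
      intro a ha c hc
      exact (mem_centralizer_iff.mp (hV₁C ha) c (zpowers_le.mpr hxS hc)).symm
    have hyzV : zpowers y ≤ V := zpowers_le.mpr hyV
    have hDy : V₁ ⊔ zpowers x ≤ centralizer (zpowers y : Set G) :=
      sup_le (h.leV.trans (ea_le_centralizer hP.ea hyzV)) (zpowers_le_centralizer_zpowers hxy)
    have hD' : Cfsg.IsElementaryAbelian s ((V₁ ⊔ zpowers x) ⊔ zpowers y) := by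
      apply ea_sup hD (ea_zpowers hys)
      intro a ha c hc
      exact (mem_centralizer_iff.mp (hDy ha) c hc).symm
    have hDc : s ^ 2 ≤ Nat.card (V₁ ⊔ zpowers x : Subgroup G) := by
      apply sq_le_card_of_lt (ea_isPGroup hD)
      rw [← h.card]
      apply card_lt_of_lt
      refine lt_of_le_of_ne le_sup_left fun h0 => hxV₁ ?_
      rw [h0]
      exact mem_sup_right (mem_zpowers x)
    have hD2 : s ^ 2 ≤ Nat.card (V₁ ⊔ zpowers y : Subgroup G) := by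
      apply sq_le_card_of_lt ((ea_isPGroup hP.ea).to_le (sup_le h.leV hyzV))
      rw [← h.card]
      apply card_lt_of_lt
      refine lt_of_le_of_ne le_sup_left fun h0 => hyV₁ ?_
      rw [h0]
      exact mem_sup_right (mem_zpowers y)
    have hD'c : s ^ 2 < Nat.card ((V₁ ⊔ zpowers x) ⊔ zpowers y : Subgroup G) := by
      refine lt_of_le_of_lt hD2 (card_lt_of_lt ?_)
      refine lt_of_le_of_ne (sup_le (le_sup_left.trans le_sup_left) le_sup_right) fun h0 => hxV ?_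
      have : x ∈ ((V₁ ⊔ zpowers x) ⊔ zpowers y : Subgroup G) :=
        mem_sup_left (mem_sup_right (mem_zpowers x))
      rw [← h0] at this
      exact sup_le h.leV hyzV this
    have hU := hP.uniq4 _ _ hD' le_sup_left hDc hD'c
    have hDZ : V₁ ⊔ zpowers x ≤ omZ s S := sup_le hV₁Z (zpowers_le.mpr hxZ)
    exact uniq_le hU hP.coatom (hDZ.trans hZH) (hDZ.trans le_normalizer) hNtop

theorem Root.le_of_pgroup (hG : Cfsg.IsMinSimpleOddOrder G) {s : ℕ} [hs : Fact s.Prime]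
    {H V β V₁ : Subgroup G} (h : Root H V β V₁ s) {S : Subgroup G}
    (hSβ : S ≤ centralizer (β : Set G)) (hSs : IsPGroup s S) (hV₁S : V₁ ≤ S) : S ≤ H := by
  by_contra hcon
  have hlt : S ⊓ H < S := lt_of_le_of_ne inf_le_left fun h0 => hcon (h0 ▸ inf_le_right)
  obtain ⟨t, htS, htN, htn⟩ := exists_mem_normalizer_not_mem hSs hlt
  have h1 := h.normalizer_le hG (S := S ⊓ H) inf_le_right (inf_le_left.trans hSβ)
    (hSs.to_le inf_le_left) (le_inf hV₁S (h.leV.trans h.pack.le))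
  exact htn (mem_inf.mpr ⟨htS, h1 htN⟩)

end Cfsg.Agent.Lib.Helper2.BG96
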