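import Cfsg.Agent.Lib.Helper2.BG12A
import Cfsg.Agent.Lib.Helper2.BG96B
import Cfsg.Agent.Lib.Helper58.BG9e
import Cfsg.Agent.S1324

/-!
Bender-Glauberman Lemma 12.13 (statement S1422): every nonabelian `p`-subgroup is a uniqueness
subgroup.  Conditional on the texts of S1403, S1405, S1412, S1416, S1420.
-/

set_option autoImplicit false
set_option linter.unusedSectionVars false

namespace Cfsg.Agent.Lib.Helper2.BG12

open Subgroup Cfsg.Agent.Lib.Helper30 Cfsg.Agent.Lib.Helper2 Cfsg.Agent.Lib.Helper54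
  Cfsg.Agent.Lib.Helper2.BG96

universe u

variable {G : Type u} [Group G]

/-- second part of the text of S1416 -/
def T1416b (G : Type u) [Group G] : Prop :=
  ∀ (M : Subgroup G), IsCoatom M → ∀ (p : ℕ) [Fact p.Prime] (A : Subgroup G),
    (A ≤ M ∧ Cfsg.IsElementaryAbelian p A ∧ Nat.card A = p ^ 2) →
      ((∀ A₀ : Subgroup G, A₀ ≤ A → Nat.card A₀ = p →
          ¬ (Subgroup.normalizer (A₀ : Set G) ≤ M ∧
            ∀ L : Subgroup G, IsCoatom L → Subgroup.normalizer (A₀ : Set G) ≤ L → L = M)) →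
        p ∈ Cfsg.sigma M ∧ Cfsg.alphaCore M = ⊥ ∧ Group.IsNilpotent (Cfsg.sigmaCore M))

/-- first part of the text of S1420 -/
def T1420a (G : Type u) [Group G] : Prop :=
  ∀ (M : Subgroup G), IsCoatom M → ∀ N : Subgroup G, N ≤ M → Group.IsNilpotent N →
    (∀ p : ℕ, p.Prime → p ∣ Nat.card N → p ∉ Cfsg.sigma M) → IsMulCommutative N

/-- third part of the text of S1420 -/
def T1420c (G : Type u) [Group G] : Prop :=
  ∀ (M : Subgroup G), IsCoatom M → ∀ (p : ℕ) (P : Subgroup G), p ∈ Cfsg.sigma M → IsPGroup p P →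
    P ≤ M → ¬ IsCyclic P → Subgroup.normalizer (P : Set G) ≤ M

/-- the text of S1412 -/
def T1412 (G : Type u) [Group G] : Prop :=
  ∀ (p : ℕ) [Fact p.Prime] (P : Sylow p G), Cfsg.PRankLE p 2 (P : Subgroup G) →
    IsMulCommutative (P : Subgroup G) ∨ ∃ P₁ P₂ : Subgroup G, P₁ ⊔ P₂ = (P : Subgroup G) ∧
      (∀ a ∈ P₁, ∀ b ∈ P₂, a * b = b * a) ∧
        ¬ IsMulCommutative P₁ ∧ Nat.card P₁ = p ^ 3 ∧ Monoid.exponent P₁ = p ∧ IsCyclic P₂ ∧
        Subgroup.closure {x : G | x ∈ P₂ ∧ x ^ p = 1} = P₁ ⊓ Subgroup.centralizer (P₁ : Set G)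

theorem eq_of_coatom_le {M H : Subgroup G} (hM : IsCoatom M) (hH : IsCoatom H) (h : M ≤ H) :
    H = M := by
  rcases hM.le_iff.mp h with h1 | h1
  · exact absurd h1 hH.1
  · exact h1

theorem pRankLE_of_sylow [Finite G] {p : ℕ} [Fact p.Prime] {P M : Subgroup G}
    (hP : IsSylowIn p P M) {k : ℕ} (hr : Cfsg.PRankLE p k P) : Cfsg.PRankLE p k M := by
  by_contra hcon
  obtain ⟨E, hEM, hE, hEc⟩ := exists_elementary_of_not_pRankLE hcon
  obtain ⟨P1, hP1, hEP1⟩ := exists_isSylowIn_ge hEM (ea_isPGroup hE)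
  obtain ⟨m, -, hm⟩ := hP1.conj hP
  rw [hm] at hr
  exact not_pRankLE_of_elementary (cj_mono m hEP1) (ea_cj hE m) (by rw [card_cj]; exact hEc) hr

theorem core_12_13 [Finite G] (hG : Cfsg.IsMinSimpleOddOrder G) (hU : UT G)
    (h5n : Cfsg.Agent.Lib.Helper68.T1405n G) (h16 : T1416b G) {p : ℕ} [hp : Fact p.Prime]
    {P P₁ P₂ M H : Subgroup G} (hPsyl : IsSylowIn p P ⊤) (hr : Cfsg.PRankLE p 2 P)
    (hsup : P₁ ⊔ P₂ = P) (hcomm : ∀ a ∈ P₁, ∀ b ∈ P₂, a * b = b * a)
    (hna : ¬ IsMulCommutative P₁) (hc : Nat.card P₁ = p ^ 3) (hexp : Monoid.exponent P₁ = p)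
    (hM : IsCoatom M) (hZM : normalizer ((P₁ ⊓ centralizer (P₁ : Set G) : Subgroup G) : Set G) ≤ M)
    (hNPM : normalizer (P : Set G) ≤ M) (hH : IsCoatom H) (hNPH : normalizer (P : Set G) ≤ H)
    (hpM : p ∈ Cfsg.sigma M) (hpH : p ∈ Cfsg.sigma H) : H = M := by
  by_contra hne
  set Z := P₁ ⊓ centralizer (P₁ : Set G) with hZdef
  have hZc : Nat.card Z = p := card_Z hc hna
  have hP₁P : P₁ ≤ P := hsup ▸ le_sup_left
  have hPH : P ≤ H := le_normalizer.trans hNPH
  have hPM : P ≤ M := le_normalizer.trans hNPM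
  have hPMs : IsSylowIn p P M := IsSylowIn_of_le hPsyl hPM le_top
  have hPHs : IsSylowIn p P H := IsSylowIn_of_le hPsyl hPH le_top
  have hpαM : p ∉ Cfsg.alpha M := fun h => h.2 (pRankLE_of_sylow hPMs hr)
  have hpow : ∀ u ∈ P₁, u ^ p = 1 := by
    intro u hu
    have h1 := Monoid.pow_exponent_eq_one (⟨u, hu⟩ : P₁)
    rw [hexp] at h1
    exact congrArg Subtype.val h1
  have hZea : Cfsg.IsElementaryAbelian p Z :=
    ⟨⟨⟨fun a b => Subtype.ext (mem_centralizer_iff.mp (mem_inf.mp b.2).2 a (mem_inf.mp a.2).1)⟩⟩,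
      fun a ha => hpow a (mem_inf.mp ha).1⟩
  have hHα : Cfsg.alphaCore H ≠ ⊥ := by
    intro h
    apply hne
    apply (eq_of_coatom_le hH hM ?_).symm
    intro x hx
    obtain ⟨a, ha, n, hn, rfl⟩ := frattini_alpha hG hU h5n hH hpH hPHs x hx
    rw [h, mem_bot] at ha
    rw [ha, one_mul]
    exact hNPM hn.2
  have hnotZ : ∀ u ∈ P₁, u ∉ Z → u ∉ centralizer (P₁ : Set G) :=
    fun u hu huZ h => huZ (mem_inf.mpr ⟨hu, h⟩)
  -- the subgroups `⟨u⟩ Z`
  have hB : ∀ u ∈ P₁, u ∉ Z → (zpowers u ⊔ Z ≤ P₁ ∧ Cfsg.IsElementaryAbelian p (zpowers u ⊔ Z) ∧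
      Nat.card (zpowers u ⊔ Z : Subgroup G) = p ^ 2) := by
    intro u hu huZ
    have h1 : zpowers u ⊔ Z ≤ P₁ := sup_le (by rwa [zpowers_le]) inf_le_left
    have h2 : Cfsg.IsElementaryAbelian p (zpowers u ⊔ Z) := by
      apply ea_sup (ea_zpowers (hpow u hu)) hZea
      intro a ha b hb
      exact mem_centralizer_iff.mp (mem_inf.mp hb).2 a ((zpowers_le.mpr hu) ha)
    refine ⟨h1, h2, card_eq_sq hr (h1.trans hP₁P) h2 ?_⟩
    rw [← hZc]
    apply card_lt_of_lt
    refine lt_of_le_of_ne le_sup_right ?_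
    intro h
    exact huZ (h ▸ (le_sup_left (a := zpowers u) (b := Z)) (mem_zpowers u))
  have hA' : ∀ u ∈ P₁, u ∉ Z → centralizer ({u} : Set G) ≤ H := by
    intro u hu huZ
    obtain ⟨hB1, hB2, hB3⟩ := hB u hu huZ
    have hex : ∃ A₀ : Subgroup G, A₀ ≤ zpowers u ⊔ Z ∧ Nat.card A₀ = p ∧
        (normalizer (A₀ : Set G) ≤ H ∧
          ∀ L : Subgroup G, IsCoatom L → normalizer (A₀ : Set G) ≤ L → L = H) := by
      by_contra hcon
      push Not at hcon
      refine hHα (h16 H hH p _ ⟨(hB1.trans hP₁P).trans hPH, hB2, hB3⟩ ?_).2.1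
      intro A₀ h1 h2 h3
      obtain ⟨L, hL, hL1, hL2⟩ := hcon A₀ h1 h2 h3.1
      exact hL2 (h3.2 L hL hL1)
    obtain ⟨A₀, hA₀B, hA₀c, hA₀N, hA₀u⟩ := hex
    have hA₀Z : ¬ A₀ ≤ Z := by
      intro h
      have h1 : A₀ = Z := eq_of_le_of_card_ge h (by rw [hA₀c, hZc])
      rw [h1] at hA₀u
      exact hne (hA₀u M hM hZM).symm
    obtain ⟨w, hwA, hwZ⟩ := SetLike.not_le_iff_exists.mp hA₀Z
    have hZn : Z ≤ normalizer ((zpowers u : Subgroup G) : Set G) := by
      refine le_trans ?_ (centralizer_le_normalizer' (zpowers u))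
      intro z hz
      rw [mem_centralizer_iff]
      intro a ha
      exact mem_centralizer_iff.mp (mem_inf.mp hz).2 a ((zpowers_le.mpr hu) ha)
    obtain ⟨u', hu', z, hz, hw⟩ := (mem_sup_of_le_normalizer hZn).mp (hA₀B hwA)
    have hu'P : u' ∈ P₁ := (zpowers_le.mpr hu) hu'
    have hu'Z : u' ∉ Z := by
      intro h
      exact hwZ (hw ▸ mul_mem h hz)
    obtain ⟨s, hs, hsu⟩ := exists_conj_mul hc hna hu'P (hnotZ u' hu'P hu'Z) hz
    have hzu : z * u' = w := by
      rw [hw]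
      exact (mem_centralizer_iff.mp (mem_inf.mp hz).2 u' hu'P).symm
    have hw1 : w ≠ 1 := fun h => hwZ (h ▸ one_mem Z)
    have hwcj : w ∈ cj s (zpowers u) := by
      rw [mem_cj, ← hzu, ← hsu]
      have : s⁻¹ * (s * u' * s⁻¹) * s = u' := by group
      rw [this]; exact hu'
    have hle : A₀ ≤ cj s (zpowers u) := le_of_prime_card hA₀c hwA hw1 hwcj
    have hou : orderOf u = p := orderOf_eq_prime (hpow u hu) (fun h => huZ (h ▸ one_mem Z))
    have heq : A₀ = cj s (zpowers u) :=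
      eq_of_le_of_card_ge hle (by rw [card_cj, Nat.card_zpowers, hou, hA₀c])
    have hsH : s ∈ H := hPH (hP₁P hs)
    have h1 : cj s (normalizer ((zpowers u : Subgroup G) : Set G)) ≤ H := by
      rw [← normalizer_cj, ← heq]; exact hA₀N
    have h2 : normalizer ((zpowers u : Subgroup G) : Set G) ≤ H := by
      have := cj_le_iff.mp h1
      rwa [cj_eq_of_mem (inv_mem hsH)] at this
    refine le_trans ?_ h2
    refine le_trans ?_ (centralizer_le_normalizer' (zpowers u))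
    rw [zpowers_eq_closure, centralizer_closure]
  -- two noncommuting elements
  have hxy : ∃ x ∈ P₁, ∃ y ∈ P₁, x * y ≠ y * x := by
    by_contra hcon
    push Not at hcon
    exact hna ⟨⟨fun a b => Subtype.ext (hcon a a.2 b b.2)⟩⟩
  obtain ⟨x, hx, y, hy, hxy⟩ := hxy
  have hxZ : x ∉ Z := fun h => hxy (mem_centralizer_iff.mp (mem_inf.mp h).2 y hy).symm
  have hαM : Cfsg.alphaCore M ≤ M := piCoreOf_le (Cfsg.alpha M) M
  have hMα : M ≤ normalizer (Cfsg.alphaCore M : Set G) := le_normalizer_piCoreOf (Cfsg.alpha M) M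
  have hpα : ¬ p ∣ Nat.card (Cfsg.alphaCore M) :=
    fun h => hpαM (piCoreOf_isPi (Cfsg.alpha M) M p hp.out h)
  set Y := Cfsg.alphaCore M ⊓ centralizer (Z : Set G) with hY
  have hP₁Y : P₁ ≤ normalizer (Y : Set G) := by
    apply le_normalizer_inf ((hP₁P.trans hPM).trans hMα)
    refine le_trans ?_ le_normalizer
    intro a ha
    rw [mem_centralizer_iff]
    intro z hz
    exact (mem_centralizer_iff.mp (mem_inf.mp hz).2 a ha).symm
  have hYH : Y ≤ H := by
    have hsol : Group.IsSolvable Y :=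
      solvable_of_ne_top hG (fun h => hM.1 (top_le_iff.mp (h ▸ (inf_le_left.trans hαM))))
    have hconj : ∀ g ∈ P₁, ∀ k ∈ Y, g * k * g⁻¹ ∈ Y :=
      fun g hg k hk => (mem_normalizer_iff.mp (hP₁Y hg) k).mp hk
    have h1 := le_genC' p (a := x) (b := y) (hpow x hx)
      (fun i => hpow _ (mul_mem (pow_mem hx i) hy)) Y hsol (by
        intro k hk
        set c := x * y * x⁻¹ * y⁻¹ with hcdef
        have hcZ : c ∈ Z := comm_mem_Z hc hna hx hy
        have hk' : y * (x * k * x⁻¹) * y⁻¹ ∈ Y := hconj y hy _ (hconj x hx k hk)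
        have hcomm' := mem_centralizer_iff.mp (mem_inf.mp hk').2 c hcZ
        calc x * (y * k * y⁻¹) * x⁻¹ = c * (y * (x * k * x⁻¹) * y⁻¹) * c⁻¹ := by
              rw [hcdef]; group
          _ = (y * (x * k * x⁻¹) * y⁻¹) * c * c⁻¹ := by rw [hcomm']
          _ = y * (x * k * x⁻¹) * y⁻¹ := by group)
      (hP₁Y hx) (hP₁Y hy) (fun h => hpα (h.trans (card_dvd_of_le inf_le_left)))
    refine h1.trans (sup_le (inf_le_right.trans (hA' x hx hxZ)) (iSup_le fun i => ?_))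
    refine inf_le_right.trans (hA' _ (mul_mem (pow_mem hx i) hy) ?_)
    intro h
    apply hxy
    have h2 := mem_centralizer_iff.mp (mem_inf.mp h).2 x hx
    have h3 : x ^ i * (x * y) = x ^ i * (y * x) := by
      calc x ^ i * (x * y) = x * (x ^ i * y) := by
            rw [← mul_assoc, ← mul_assoc, ← pow_succ, ← pow_succ']
        _ = x ^ i * y * x := h2
        _ = x ^ i * (y * x) := by group
    exact mul_left_cancel h3
  have hαH : Cfsg.alphaCore M ≤ H := by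
    obtain ⟨hB1, hB2, hB3⟩ := hB x hx hxZ
    rw [Cfsg.Agent.S1324.result p (zpowers x ⊔ Z) (Cfsg.alphaCore M) hB2 hB3.ge hpα
      (((hB1.trans hP₁P).trans hPM).trans hMα)]
    refine iSup_le fun B₁ => ?_
    obtain ⟨B₁, hB₁B, hidx⟩ := B₁
    have hB₁ : B₁ ≠ ⊥ := by
      rintro rfl
      rw [relIndex_bot_left, hB3] at hidx
      have : p < p ^ 2 := by
        have := hp.out.one_lt
        nlinarith
      omega
    by_cases hB₁Z : B₁ ≤ Z
    · have h1 : B₁ = Z := by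
        obtain ⟨⟨b, hb⟩, hb1⟩ := Subgroup.ne_bot_iff_exists_ne_one.mp hB₁
        have hb1' : b ≠ 1 := fun h => hb1 (Subtype.ext h)
        exact le_antisymm hB₁Z (le_of_prime_card hZc (hB₁Z hb) hb1' hb)
      change Cfsg.alphaCore M ⊓ centralizer (B₁ : Set G) ≤ H
      rw [h1]
      exact hYH
    · obtain ⟨b, hb, hbZ⟩ := SetLike.not_le_iff_exists.mp hB₁Z
      refine inf_le_right.trans (le_trans ?_ (hA' b (hB1 (hB₁B hb)) hbZ))
      exact Subgroup.centralizer_le (Set.singleton_subset_iff.mpr hb)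
  apply hne
  apply eq_of_coatom_le hM hH
  intro m hm
  obtain ⟨a, ha, n, hn, rfl⟩ := frattini_alpha hG hU h5n hM hpM hPMs m hm
  exact mul_mem (hαH ha) (hNPH hn.2)

/-- B-G Lemma 12.13, conditionally. -/
theorem S1422_of [Finite G] (hG : Cfsg.IsMinSimpleOddOrder G) (hU : UT G)
    (h5n : Cfsg.Agent.Lib.Helper68.T1405n G) (h12 : T1412 G) (h16 : T1416b G) (h20a : T1420a G)
    (h20c : T1420c G) (p : ℕ) [hp : Fact p.Prime] (P : Subgroup G) (hP : IsPGroup p P)
    (hPna : ¬ IsMulCommutative P) : Cfsg.InUniqueMaximal P := by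
  have hsig : ∀ (Q L : Subgroup G), IsPGroup p Q → ¬ IsMulCommutative Q → IsCoatom L → Q ≤ L →
      p ∈ Cfsg.sigma L := by
    intro Q L hQ hQna hL hQL
    by_contra hpL
    apply hQna
    apply h20a L hL Q hQL hQ.isNilpotent
    intro r hr hrd
    obtain ⟨n, hn⟩ := IsPGroup.iff_card.mp hQ
    rw [hn] at hrd
    rw [(Nat.prime_dvd_prime_iff_eq hr hp.out).mp (hr.dvd_of_dvd_pow hrd)]
    exact hpL
  have hncyc : ∀ Q : Subgroup G, ¬ IsMulCommutative Q → ¬ IsCyclic Q := by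
    intro Q hQ hcyc
    exact hQ ⟨⟨fun a b => hcyc.commGroup.mul_comm a b⟩⟩
  obtain ⟨M, hM, hPM⟩ := exists_coatom_ge (Cfsg.Agent.Lib.Helper58.BG9.ne_top_of_isPGroup hG hP)
  refine ⟨M, ⟨hM, hPM⟩, ?_⟩
  rintro H ⟨hH, hPH⟩
  obtain ⟨P1, hP1, hPP1⟩ := exists_isSylowIn_ge (le_inf hPM hPH) hP
  have hP1na : ¬ IsMulCommutative P1 := by
    intro h
    refine hPna ⟨⟨fun a b => Subtype.ext ?_⟩⟩
    have h1 := h.is_comm.comm (⟨a.1, hPP1 a.2⟩ : P1) ⟨b.1, hPP1 b.2⟩
    exact congrArg (Subtype.val : P1 → G) h1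
  have hP1M : P1 ≤ M := hP1.le.trans inf_le_left
  have hP1H : P1 ≤ H := hP1.le.trans inf_le_right
  have hpM := hsig P1 M hP1.isPGroup hP1na hM hP1M
  have hpH := hsig P1 H hP1.isPGroup hP1na hH hP1H
  have hNM := h20c M hM p P1 hpM hP1.isPGroup hP1M (hncyc P1 hP1na)
  have hNH := h20c H hH p P1 hpH hP1.isPGroup hP1H (hncyc P1 hP1na)
  have hsyl : IsSylowIn p P1 ⊤ := isSylowIn_top_of_normalizer_le hP1 (le_inf hNM hNH)
  have hP1top := Cfsg.Agent.Lib.Helper58.BG9.ne_top_of_isPGroup hG hP1.isPGroup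
  by_cases hr : Cfsg.PRankLE p 2 P1
  · have hidx : ¬ p ∣ P1.index := by
      have := hsyl.not_dvd
      rwa [relIndex_top_right] at this
    rcases h12 p (hP1.isPGroup.toSylow hidx) hr with h | ⟨P₁, P₂, hsup, hcomm, hna, hc, hexp, -, -⟩
    · exact absurd h hP1na
    · change P₁ ⊔ P₂ = P1 at hsup
      have hZc := card_Z hc hna
      have hP₁P : P₁ ≤ P1 := hsup ▸ le_sup_left
      have hZp : IsPGroup p (P₁ ⊓ centralizer (P₁ : Set G) : Subgroup G) :=
        hP1.isPGroup.to_le (inf_le_left.trans hP₁P)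
      have hZ1 : (P₁ ⊓ centralizer (P₁ : Set G) : Subgroup G) ≠ ⊥ := by
        intro h
        rw [h, card_bot] at hZc
        exact hp.out.one_lt.ne hZc
      obtain ⟨L, hL, hZL⟩ := exists_coatom_ge (normalizer_ne_top hG hZ1
        (Cfsg.Agent.Lib.Helper58.BG9.ne_top_of_isPGroup hG hZp))
      have hP1N : P1 ≤ normalizer ((P₁ ⊓ centralizer (P₁ : Set G) : Subgroup G) : Set G) := by
        refine le_trans ?_ (centralizer_le_normalizer' _)
        rw [← hsup]
        apply sup_le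
        · intro a ha
          rw [mem_centralizer_iff]
          intro z hz
          exact (mem_centralizer_iff.mp (mem_inf.mp hz).2 a ha).symm
        · intro b hb
          rw [mem_centralizer_iff]
          intro z hz
          exact hcomm z (mem_inf.mp hz).1 b hb
      have hP1L : P1 ≤ L := hP1N.trans hZL
      have hpL := hsig P1 L hP1.isPGroup hP1na hL hP1L
      have hNL := h20c L hL p P1 hpL hP1.isPGroup hP1L (hncyc P1 hP1na)
      have e1 := core_12_13 hG hU h5n h16 hsyl hr hsup hcomm hna hc hexp hL hZL hNL hM hNM hpL hpM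
      have e2 := core_12_13 hG hU h5n h16 hsyl hr hsup hcomm hna hc hexp hL hZL hNL hH hNH hpL hpH
      rw [e1, e2]
  · obtain ⟨E, hEP, hE, hEc⟩ := exists_elementary_of_not_pRankLE hr
    have h1 : ¬ Cfsg.RankLE 1 P1 := not_rankLE_of_elementary hp.out hEP hE
      (lt_of_le_of_lt (Nat.pow_le_pow_right hp.out.pos (by norm_num)) hEc)
    have h2 : ¬ Cfsg.RankLE 2 P1 := not_rankLE_of_elementary hp.out hEP hE hEc
    exact uniq_eq (hU P1 hP1top h1 (Or.inl h2)) hM hP1M hH hP1H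

end Cfsg.Agent.Lib.Helper2.BG12
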