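import Cfsg.Agent.Lib.Helper2.BG12B

/-!
Existence of a complement `E` of `M_σ` in `M`.
-/

set_option autoImplicit false
set_option linter.unusedSectionVars false

namespace Cfsg.Agent.Lib.Helper2.BG12

open Subgroup Cfsg.Agent.Lib.Helper30 Cfsg.Agent.Lib.Helper2

universe u

variable {G : Type u} [Group G]

theorem exists_sigma_compl [Finite G] {M : Subgroup G}
    (hHall : Cfsg.IsPiHallOf (Cfsg.sigma M) (Cfsg.sigmaCore M) M) :
    ∃ E : Subgroup G, Cfsg.IsComplIn E (Cfsg.sigmaCore M) M := by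
  obtain ⟨hle, hpi, hidx⟩ := hHall
  have h1 : Nat.card (Cfsg.sigmaCore M) = Nat.card (Cfsg.piCore (Cfsg.sigma M) ↥M) := by
    rw [Cfsg.sigmaCore, card_map_of_injective M.subtype_injective]
  have h2 : (Cfsg.sigmaCore M).relIndex M = (Cfsg.piCore (Cfsg.sigma M) ↥M).index := by
    rw [Cfsg.sigmaCore, relIndex, subgroupOf, comap_map_eq_self_of_injective M.subtype_injective]
  have hcop : (Nat.card (Cfsg.piCore (Cfsg.sigma M) ↥M)).Coprime
      (Cfsg.piCore (Cfsg.sigma M) ↥M).index := by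
    apply Nat.coprime_of_dvd
    intro k hk hk1 hk2
    rw [← h1] at hk1
    rw [← h2] at hk2
    exact hidx k hk (hpi k hk hk1) hk2
  obtain ⟨K, hK⟩ := exists_left_complement'_of_coprime hcop
  refine ⟨K.map M.subtype, map_subtype_le _, hle, ?_, ?_⟩
  · rw [eq_bot_iff]
    rintro x ⟨⟨k, hk, rfl⟩, ⟨n, hn, hnk⟩⟩
    have h3 : n = k := Subtype.ext hnk
    have h4 : k ∈ K ⊓ Cfsg.piCore (Cfsg.sigma M) ↥M := mem_inf.mpr ⟨hk, h3 ▸ hn⟩
    rw [hK.disjoint.eq_bot, mem_bot] at h4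
    rw [h4]
    exact one_mem _
  · intro m hm
    obtain ⟨⟨a, k⟩, hak, -⟩ := hK.existsUnique ⟨m, hm⟩
    exact ⟨a.1.1, ⟨a.1, a.2, rfl⟩, k.1.1, ⟨k.1, k.2, rfl⟩,
      (congrArg (Subtype.val : ↥M → G) hak).symm⟩

end Cfsg.Agent.Lib.Helper2.BG12
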