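import Cfsg.Agent.Lib.Helper2.BG96C
import Cfsg.Agent.Lib.Helper58.BG9e
import Cfsg.Agent.S1452

/-!
Bender-Glauberman Theorem 9.6, rung R2: existence of a `Pack` for a maximal subgroup `L` with
`E ≤ L'`.  Conditional on the `p`-group rung `R2a`.
-/

set_option autoImplicit false
set_option linter.unusedSectionVars false

namespace Cfsg.Agent.Lib.Helper2.BG96

open Subgroup Cfsg.Agent.Lib.Helper30 Cfsg.Agent.Lib.Helper28 Cfsg.Agent.Lib.Helper2
open scoped commutatorElement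

universe u

variable {G : Type u} [Group G] [Finite G]

/-- The text of rung R2a for the group `G`. -/
def R2a (G : Type u) [Group G] : Prop :=
  ∀ (p t : ℕ) [Fact p.Prime] [Fact t.Prime], t ≠ 2 → t ≠ p → ∀ E T0 : Subgroup G,
    Cfsg.IsElementaryAbelian p E → p ^ 2 ≤ Nat.card E → IsPGroup t T0 →
    E ≤ normalizer (T0 : Set G) → ¬ IsCyclic T0 → Nat.card (omZ t T0) = t →
    E ≤ centralizer (omZ t T0 : Set G) →
    ∃ B W : Subgroup G, B ≤ E ∧ B.relIndex E ≤ p ∧ W ≤ T0 ∧ T0 ≤ normalizer (W : Set G) ∧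
      Cfsg.IsElementaryAbelian t W ∧ Nat.card W = t ^ 2 ∧ B ≤ centralizer (W : Set G)

theorem not_isCyclic_of_ea {t : ℕ} [ht : Fact t.Prime] {D : Subgroup G}
    (hD : Cfsg.IsElementaryAbelian t D) (hc : t ^ 2 ≤ Nat.card D) : ¬ IsCyclic D := by
  intro hcyc
  obtain ⟨g, hg⟩ := hcyc.exists_generator
  have h1 : Nat.card D = orderOf g := (orderOf_eq_card_of_forall_mem_zpowers hg).symm
  have h2 : orderOf g ∣ t := orderOf_dvd_of_pow_eq_one (Subtype.ext (hD.2 g g.2))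
  have h3 := Nat.le_of_dvd ht.out.pos h2
  have h4 : t ^ 1 < t ^ 2 := Nat.pow_lt_pow_right ht.out.one_lt (by norm_num)
  rw [pow_one] at h4
  omega

theorem omZ_ne_bot {t : ℕ} [ht : Fact t.Prime] {S : Subgroup G} (hS : IsPGroup t S) (hS1 : S ≠ ⊥) :
    omZ t S ≠ ⊥ := by
  obtain ⟨y, hyS, hy1, hyc⟩ := exists_central_of_pgroup hS hS1 hS le_normalizer
  obtain ⟨k, hk⟩ := hS ⟨y, hyS⟩
  have hk' : y ^ t ^ k = 1 := by simpa using congrArg Subtype.val hk
  obtain ⟨j, -, hj⟩ := (Nat.dvd_prime_pow ht.out).mp (orderOf_dvd_of_pow_eq_one hk')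
  have hj0 : j ≠ 0 := by
    rintro rfl
    rw [pow_zero, orderOf_eq_one_iff] at hj
    exact hy1 hj
  obtain ⟨i, rfl⟩ := Nat.exists_eq_succ_of_ne_zero hj0
  intro h0
  have hz : y ^ t ^ i ∈ omZ t S := by
    refine ⟨pow_mem hyS _, pow_mem hyc _, ?_⟩
    rw [← pow_mul, ← pow_succ, ← hj, pow_orderOf_eq_one]
  rw [h0, mem_bot] at hz
  have h1 := orderOf_dvd_of_pow_eq_one hz
  rw [hj] at h1
  have h2 := Nat.le_of_dvd (by have := ht.out.pos; positivity) h1
  have h3 : t ^ i < t ^ (i + 1) := Nat.pow_lt_pow_right ht.out.one_lt (by omega)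
  rw [Nat.succ_eq_add_one] at h2
  omega

theorem commutator_le_centralizer_of_prime_card {t : ℕ} [ht : Fact t.Prime] {Z L : Subgroup G}
    (hZ : Nat.card Z = t) (hL : L ≤ normalizer (Z : Set G)) : ⁅L, L⁆ ≤ centralizer (Z : Set G) := by
  have hc : IsCyclic Z := isCyclic_of_prime_card hZ
  rw [commutator_le]
  intro x hx y hy
  have h1 : Z.normalizerMonoidHom ⁅(⟨x, hL hx⟩ : normalizer (Z : Set G)), ⟨y, hL hy⟩⁆ = 1 := by
    rw [map_commutatorElement, commutatorElement_eq_one_iff_mul_comm]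
    apply (hc.mulAutMulEquiv Z).injective
    rw [map_mul, map_mul, mul_comm]
  have h2 : ⁅(⟨x, hL hx⟩ : normalizer (Z : Set G)), ⟨y, hL hy⟩⁆ ∈ Z.normalizerMonoidHom.ker := h1
  rw [normalizerMonoidHom_ker, mem_subgroupOf] at h2
  exact h2

theorem not_pRankLE_centralizer_of_normal_sq {t : ℕ} [ht : Fact t.Prime] (ht2 : t ≠ 2)
    {T0 W : Subgroup G} (hT0 : IsPGroup t T0) (hr : ¬ Cfsg.PRankLE t 2 T0) (hWT : W ≤ T0)
    (hn : T0 ≤ normalizer (W : Set G)) (hW : Cfsg.IsElementaryAbelian t W)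
    (hWc : Nat.card W = t ^ 2) : ¬ Cfsg.PRankLE t 2 (centralizer (W : Set G)) := by
  have hnorm : (W.subgroupOf T0).Normal := normal_subgroupOf_of_le_normalizer hn
  obtain ⟨A, hWA, -, hAC, hA3⟩ := Cfsg.Agent.S1452.result (R := T0) t ht2 hT0 hr (W.subgroupOf T0)
    (Cfsg.Agent.Lib.Helper58.BG9.elementary_subgroupOf hW T0) (by rw [card_subgroupOf hWT, hWc])
  obtain ⟨D, hDA, hD, hDc⟩ := exists_elementary_of_not_pRankLE hA3
  refine not_pRankLE_of_elementary (E := D.map T0.subtype) ?_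
    (Cfsg.Agent.Lib.Helper58.BG9.elementary_map hD.1 hD.2)
    (by rwa [card_map_of_injective T0.subtype_injective])
  rintro _ ⟨d, hd, rfl⟩
  rw [mem_centralizer_iff]
  intro w hw
  have h1 : (⟨w, hWT hw⟩ : T0) ∈ A := hWA (mem_subgroupOf.mpr hw)
  have h2 : d ∈ centralizer (A : Set T0) := by rw [hAC]; exact hDA hd
  exact congrArg Subtype.val (mem_centralizer_iff.mp h2 _ h1)

/-- Rung R2 of B-G 9.6. -/
theorem exists_pack (hG : Cfsg.IsMinSimpleOddOrder G) (hR : R2a G) {p : ℕ} [hp : Fact p.Prime]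
    {A E L : Subgroup G}
    (hN : ∀ M : Subgroup G, IsCoatom M → Cfsg.PRankLE p 2 (Cfsg.fittingOf M)) (hNC : NC p A)
    (hEA : E ≤ A) (hE : Cfsg.IsElementaryAbelian p E) (hE3 : Nat.card E = p ^ 3)
    (hL : IsCoatom L) (hEL' : E ≤ ⁅L, L⁆) :
    ∃ (t : ℕ) (V : Subgroup G), t.Prime ∧ t ≠ p ∧ Pack L V t := by
  have hLsol := solvable_of_ne_top hG hL.1
  have hLodd : Odd (Nat.card L) := Odd.of_dvd_nat hG.1 (Subgroup.card_subgroup_dvd_card L)
  have hp1 := hp.out.one_lt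
  have hE3' : p ^ 2 < Nat.card E := by
    rw [hE3]; exact Nat.pow_lt_pow_right hp1 (by norm_num)
  have hLL : ⁅L, L⁆ ≤ L := commutator_le_of_le_normalizer le_normalizer
  have hr : ¬ Cfsg.RankLE 2 (Cfsg.fittingOf L) := by
    intro hr
    have h1 : ⁅L, L⁆ ≤ fitIn L := by
      rw [commutator_le]
      intro a ha b hb
      have := Cfsg.Agent.Lib.Helper58.BG9.commutator_mem_fitIn hLsol hLodd hr ha hb
      rwa [commutatorElement_def]
    exact not_pRankLE_of_elementary (hEL'.trans h1) hE hE3' (hN L hL)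
  obtain ⟨t, ht, D0, hD0F, hD0, hD0c⟩ := exists_elementary_of_not_rankLE hr
  have : Fact t.Prime := ⟨ht⟩
  have htp : t ≠ p := by
    rintro rfl
    exact not_pRankLE_of_elementary hD0F hD0 hD0c (hN L hL)
  have hF : ¬ Cfsg.PRankLE t 2 (Cfsg.fittingOf L) := not_pRankLE_of_elementary hD0F hD0 hD0c
  have hD0p := ea_isPGroup hD0
  have ht1 := ht.one_lt
  have hD01 : D0 ≠ ⊥ := by
    rintro rfl
    rw [Subgroup.card_bot] at hD0c
    nlinarith
  have ht2 : t ≠ 2 := ne_two_of_dvd_card hG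
    ((dvd_card_of_isPGroup_ne_bot hD0p hD01).trans (Subgroup.card_subgroup_dvd_card D0))
  have hD0U : Cfsg.InUniqueMaximal D0 := Cfsg.Agent.Lib.Helper58.BG9.bg95 hG hL hF hD0p hD0.1
    (not_pRankLE_of_elementary le_rfl hD0 hD0c)
  have hD03 : ¬ Cfsg.PRankLE t 2 D0 := not_pRankLE_of_elementary le_rfl hD0 hD0c
  -- the basic criterion
  have crit : ∀ D : Subgroup G, Cfsg.IsElementaryAbelian t D → t ^ 2 ≤ Nat.card D →
      ¬ Cfsg.PRankLE t 2 (centralizer (D : Set G)) → Cfsg.InUniqueMaximal D := fun D hD hDc hC =>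
    Cfsg.Agent.Lib.Helper58.BG9.bg94 hG hD0.1 hD03 hD0U (ea_isPGroup hD) (not_isCyclic_of_ea hD hDc) hC
  have u4 : ∀ D D' : Subgroup G, Cfsg.IsElementaryAbelian t D' → D ≤ D' → t ^ 2 ≤ Nat.card D →
      t ^ 2 < Nat.card D' → Cfsg.InUniqueMaximal D := fun D D' hD' hDD' hDc hD'c =>
    crit D (ea_of_le hD' hDD') hDc (not_pRankLE_of_elementary (ea_le_centralizer hD' hDD') hD' hD'c)
  have hD0T : D0 ≤ opIn t L := isPGroup_le_opIn hD0F hD0p
  have hTp := opIn_isPGroup t L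
  have hT1 : opIn t L ≠ ⊥ := fun h => hD01 (le_bot_iff.mp (h ▸ hD0T))
  have hLZ : L ≤ normalizer (omZ t (opIn t L) : Set G) :=
    (le_normalizer_opIn t L).trans (normalizer_le_normalizer_omZ t _)
  by_cases hZ : t ^ 2 ≤ Nat.card (omZ t (opIn t L))
  · refine ⟨t, omZ t (opIn t L), ht, htp, hL, (omZ_le _ _).trans (opIn_le t L), hLZ, omZ_ea _ _, hZ,
      ?_, u4⟩
    intro D hDZ hDc
    refine crit D (ea_of_le (omZ_ea _ _) hDZ) hDc (not_pRankLE_of_elementary ?_ hD0 hD0c)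
    apply le_centralizer_iff.mp
    intro d hd
    exact Subgroup.centralizer_le hD0T (hDZ hd).2.1
  · exfalso
    push Not at hZ
    have hZc := card_eq_prime_of_lt_sq (ea_isPGroup (omZ_ea t (opIn t L))) (omZ_ne_bot hTp hT1) hZ
    have hEZ : E ≤ centralizer (omZ t (opIn t L) : Set G) :=
      hEL'.trans (commutator_le_centralizer_of_prime_card hZc hLZ)
    have hTnc : ¬ IsCyclic (opIn t L) := by
      intro hc
      exact not_isCyclic_of_ea hD0 hD0c.le
        (isCyclic_of_injective (inclusion hD0T) (inclusion_injective hD0T))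
    obtain ⟨B, W, hBE, hBr, hWT, hTW, hW, hWc, hBW⟩ := hR p t ht2 htp E (opIn t L) hE hE3'.le hTp
      ((hEL'.trans hLL).trans (le_normalizer_opIn t L)) hTnc hZc hEZ
    have hWU := crit W hW hWc.ge (not_pRankLE_centralizer_of_normal_sq ht2 hTp
      (not_pRankLE_of_elementary hD0T hD0 hD0c) hWT hTW hW hWc)
    exact hNC B (hBE.trans hEA) (ea_of_le hE hBE) (card_ge_of_relIndex hE3 hBE hBr) W hWU hBW

end Cfsg.Agent.Lib.Helper2.BG96
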