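import Cfsg.Agent.Lib.Helper2.BG12C
import Cfsg.Agent.Lib.Helper2.BG96D
import Cfsg.Agent.Lib.Helper30.PuigTransfer
import Cfsg.Agent.Lib.Helper40.BG10E
import Cfsg.Agent.S1453

/-!
Bender-Glauberman Corollary 12.14 (statement S1423), conditional on the texts of S1403, S1350,
S1412, S1414, S1422.
-/

set_option autoImplicit false
set_option linter.unusedSectionVars false

namespace Cfsg.Agent.Lib.Helper2.BG12

open Subgroup Cfsg.Agent.Lib.Helper30 Cfsg.Agent.Lib.Helper2 Cfsg.Agent.Lib.Helper2.BG96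
open scoped commutatorElement

universe u

variable {G : Type u} [Group G]

/-- the text of S1422 -/
def T1422 (G : Type u) [Group G] : Prop :=
  ∀ (p : ℕ) [Fact p.Prime] (P : Subgroup G), IsPGroup p P → ¬ IsMulCommutative P →
    Cfsg.InUniqueMaximal P

theorem uniq_of_ea_cube [Finite G] (hU : UT G) {p : ℕ} [hp : Fact p.Prime] {E M : Subgroup G}
    (hM : IsCoatom M) (hEM : E ≤ M) (hE : Cfsg.IsElementaryAbelian p E) (hEc : p ^ 2 < Nat.card E) :
    Cfsg.InUniqueMaximal E := by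
  have h1 : ¬ Cfsg.RankLE 1 E := not_rankLE_of_elementary hp.out le_rfl hE
    (lt_of_le_of_lt (Nat.pow_le_pow_right hp.out.pos (by norm_num)) hEc)
  have h2 : ¬ Cfsg.RankLE 2 E := not_rankLE_of_elementary hp.out le_rfl hE hEc
  exact hU E (fun h => hM.1 (top_le_iff.mp (h ▸ hEM))) h1 (Or.inl h2)

/-- `X Ω₁(Z(Q))` has order at least `p ^ 2` or `X` is central. -/
theorem sup_omZ [Finite G] {p : ℕ} [hp : Fact p.Prime] {Q X : Subgroup G} (hQ : IsPGroup p Q)
    (hXQ : X ≤ Q) (hX : Nat.card X = p) :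
    Cfsg.IsElementaryAbelian p (X ⊔ omZ p Q) ∧ X ⊔ omZ p Q ≤ Q ⊓ centralizer (X : Set G) ∧
      (p ^ 2 ≤ Nat.card (X ⊔ omZ p Q : Subgroup G) ∨ Q ≤ centralizer (X : Set G)) := by
  have hXea := Cfsg.Agent.Lib.Helper40.BG10.ea_of_card_prime hX
  have hX1 : X ≠ ⊥ := by
    rintro rfl
    rw [card_bot] at hX
    exact hp.out.one_lt.ne hX
  have hQ1 : Q ≠ ⊥ := fun h => hX1 (le_bot_iff.mp (h ▸ hXQ))
  have hea : Cfsg.IsElementaryAbelian p (X ⊔ omZ p Q) := by
    apply ea_sup hXea (omZ_ea p Q)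
    intro a ha b hb
    exact mem_centralizer_iff.mp hb.2.1 a (hXQ ha)
  refine ⟨hea, le_inf (sup_le hXQ (omZ_le p Q)) (ea_le_centralizer hea le_sup_left), ?_⟩
  by_cases hc : p ^ 2 ≤ Nat.card (X ⊔ omZ p Q : Subgroup G)
  · exact Or.inl hc
  · right
    have h1 : Nat.card (X ⊔ omZ p Q : Subgroup G) = p :=
      card_eq_prime_of_lt_sq (ea_isPGroup hea) (fun h => hX1 (le_bot_iff.mp (h ▸ le_sup_left)))
        (not_le.mp hc)
    have h2 : X = X ⊔ omZ p Q := eq_of_le_of_card_ge le_sup_left (by rw [h1, hX])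
    have h3 : omZ p Q ≤ X := by
      rw [h2]; exact le_sup_right
    obtain ⟨⟨z, hz⟩, hz1⟩ := Subgroup.ne_bot_iff_exists_ne_one.mp (omZ_ne_bot hQ hQ1)
    have hz1' : z ≠ 1 := fun h => hz1 (Subtype.ext h)
    have h4 : X ≤ omZ p Q := le_of_prime_card hX (h3 hz) hz1' hz
    apply le_centralizer_iff.mp
    intro x hx
    exact (h4 hx).2.1

theorem commutator_le_of_index_prime {R : Type*} [Group R] {p : ℕ} [hp : Fact p.Prime]
    (T : Subgroup R) [T.Normal] (hT : T.index = p) : commutator R ≤ T := by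
  have hcyc : IsCyclic (R ⧸ T) := isCyclic_of_prime_card (p := p) (by rw [← index_eq_card, hT])
  let _ := hcyc.commGroup
  have := Abelianization.commutator_subset_ker (QuotientGroup.mk' T)
  rwa [QuotientGroup.ker_mk'] at this

/-- In a `p`-group `Q` of rank at least `3`, a subgroup of order `p` of `Q'` centralizes an elementary
abelian subgroup of order at least `p ^ 3`. -/
theorem exists_ea_cube_of_le_commutator [Finite G] {p : ℕ} [hp : Fact p.Prime] (hp2 : p ≠ 2)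
    {Q X : Subgroup G} (hQ : IsPGroup p Q) (hr : ¬ Cfsg.PRankLE p 2 Q) (hX : Nat.card X = p)
    (hXQ' : X ≤ ⁅Q, Q⁆) :
    ∃ E : Subgroup G, E ≤ Q ⊓ centralizer (X : Set G) ∧ Cfsg.IsElementaryAbelian p E ∧
      p ^ 2 < Nat.card E := by
  have hXQ : X ≤ Q := hXQ'.trans (commutator_le_of_le_normalizer le_normalizer)
  by_contra hcon
  have hr2 : Cfsg.PRankLE p 2 (Q ⊓ centralizer (X : Set G) : Subgroup G) := by
    by_contra h
    exact hcon (exists_elementary_of_not_pRankLE h)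
  obtain ⟨hea, hle, hor⟩ := sup_omZ hQ hXQ hX
  rcases hor with hc | hc
  · set B := X ⊔ omZ p Q with hB
    have hBc : Nat.card B = p ^ 2 := le_antisymm (card_le_of_pRankLE hr2 hle hea) hc
    have hBQ : B ≤ Q := hle.trans inf_le_left
    have hE := Cfsg.Agent.Lib.Helper58.BG9.elementary_subgroupOf hea Q
    have hE2 : Nat.card (B.subgroupOf Q) = p ^ 2 := by rw [card_subgroupOf hBQ, hBc]
    have hEmax : ∀ B'' : Subgroup Q, Cfsg.IsElementaryAbelian p B'' → B.subgroupOf Q ≤ B'' →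
        B'' = B.subgroupOf Q := by
      intro B'' hB'' hle''
      have hea'' := Cfsg.Agent.Lib.Helper58.BG9.elementary_map hB''.1 hB''.2
      have hBB : B ≤ B''.map Q.subtype := by
        intro b hb
        exact ⟨⟨b, hBQ hb⟩, hle'' (mem_subgroupOf.mpr hb), rfl⟩
      have h1 : B''.map Q.subtype ≤ Q ⊓ centralizer (X : Set G) :=
        le_inf (map_subtype_le _) (ea_le_centralizer hea'' (le_sup_left.trans hBB))
      have h2 : B = B''.map Q.subtype :=
        eq_of_le_of_card_ge hBB (by rw [hBc]; exact card_le_of_pRankLE hr2 h1 hea'')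
      rw [h2, subgroupOf, comap_map_eq_self_of_injective Q.subtype_injective]
    obtain ⟨hnot, -, -, hchar, hidx⟩ :=
      Cfsg.Agent.S1453.result (R := Q) p hp2 hQ hr (B.subgroupOf Q) hE hE2 hEmax
    apply hnot
    have hTn : (Subgroup.centralizer ((Subgroup.closure
        {x : Q | x ∈ Subgroup.upperCentralSeries Q 2 ∧ x ^ p = 1} : Subgroup Q) : Set Q)).Normal :=
      inferInstance
    have hcomm := commutator_le_of_index_prime _ hidx
    intro b hb
    rw [mem_subgroupOf] at hb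
    have hsup : B ≤ (Subgroup.centralizer ((Subgroup.closure
        {x : Q | x ∈ Subgroup.upperCentralSeries Q 2 ∧ x ^ p = 1} : Subgroup Q) : Set Q)).map
          Q.subtype := by
      apply sup_le
      · refine hXQ'.trans ?_
        rw [← map_subtype_commutator]
        exact map_mono hcomm
      · intro z hz
        refine ⟨⟨z, hz.1⟩, ?_, rfl⟩
        rw [SetLike.mem_coe, mem_centralizer_iff]
        intro w _
        exact Subtype.ext (mem_centralizer_iff.mp hz.2.1 w w.2)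
    obtain ⟨b', hb', hbb⟩ := hsup hb
    have : b' = b := Subtype.ext hbb
    rwa [← this]
  · apply hr
    have : Q ⊓ centralizer (X : Set G) = Q := inf_eq_left.mpr hc
    rwa [this] at hr2

theorem commutator_le_Z {p : ℕ} [hp : Fact p.Prime] {Q P₁ P₂ : Subgroup G} (hsup : P₁ ⊔ P₂ = Q)
    (hcomm : ∀ a ∈ P₁, ∀ b ∈ P₂, a * b = b * a) (hna : ¬ IsMulCommutative P₁)
    (hc : Nat.card P₁ = p ^ 3) (hcyc : IsCyclic P₂) :
    ⁅Q, Q⁆ ≤ P₁ ⊓ centralizer (P₁ : Set G) := by
  have hn : P₂ ≤ normalizer (P₁ : Set G) := by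
    refine le_trans ?_ (centralizer_le_normalizer' P₁)
    intro b hb
    rw [mem_centralizer_iff]
    intro a ha
    exact hcomm a ha b hb
  have hP₂ : ∀ b ∈ P₂, ∀ b' ∈ P₂, b * b' = b' * b := by
    intro b hb b' hb'
    exact congrArg Subtype.val (hcyc.commGroup.mul_comm (⟨b, hb⟩ : P₂) ⟨b', hb'⟩)
  rw [commutator_le]
  intro g₁ h₁ g₂ h₂
  rw [← hsup] at h₁ h₂
  obtain ⟨a, ha, b, hb, rfl⟩ := (mem_sup_of_le_normalizer hn).mp h₁
  obtain ⟨a', ha', b', hb', rfl⟩ := (mem_sup_of_le_normalizer hn).mp h₂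
  have e : ⁅a * b, a' * b'⁆ = a * a' * a⁻¹ * a'⁻¹ := by
    rw [commutatorElement_def]
    have h1 : b * a' = a' * b := (hcomm a' ha' b hb).symm
    have h2 : b * b' = b' * b := hP₂ b hb b' hb'
    have h3 : b' * a⁻¹ = a⁻¹ * b' := (hcomm a⁻¹ (inv_mem ha) b' hb').symm
    calc a * b * (a' * b') * (a * b)⁻¹ * (a' * b')⁻¹
        = a * (b * a') * b' * b⁻¹ * a⁻¹ * b'⁻¹ * a'⁻¹ := by group
      _ = a * a' * (b * b') * b⁻¹ * a⁻¹ * b'⁻¹ * a'⁻¹ := by rw [h1]; group
      _ = a * a' * (b' * a⁻¹) * b'⁻¹ * a'⁻¹ := by rw [h2]; group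
      _ = a * a' * a⁻¹ * a'⁻¹ := by rw [h3]; group
  rw [e]
  exact comm_mem_Z hc hna ha ha'

theorem core_12_14 [Finite G] (hG : Cfsg.IsMinSimpleOddOrder G) (hU : UT G) (h12 : T1412 G)
    (h22 : T1422 G) {M : Subgroup G} (hM : IsCoatom M) {p : ℕ} [hp : Fact p.Prime]
    {Q X : Subgroup G} (hQ : IsSylowIn p Q ⊤) (hQM : Q ≤ M) (hXQ : X ≤ Q) (hX : Nat.card X = p)
    (h : (Cfsg.IsIdealPrime p G ∧ ¬ Cfsg.PRankLE p 2 Q) ∨ X ≤ ⁅Q, Q⁆) :
    Cfsg.InUniqueMaximal Q ∧
      ∃ U0 : Subgroup G, Cfsg.InUniqueMaximal U0 ∧ U0 ≤ M ∧ U0 ≤ centralizer (X : Set G) := by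
  have hQp := hQ.isPGroup
  have hQtop : Q ≠ ⊤ := fun h => hM.1 (top_le_iff.mp (h ▸ hQM))
  have hX1 : X ≠ ⊥ := by
    rintro rfl
    rw [card_bot] at hX
    exact hp.out.one_lt.ne hX
  have hp2 : p ≠ 2 := Cfsg.Agent.Lib.Helper58.BG9.ne_two_of_isPGroup hG (hQp.to_le hXQ) hX1
  have hidx : ¬ p ∣ Q.index := by
    have := hQ.not_dvd
    rwa [relIndex_top_right] at this
  have hQU3 : ¬ Cfsg.PRankLE p 2 Q → Cfsg.InUniqueMaximal Q := by
    intro hr
    obtain ⟨E, hEQ, hE, hEc⟩ := exists_elementary_of_not_pRankLE hr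
    exact uniq_mono (uniq_of_ea_cube hU hM (hEQ.trans hQM) hE hEc) hEQ hQtop
  rcases h with ⟨hideal, hr⟩ | hXQ'
  · refine ⟨hQU3 hr, ?_⟩
    obtain ⟨hea, hle, hor⟩ := sup_omZ hQp hXQ hX
    have hfin : ∀ E : Subgroup G, E ≤ Q → Cfsg.IsElementaryAbelian p E → X ≤ E →
        p ^ 2 < Nat.card E →
        ∃ U0 : Subgroup G, Cfsg.InUniqueMaximal U0 ∧ U0 ≤ M ∧ U0 ≤ centralizer (X : Set G) :=
      fun E hEQ hE hXE hEc => ⟨E, uniq_of_ea_cube hU hM (hEQ.trans hQM) hE hEc, hEQ.trans hQM,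
        ea_le_centralizer hE hXE⟩
    rcases hor with hc | hc
    · rcases hc.lt_or_eq with hlt | heq
      · exact hfin _ (hle.trans inf_le_left) hea le_sup_left hlt
      · obtain ⟨B, hBQ, hB, hlt⟩ := hideal.2.2 (hQp.toSylow hidx) _ (hle.trans inf_le_left) hea heq.symm
        exact hfin B hBQ hB (le_sup_left.trans hlt.le) (heq ▸ card_lt_of_lt hlt)
    · obtain ⟨E, hEQ, hE, hEc⟩ := exists_elementary_of_not_pRankLE hr
      refine ⟨E, uniq_of_ea_cube hU hM (hEQ.trans hQM) hE hEc, hEQ.trans hQM, hEQ.trans hc⟩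
  · have hQna : ¬ IsMulCommutative Q := by
      intro hcomm
      apply hX1
      rw [eq_bot_iff]
      refine hXQ'.trans ?_
      rw [commutator_le]
      intro a ha b hb
      rw [mem_bot, commutatorElement_eq_one_iff_mul_comm]
      exact congrArg Subtype.val (hcomm.is_comm.comm (⟨a, ha⟩ : Q) ⟨b, hb⟩)
    have hQU := h22 p Q hQp hQna
    refine ⟨hQU, ?_⟩
    by_cases hr : Cfsg.PRankLE p 2 Q
    · rcases h12 p (hQp.toSylow hidx) hr with h | ⟨P₁, P₂, hsup, hcomm, hna, hc, -, hcyc, -⟩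
      · exact absurd h hQna
      · change P₁ ⊔ P₂ = Q at hsup
        refine ⟨Q, hQU, hQM, ?_⟩
        apply le_centralizer_iff.mp
        refine (hXQ'.trans (commutator_le_Z hsup hcomm hna hc hcyc)).trans ?_
        apply le_centralizer_iff.mp
        rw [← hsup]
        apply sup_le
        · intro a ha
          rw [mem_centralizer_iff]
          intro z hz
          exact (mem_centralizer_iff.mp (mem_inf.mp hz).2 a ha).symm
        · intro b hb
          rw [mem_centralizer_iff]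
          intro z hz
          exact hcomm z (mem_inf.mp hz).1 b hb
    · obtain ⟨E, hE1, hE, hEc⟩ := exists_ea_cube_of_le_commutator hp2 hQp hr hX hXQ'
      exact ⟨E, uniq_of_ea_cube hU hM ((hE1.trans inf_le_left).trans hQM) hE hEc,
        (hE1.trans inf_le_left).trans hQM, hE1.trans inf_le_right⟩

end Cfsg.Agent.Lib.Helper2.BG12
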