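import Cfsg.Agent.Lib.Helper2.BG12D

/-!
Bender-Glauberman Corollary 12.14 (statement S1423), conditional: the wrapper.
-/

set_option autoImplicit false
set_option linter.unusedSectionVars false

namespace Cfsg.Agent.Lib.Helper2.BG12

open Subgroup Cfsg.Agent.Lib.Helper30 Cfsg.Agent.Lib.Helper2 Cfsg.Agent.Lib.Helper2.BG96
open scoped commutatorElement

universe u

variable {G : Type u} [Group G]

/-- the part of the text of S1414 that is used -/
def T1414c (G : Type u) [Group G] : Prop :=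
  ∀ M : Subgroup G, IsCoatom M → ∀ p : ℕ, p.Prime → p ∣ Nat.card M → p ∉ Cfsg.beta M →
    Cfsg.HasNormalPComplement p ↥(Cfsg.sigmaCore M)

/-- the part of the text of S1350 that is used -/
def T1350a (G : Type u) [Group G] : Prop :=
  ∀ M : Subgroup G, IsCoatom M → Cfsg.IsPiHallOf (Cfsg.sigma M) (Cfsg.sigmaCore M) M

theorem sylow_sigmaCore [Finite G] (h50 : T1350a G) {M : Subgroup G} (hM : IsCoatom M) {p : ℕ}
    [hp : Fact p.Prime] (hpσ : p ∈ Cfsg.sigma M) {Q : Subgroup G}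
    (hQ : IsSylowIn p Q (Cfsg.sigmaCore M)) : IsSylowIn p Q M ∧ IsSylowIn p Q ⊤ := by
  obtain ⟨hle, -, hidx⟩ := h50 M hM
  have h1 : IsSylowIn p Q M := by
    refine ⟨hQ.le.trans hle, hQ.isPGroup, ?_⟩
    rw [← relIndex_mul_relIndex Q _ M hQ.le hle]
    intro hd
    rcases (Nat.Prime.dvd_mul hp.out).mp hd with h | h
    · exact hQ.not_dvd h
    · exact hidx p hp.out hpσ h
  exact ⟨h1, isSylowIn_top_of_normalizer_le h1
    (Cfsg.Agent.Lib.Helper68.normalizer_le_of_mem_sigma hpσ h1)⟩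

/-- B-G Corollary 12.14, conditionally. -/
theorem S1423_of [Finite G] (hG : Cfsg.IsMinSimpleOddOrder G) (hU : UT G) (h50 : T1350a G)
    (h12 : T1412 G) (h14 : T1414c G) (h22 : T1422 G)
    (M : Subgroup G) (hM : IsCoatom M) (p : ℕ) [hpp : Fact p.Prime] (hp : p ∈ Cfsg.sigma M)
    (X : Subgroup G) (hXM : X ≤ M) (hX : Nat.card X = p)
    (P : Sylow p ↥(Cfsg.sigmaCore M))
    (h : p ∈ Cfsg.beta M ∨ X ≤ ⁅Cfsg.sigmaCore M, Cfsg.sigmaCore M⁆) :
    (Subgroup.centralizer (X : Set G) ≤ M ∧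
      ∀ L : Subgroup G, IsCoatom L → Subgroup.centralizer (X : Set G) ≤ L → L = M) ∧
      Cfsg.InUniqueMaximal ((P : Subgroup ↥(Cfsg.sigmaCore M)).map (Cfsg.sigmaCore M).subtype) ∧
      (P : Subgroup ↥(Cfsg.sigmaCore M)).map (Cfsg.sigmaCore M).subtype ≤ M := by
  obtain ⟨hMsM, -, -⟩ := h50 M hM
  have hPG : IsSylowIn p ((P : Subgroup ↥(Cfsg.sigmaCore M)).map (Cfsg.sigmaCore M).subtype) (Cfsg.sigmaCore M) := isSylowIn_of_sylow P
  have hXp : IsPGroup p X := IsPGroup.of_card (n := 1) (by rw [hX, pow_one])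
  have hX1 : X ≠ ⊥ := by
    rintro rfl
    rw [card_bot] at hX
    exact hpp.out.one_lt.ne hX
  have hMMs : M ≤ normalizer ((Cfsg.sigmaCore M) : Set G) := le_normalizer_piCoreOf (Cfsg.sigma M) M
  -- the key: a Sylow subgroup `Q` of `M_σ` and a conjugate of `X` in it
  have key : ∃ Q : Subgroup G, IsSylowIn p Q (Cfsg.sigmaCore M) ∧ ∃ k ∈ M, cj k X ≤ Q ∧
      ((Cfsg.IsIdealPrime p G ∧ ¬ Cfsg.PRankLE p 2 Q) ∨ cj k X ≤ ⁅Q, Q⁆) := by
    have hconj : ∀ Q : Subgroup G, IsSylowIn p Q (Cfsg.sigmaCore M) → ∃ k ∈ M, cj k X ≤ Q := by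
      intro Q hQ
      obtain ⟨S, hS, hXS⟩ := exists_isSylowIn_ge hXM hXp
      obtain ⟨k, hk, hkQ⟩ := hS.conj (sylow_sigmaCore h50 hM hp hQ).1
      exact ⟨k, hk, hkQ ▸ cj_mono k hXS⟩
    by_cases hβ : p ∈ Cfsg.beta M
    · obtain ⟨k, hk, hkX⟩ := hconj _ hPG
      exact ⟨_, hPG, k, hk, hkX, Or.inl ⟨hβ.2,
        fun hr => hβ.1.2 (pRankLE_of_sylow (sylow_sigmaCore h50 hM hp hPG).1 hr)⟩⟩
    · have hXMs' := h.resolve_left hβ
      obtain ⟨P', N, hN, hcompl⟩ := h14 M hM p hpp.out hp.2.1 hβ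
      have hQ : IsSylowIn p ((P' : Subgroup ↥(Cfsg.sigmaCore M)).map (Cfsg.sigmaCore M).subtype) (Cfsg.sigmaCore M) := isSylowIn_of_sylow P'
      obtain ⟨k, hk, hkX⟩ := hconj _ hQ
      refine ⟨_, hQ, k, hk, hkX, Or.inr ?_⟩
      have h1 : cj k X ≤ ⁅(Cfsg.sigmaCore M), (Cfsg.sigmaCore M)⁆ := by
        have := cj_mono k hXMs'
        rwa [cj_commutator, cj_eq_of_mem_normalizer (hMMs hk)] at this
      refine (le_inf hkX h1).trans ?_
      apply inf_commutator_le_of_factorization (K := N.map (Cfsg.sigmaCore M).subtype) (map_subtype_le _)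
        (Cfsg.Agent.Lib.Helper28.le_normalizer_map_subtype hN) ?_ hQ.le ?_ le_rfl hQ.isPGroup
      · rw [card_map_of_injective (Cfsg.sigmaCore M).subtype_injective, ← hcompl.index_eq_card]
        exact ((Nat.Prime.coprime_iff_not_dvd hpp.out).mpr P'.not_dvd_index).symm
      · intro x hx
        obtain ⟨⟨a, b⟩, hab, -⟩ := hcompl.existsUnique ⟨x, hx⟩
        exact ⟨a.1.1, ⟨a.1, a.2, rfl⟩, b.1.1, ⟨b.1, b.2, rfl⟩,
          (congrArg (Subtype.val : ↥(Cfsg.sigmaCore M) → G) hab).symm⟩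
  obtain ⟨Q, hQ, k, hk, hkX, hor⟩ := key
  obtain ⟨hQM, hQtop⟩ := sylow_sigmaCore h50 hM hp hQ
  obtain ⟨hQU, U0, hU0, hU0M, hU0C⟩ := core_12_14 hG hU h12 h22 hM hQtop hQM.le hkX
    (by rw [card_cj]; exact hX) hor
  have hkX1 : cj k X ≠ ⊥ := by
    intro h
    apply hX1
    have := congrArg (cj k⁻¹) h
    rw [cj_inv_cj] at this
    rw [this, eq_bot_iff]
    rintro _ ⟨y, hy, rfl⟩
    rw [SetLike.mem_coe, mem_bot] at hy
    rw [hy]; simp
  have hC' : centralizer ((cj k X : Subgroup G) : Set G) ≤ M :=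
    uniq_le hU0 hM hU0M hU0C (centralizer_ne_top' hG hkX1)
  rw [centralizer_cj] at hC' hU0C
  refine ⟨⟨?_, ?_⟩, ?_, hPG.le.trans hMsM⟩
  · have := cj_le_iff.mp hC'
    rwa [cj_eq_of_mem (inv_mem hk)] at this
  · intro L hL hCL
    have h1 := uniq_eq hU0 hM hU0M (Cfsg.Agent.Lib.Helper58.BG9.isCoatom_cj hL k)
      (hU0C.trans (cj_mono k hCL))
    have h2 := congrArg (cj k⁻¹) h1
    rwa [cj_inv_cj, cj_eq_of_mem (inv_mem hk)] at h2
  · obtain ⟨g, -, hg⟩ := hQ.conj hPG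
    rw [hg]
    exact Cfsg.Agent.Lib.Helper58.BG9.uniq_cj hQU g

end Cfsg.Agent.Lib.Helper2.BG12
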