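import Cfsg.Agent.Lib.Helper2.BG96Defs
import Cfsg.Agent.Lib.Helper2.BG10B
import Cfsg.Agent.Lib.Helper3.PGroup

/-!
Bender-Glauberman Theorem 9.6: general lemmas on `p`-groups used in the rung `pack_unique`.
-/

set_option autoImplicit false

namespace Cfsg.Agent.Lib.Helper2.BG96

open Subgroup Cfsg.Agent.Lib.Helper30 Cfsg.Agent.Lib.Helper2

universe u

variable {G : Type u} [Group G]

theorem card_eq_prime_of_lt_sq [Finite G] {s : ℕ} [hs : Fact s.Prime] {D : Subgroup G}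
    (hD : IsPGroup s D) (h1 : D ≠ ⊥) (h2 : Nat.card D < s ^ 2) : Nat.card D = s := by
  obtain ⟨n, hn⟩ := IsPGroup.iff_card.mp hD
  rw [hn] at h2 ⊢
  have h3 : n < 2 := (Nat.pow_lt_pow_iff_right hs.out.one_lt).mp h2
  have h4 : n ≠ 0 := by
    rintro rfl
    exact h1 ((Subgroup.card_eq_one).mp (by simpa using hn))
  have : n = 1 := by omega
  rw [this, pow_one]

theorem sq_le_card_of_lt [Finite G] {s : ℕ} [hs : Fact s.Prime] {D : Subgroup G}
    (hD : IsPGroup s D) (h : s < Nat.card D) : s ^ 2 ≤ Nat.card D := by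
  obtain ⟨n, hn⟩ := IsPGroup.iff_card.mp hD
  rw [hn] at h ⊢
  have h3 : 1 < n := by
    have : s ^ 1 < s ^ n := by simpa using h
    exact (Nat.pow_lt_pow_iff_right hs.out.one_lt).mp this
  exact Nat.pow_le_pow_right hs.out.pos h3

/-- a `p`-group acting on a nontrivial `p`-group has a nontrivial fixed point. -/
theorem exists_central_of_pgroup [Finite G] {s : ℕ} [Fact s.Prime] {N X : Subgroup G}
    (hN : IsPGroup s N) (hN1 : N ≠ ⊥) (hX : IsPGroup s X) (hXN : X ≤ normalizer (N : Set G)) :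
    ∃ y ∈ N, y ≠ 1 ∧ y ∈ centralizer (X : Set G) := by
  have hS : IsPGroup s (N ⊔ X : Subgroup G) := IsPGroup.to_sup_of_normal_left' hN hX hXN
  have hn : (N.subgroupOf (N ⊔ X)).Normal :=
    normal_subgroupOf_of_le_normalizer (sup_le le_normalizer hXN)
  have hne : N.subgroupOf (N ⊔ X) ≠ ⊥ := by
    intro h
    apply hN1
    rw [subgroupOf_eq_bot] at h
    have h2 := h.le_bot
    exact le_bot_iff.mp (fun x hx => h2 (mem_inf.mpr ⟨hx, mem_sup_left hx⟩))
  have h := Cfsg.Agent.Lib.Helper3.normal_inf_center_ne_bot' hS (N.subgroupOf (N ⊔ X)) hne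
  obtain ⟨⟨y, hy⟩, hy1⟩ := Subgroup.ne_bot_iff_exists_ne_one.mp h
  obtain ⟨hyN, hyZ⟩ := mem_inf.mp hy
  refine ⟨(y : G), mem_subgroupOf.mp hyN, fun h1 => hy1 (Subtype.ext (Subtype.ext h1)), ?_⟩
  rw [mem_centralizer_iff]
  intro x hx
  have := mem_center_iff.mp hyZ ⟨x, mem_sup_right hx⟩
  exact congrArg Subtype.val this

/-- `Ω₁(Z(S))`. -/
def omZ (s : ℕ) (S : Subgroup G) : Subgroup G where
  carrier := {z | z ∈ S ∧ z ∈ centralizer (S : Set G) ∧ z ^ s = 1}
  one_mem' := ⟨one_mem _, one_mem _, one_pow _⟩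
  mul_mem' := by
    rintro a b ⟨ha, hac, has⟩ ⟨hb, hbc, hbs⟩
    refine ⟨mul_mem ha hb, mul_mem hac hbc, ?_⟩
    have hc : Commute a b := (mem_centralizer_iff.mp hac b hb).symm
    rw [hc.mul_pow, has, hbs, one_mul]
  inv_mem' := by
    rintro a ⟨ha, hac, has⟩
    exact ⟨inv_mem ha, inv_mem hac, by rw [inv_pow, has, inv_one]⟩

theorem mem_omZ {s : ℕ} {S : Subgroup G} {z : G} :
    z ∈ omZ s S ↔ z ∈ S ∧ z ∈ centralizer (S : Set G) ∧ z ^ s = 1 := Iff.rfl

theorem omZ_le (s : ℕ) (S : Subgroup G) : omZ s S ≤ S := fun _ h => h.1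

theorem omZ_ea (s : ℕ) (S : Subgroup G) : Cfsg.IsElementaryAbelian s (omZ s S) :=
  ⟨⟨⟨fun a b => Subtype.ext (mem_centralizer_iff.mp a.2.2.1 b.1 b.2.1).symm⟩⟩, fun _ h => h.2.2⟩

theorem normalizer_le_normalizer_omZ (s : ℕ) (S : Subgroup G) :
    normalizer (S : Set G) ≤ normalizer (omZ s S : Set G) := by
  have key : ∀ g ∈ normalizer (S : Set G), ∀ z ∈ omZ s S, g * z * g⁻¹ ∈ omZ s S := by
    rintro g hg z ⟨hz, hzc, hzs⟩
    refine ⟨(mem_normalizer_iff.mp hg z).mp hz,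
      (mem_normalizer_iff.mp (normalizer_le_normalizer_centralizer S hg) z).mp hzc, ?_⟩
    rw [conj_pow, hzs]; group
  intro g hg
  rw [mem_normalizer_iff]
  intro z
  refine ⟨key g hg z, fun h => ?_⟩
  have := key g⁻¹ (inv_mem hg) _ h
  simpa [mul_assoc] using this

/-- Coprime action on an abelian group: an `s`-element `x` commuting with the `s'`-element `b` has a
fixed point in `V` that is not fixed by `b`, provided `b` acts nontrivially on `V`. -/
theorem exists_comm_not_fixed [Finite G] {s : ℕ} [hs : Fact s.Prime] {V : Subgroup G}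
    (hV : Cfsg.IsElementaryAbelian s V) {b x : G} (hb : b ∈ normalizer (V : Set G))
    (hbo : (orderOf b).Coprime s) (hbV : b ∉ centralizer (V : Set G))
    (hx : x ∈ normalizer (V : Set G)) (hxs : IsPGroup s (zpowers x)) (hxb : x * b = b * x) :
    ∃ y ∈ V, y ≠ 1 ∧ x * y = y * x ∧ ¬ (b * y = y * b) := by
  have hconj : ∀ v ∈ V, b * v * b⁻¹ ∈ V := fun v hv => (mem_normalizer_iff.mp hb v).mp hv
  let δ : V →* G :=
    { toFun := fun v => (v : G)⁻¹ * (b * v * b⁻¹)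
      map_one' := by simp
      map_mul' := by
        intro u v
        have h1 := ea_comm hV (inv_mem v.2) (inv_mem u.2)
        have h2 := ea_comm hV (inv_mem v.2) (hconj u u.2)
        simp only [Subgroup.coe_mul, mul_inv_rev]
        calc (v : G)⁻¹ * (u : G)⁻¹ * (b * (u * v) * b⁻¹)
            = ((v : G)⁻¹ * (u : G)⁻¹) * (b * u * b⁻¹) * (b * v * b⁻¹) := by group
          _ = ((u : G)⁻¹ * (v : G)⁻¹) * (b * u * b⁻¹) * (b * v * b⁻¹) := by rw [h1]
          _ = (u : G)⁻¹ * ((v : G)⁻¹ * (b * u * b⁻¹)) * (b * v * b⁻¹) := by group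
          _ = (u : G)⁻¹ * ((b * u * b⁻¹) * (v : G)⁻¹) * (b * v * b⁻¹) := by rw [h2]
          _ = (u : G)⁻¹ * (b * u * b⁻¹) * ((v : G)⁻¹ * (b * v * b⁻¹)) := by group }
  have hδ : ∀ v : V, δ v = (v : G)⁻¹ * (b * v * b⁻¹) := fun _ => rfl
  have hrV : δ.range ≤ V := by
    rintro _ ⟨v, rfl⟩
    exact mul_mem (inv_mem v.2) (hconj v v.2)
  have hr1 : δ.range ≠ ⊥ := by
    intro h
    apply hbV
    rw [mem_centralizer_iff]
    intro v hv
    have h1 : δ ⟨v, hv⟩ ∈ δ.range := ⟨_, rfl⟩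
    rw [h, mem_bot, hδ] at h1
    have h2 : b * v * b⁻¹ = v := by
      have := congrArg (fun t => v * t) h1
      simpa [mul_assoc] using this
    rw [mul_inv_eq_iff_eq_mul] at h2
    exact h2.symm
  have key : ∀ g : G, g ∈ normalizer (V : Set G) → g * b = b * g → ∀ w ∈ δ.range,
      g * w * g⁻¹ ∈ δ.range := by
    rintro g hg hgb _ ⟨v, rfl⟩
    refine ⟨⟨g * v * g⁻¹, (mem_normalizer_iff.mp hg v).mp v.2⟩, ?_⟩
    rw [hδ, hδ]
    have hgb' : b * g = g * b := hgb.symm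
    have hgb2 : g⁻¹ * b⁻¹ = b⁻¹ * g⁻¹ := by
      rw [← mul_inv_rev, ← mul_inv_rev, hgb]
    calc (g * (v : G) * g⁻¹)⁻¹ * (b * (g * v * g⁻¹) * b⁻¹)
        = g * (v : G)⁻¹ * g⁻¹ * ((b * g) * v * (g⁻¹ * b⁻¹)) := by group
      _ = g * (v : G)⁻¹ * g⁻¹ * ((g * b) * v * (b⁻¹ * g⁻¹)) := by rw [hgb', hgb2]
      _ = g * ((v : G)⁻¹ * (b * v * b⁻¹)) * g⁻¹ := by group
  have hxN : zpowers x ≤ normalizer (δ.range : Set G) := by
    rw [zpowers_le, mem_normalizer_iff]
    intro w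
    refine ⟨key x hx hxb w, fun h => ?_⟩
    have hx' : x⁻¹ * b = b * x⁻¹ := by
      have := congrArg (fun t => x⁻¹ * t * x⁻¹) hxb
      simpa [mul_assoc] using this.symm
    have := key x⁻¹ (inv_mem hx) hx' _ h
    simpa [mul_assoc] using this
  obtain ⟨y, hy, hy1, hyc⟩ := exists_central_of_pgroup ((ea_isPGroup hV).to_le hrV) hr1 hxs hxN
  refine ⟨y, hrV hy, hy1, mem_centralizer_iff.mp hyc x (mem_zpowers x), ?_⟩
  intro hby
  obtain ⟨v, rfl⟩ := hy
  apply hy1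
  set w := δ v with hw
  have hbv : b * v * b⁻¹ = v * w := by rw [hw, hδ]; group
  have hbw : ∀ k : ℕ, b * w ^ k * b⁻¹ = w ^ k := by
    intro k
    have : Commute b (w ^ k) := (show Commute b w from hby).pow_right k
    rw [this.eq]; group
  have hpow : ∀ k : ℕ, b ^ k * v * (b ^ k)⁻¹ = v * w ^ k := by
    intro k
    induction k with
    | zero => simp
    | succ k ih =>
      calc b ^ (k + 1) * (v : G) * (b ^ (k + 1))⁻¹ = b * (b ^ k * v * (b ^ k)⁻¹) * b⁻¹ := by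
            rw [pow_succ']; group
        _ = b * (v * w ^ k) * b⁻¹ := by rw [ih]
        _ = (b * v * b⁻¹) * (b * w ^ k * b⁻¹) := by group
        _ = v * w * w ^ k := by rw [hbv, hbw]
        _ = v * w ^ (k + 1) := by rw [pow_succ']; group
  have h1 := hpow (orderOf b)
  rw [pow_orderOf_eq_one] at h1
  have h2 : w ^ orderOf b = 1 := by simpa using h1.symm
  have h3 : w ^ s = 1 := hV.2 w (hrV ⟨v, rfl⟩)
  have h4 : orderOf w ∣ 1 := by
    rw [← Nat.Coprime.gcd_eq_one hbo]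
    exact Nat.dvd_gcd (orderOf_dvd_of_pow_eq_one h2) (orderOf_dvd_of_pow_eq_one h3)
  exact orderOf_eq_one_iff.mp (Nat.dvd_one.mp h4)

end Cfsg.Agent.Lib.Helper2.BG96
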