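import Cfsg.Agent.Lib.Helper2.BG96B
import Cfsg.Agent.Lib.Helper58.BG9a
import Cfsg.Agent.Lib.Helper28.RelBalance
import Cfsg.Agent.Lib.Helper12.Card
import Cfsg.Agent.S1450

/-!
Bender-Glauberman Theorem 9.6, rung R1: two maximal subgroups over `A` carrying a `Pack` coincide.
-/

set_option autoImplicit false
set_option linter.unusedSectionVars false

namespace Cfsg.Agent.Lib.Helper2.BG96

open Subgroup Cfsg.Agent.Lib.Helper30 Cfsg.Agent.Lib.Helper28 Cfsg.Agent.Lib.Helper2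

universe u

variable {G : Type u} [Group G] [Finite G]

theorem Root.isPGroup {s : ℕ} {H V β V₁ : Subgroup G} (h : Root H V β V₁ s) : IsPGroup s V₁ :=
  (ea_isPGroup h.pack.ea).to_le h.leV

theorem Root.cj_eq {s : ℕ} {H V β V₁ : Subgroup G} (h : Root H V β V₁ s) {g : G} (hgH : g ∈ H)
    (hgβ : g ∈ centralizer (β : Set G)) : cj g V₁ = V₁ := by
  rw [← h.eq, cj_inf, cj_eq_of_mem_normalizer (h.pack.norm hgH), cj_eq_of_mem hgβ]

theorem Root.pRankLE (hG : Cfsg.IsMinSimpleOddOrder G) {s : ℕ} [hs : Fact s.Prime]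
    {H V β V₁ : Subgroup G} (h : Root H V β V₁ s) (hβ1 : β ≠ ⊥) {θ : Subgroup G}
    (hθ : θ ≤ centralizer (β : Set G)) (hV₁θ : V₁ ≤ θ) (hnot : ¬ centralizer (β : Set G) ≤ H) :
    Cfsg.PRankLE s 2 θ := by
  by_contra hcon
  obtain ⟨D, hDθ, hD, hDc⟩ := exists_elementary_of_not_pRankLE hcon
  have hDU := h.pack.uniq4 D D hD le_rfl hDc.le hDc
  obtain ⟨T, hT, hV₁T⟩ := exists_isSylowIn_ge hV₁θ h.isPGroup
  obtain ⟨T2, hT2, hDT2⟩ := exists_isSylowIn_ge hDθ (ea_isPGroup hD)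
  obtain ⟨g, hg, rfl⟩ := hT.conj hT2
  have hTH : T ≤ H := h.le_of_pgroup hG (hT.le.trans hθ) hT.isPGroup hV₁T
  have h1 : cj g⁻¹ D ≤ T := cj_le_iff.mpr (by simpa using hDT2)
  have hU' := Cfsg.Agent.Lib.Helper58.BG9.uniq_cj hDU g⁻¹
  exact hnot (uniq_le hU' h.pack.coatom (h1.trans hTH) ((h1.trans hT.le).trans hθ)
    (centralizer_ne_top' hG hβ1))

theorem le_of_not_dvd_relIndex {s : ℕ} [hs : Fact s.Prime] {O θ U : Subgroup G} (hOθ : O ≤ θ)
    (hn : θ ≤ normalizer (O : Set G)) (hnd : ¬ s ∣ O.relIndex θ) (hUθ : U ≤ θ) (hU : IsPGroup s U) :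
    U ≤ O := by
  obtain ⟨S, hS⟩ := exists_isSylowIn s O
  have hSθ : IsSylowIn s S θ := ⟨hS.le.trans hOθ, hS.isPGroup, by
    rw [← relIndex_mul_relIndex S O θ hS.le hOθ]
    intro h
    rcases (Nat.Prime.dvd_mul hs.out).mp h with h | h
    · exact hS.not_dvd h
    · exact hnd h⟩
  obtain ⟨S2, hS2, hUS2⟩ := exists_isSylowIn_ge hUθ hU
  obtain ⟨g, hg, rfl⟩ := hSθ.conj hS2
  calc U ≤ cj g S := hUS2
    _ ≤ cj g O := cj_mono g hS.le
    _ = O := cj_eq_of_mem_normalizer (hn hg)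

/-- the subgroup `θ = O_{p'}(C(β))`. -/
theorem exists_theta (hG : Cfsg.IsMinSimpleOddOrder G) {A β : Subgroup G}
    (hA : Cfsg.TransitivityHypothesis A) (hAc : A ≤ centralizer (A : Set G)) (hβA : β ≤ A)
    (hβ1 : β ≠ ⊥) :
    ∃ θ : Subgroup G, θ ≤ centralizer (β : Set G) ∧ A ≤ normalizer (θ : Set G) ∧
      (Nat.card A).Coprime (Nat.card θ) ∧ Group.IsSolvable θ ∧
      ∀ (q : ℕ) [Fact q.Prime] (Y : Subgroup G), ¬ q ∣ Nat.card A → IsPGroup q Y →
        Y ≤ centralizer (β : Set G) → A ≤ normalizer (Y : Set G) → Y ≤ θ := by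
  have hCtop := centralizer_ne_top' hG hβ1
  have hAC : A ≤ centralizer (β : Set G) := hAc.trans (Subgroup.centralizer_le hβA)
  refine ⟨Cfsg.piCoreOf (Cfsg.primesNotDvd (Nat.card A)) (centralizer (β : Set G)), piCoreOf_le _ _,
    hAC.trans (le_normalizer_piCoreOf _ _), coprime_of_piNat_primesNotDvd (piCoreOf_isPi _ _),
    isSolvable_of_le (piCoreOf_le _ _) (solvable_of_ne_top hG hCtop), ?_⟩
  intro q _ Y hq hY hYC hAY
  exact le_core_of_inv hA hCtop hAC hYC (piNat_primesNotDvd_of_isPGroup hq hY) hAY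

theorem root_contra_eq (hG : Cfsg.IsMinSimpleOddOrder G) {A β H L V V' V₁ V₁' : Subgroup G} {s : ℕ}
    [hs : Fact s.Prime] (hA : Cfsg.TransitivityHypothesis A) (hAc : A ≤ centralizer (A : Set G))
    (hβA : β ≤ A) (hβ1 : β ≠ ⊥) (hsA : ¬ s ∣ Nat.card A) (hAH : A ≤ H) (hAL : A ≤ L)
    (hH : Root H V β V₁ s) (hL : Root L V' β V₁' s) (hCH : centralizer (A : Set G) ≤ H)
    (hn : ¬ V₁' ≤ H) : False := by
  obtain ⟨θ, hθC, hAθ, hcop, hsol, hin⟩ := exists_theta hG hA hAc hβA hβ1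
  have hAC : A ≤ centralizer (β : Set G) := hAc.trans (Subgroup.centralizer_le hβA)
  have hAV₁ : A ≤ normalizer (V₁ : Set G) := fun a ha =>
    mem_normalizer_of_cj_eq (hH.cj_eq (hAH ha) (hAC ha))
  have hAV₁' : A ≤ normalizer (V₁' : Set G) := fun a ha =>
    mem_normalizer_of_cj_eq (hL.cj_eq (hAL ha) (hAC ha))
  have hV₁θ := hin s V₁ hsA hH.isPGroup hH.leC hAV₁
  have hV₁'θ := hin s V₁' hsA hL.isPGroup hL.leC hAV₁'
  obtain ⟨S, hS, hV₁S, hAS⟩ := exists_invariant_isSylowIn_ge hAθ hcop (Or.inr hsol) s hV₁θ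
    hH.isPGroup hAV₁
  obtain ⟨S', hS', hV₁S', hAS'⟩ := exists_invariant_isSylowIn_ge hAθ hcop (Or.inr hsol) s hV₁'θ
    hL.isPGroup hAV₁'
  obtain ⟨c, hc, rfl⟩ := invariant_isSylowIn_conj hAθ hcop (Or.inr hsol) s hS hS' hAS hAS'
  have hSH : S ≤ H := hH.le_of_pgroup hG (hS.le.trans hθC) hS.isPGroup hV₁S
  apply hn
  calc V₁' ≤ cj c S := hV₁S'
    _ ≤ cj c H := cj_mono c hSH
    _ = H := cj_eq_of_mem (hCH (mem_inf.mp hc).2)

theorem root_contra_lt (hG : Cfsg.IsMinSimpleOddOrder G) {A β H L V V' V₁ V₁' : Subgroup G}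
    {s t : ℕ} [hs : Fact s.Prime] [ht : Fact t.Prime] (hts : t < s)
    (hA : Cfsg.TransitivityHypothesis A) (hAc : A ≤ centralizer (A : Set G))
    (hβA : β ≤ A) (hβ1 : β ≠ ⊥) (hsA : ¬ s ∣ Nat.card A) (htA : ¬ t ∣ Nat.card A) (hAH : A ≤ H)
    (hAL : A ≤ L) (hH : Root H V β V₁ s) (hL : Root L V' β V₁' t)
    (hCH : centralizer (A : Set G) ≤ H) (hn : ¬ V₁' ≤ H) (hn' : ¬ V₁ ≤ L) : False := by
  obtain ⟨θ, hθC, hAθ, hcop, hsol, hin⟩ := exists_theta hG hA hAc hβA hβ1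
  have hAC : A ≤ centralizer (β : Set G) := hAc.trans (Subgroup.centralizer_le hβA)
  have hAV₁ : A ≤ normalizer (V₁ : Set G) := fun a ha =>
    mem_normalizer_of_cj_eq (hH.cj_eq (hAH ha) (hAC ha))
  have hAV₁' : A ≤ normalizer (V₁' : Set G) := fun a ha =>
    mem_normalizer_of_cj_eq (hL.cj_eq (hAL ha) (hAC ha))
  have hV₁θ := hin s V₁ hsA hH.isPGroup hH.leC hAV₁
  have hV₁'θ := hin t V₁' htA hL.isPGroup hL.leC hAV₁'
  have hrank : Cfsg.PRankLE t 2 θ := hL.pRankLE hG hβ1 hθC hV₁'θ (fun h => hn' (hH.leC.trans h))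
  have hodd : Odd (Nat.card θ) := Odd.of_dvd_nat hG.1 (Subgroup.card_subgroup_dvd_card θ)
  have htθ : t ∣ Nat.card θ := hL.card ▸ card_dvd_of_le hV₁'θ
  have h1450 := (Cfsg.Agent.S1450.result (G := θ) hodd t htθ hrank).1
  have hrel : (opPrimeIn t θ).relIndex θ = (Cfsg.pPrimeCore t θ).index := by
    unfold opPrimeIn relIndex subgroupOf
    rw [comap_map_eq_self_of_injective θ.subtype_injective]
  have hnd : ¬ s ∣ (opPrimeIn t θ).relIndex θ := by
    intro h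
    have := h1450 s hs.out (hrel ▸ h)
    omega
  have hOθ := opPrimeIn_le t θ
  have hθO := le_normalizer_opPrimeIn t θ
  have hV₁O : V₁ ≤ opPrimeIn t θ := le_of_not_dvd_relIndex hOθ hθO hnd hV₁θ hH.isPGroup
  have hOsol : Group.IsSolvable (opPrimeIn t θ) := isSolvable_of_le hOθ hsol
  have hAO : A ≤ normalizer (opPrimeIn t θ : Set G) :=
    hAθ.trans (normalizer_le_normalizer_opPrimeIn t θ)
  have hcopA : (Nat.card A).Coprime (Nat.card (opPrimeIn t θ)) :=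
    Nat.Coprime.coprime_dvd_right (card_dvd_of_le hOθ) hcop
  obtain ⟨T, hT, hV₁'T, hAT⟩ := exists_invariant_isSylowIn_ge hAθ hcop (Or.inr hsol) t hV₁'θ
    hL.isPGroup hAV₁'
  have hcopT : (Nat.card T).Coprime (Nat.card (opPrimeIn t θ)) := by
    obtain ⟨n, hn⟩ := IsPGroup.iff_card.mp hT.isPGroup
    rw [hn]
    exact Nat.Coprime.pow_left n (opPrimeIn_coprime t θ).symm
  have hdvd : Nat.card (A ⊔ T : Subgroup G) ∣ Nat.card A * Nat.card T :=
    Dvd.intro _ (Cfsg.Agent.Lib.Helper12.card_sup_mul_card_inf' A T hAT)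
  have hcopAT : (Nat.card (A ⊔ T : Subgroup G)).Coprime (Nat.card (opPrimeIn t θ)) :=
    Nat.Coprime.coprime_dvd_left hdvd (Nat.Coprime.mul_left hcopA hcopT)
  have hATO : A ⊔ T ≤ normalizer (opPrimeIn t θ : Set G) := sup_le hAO (hT.le.trans hθO)
  obtain ⟨S1, hS1, hATS1⟩ := exists_invariant_isSylowIn hATO hcopAT (Or.inr hOsol) s
  obtain ⟨S2, hS2, hV₁S2, hAS2⟩ := exists_invariant_isSylowIn_ge hAO hcopA (Or.inr hOsol) s hV₁O
    hH.isPGroup hAV₁
  obtain ⟨c, hc, rfl⟩ := invariant_isSylowIn_conj hAO hcopA (Or.inr hOsol) s hS2 hS1 hAS2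
    (le_sup_left.trans hATS1)
  have hcA : c ∈ centralizer (A : Set G) := (mem_inf.mp hc).2
  have hV₁S1 : V₁ ≤ cj c S2 := by
    rw [← hH.cj_eq (hCH hcA) (Subgroup.centralizer_le hβA hcA)]
    exact cj_mono c hV₁S2
  have hS1C : cj c S2 ≤ centralizer (β : Set G) := (hS1.le.trans hOθ).trans hθC
  have hS1H : cj c S2 ≤ H := hH.le_of_pgroup hG hS1C hS1.isPGroup hV₁S1
  have hN := hH.normalizer_le hG hS1H hS1C hS1.isPGroup hV₁S1
  exact hn (hV₁'T.trans ((le_sup_right.trans hATS1).trans hN))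

theorem coprime_orderOf_of_mem {p s : ℕ} [hp : Fact p.Prime] [hs : Fact s.Prime] (hsp : s ≠ p)
    {A : Subgroup G} (hAp : IsPGroup p A) {b : G} (hb : b ∈ A) : (orderOf b).Coprime s := by
  obtain ⟨k, hk⟩ := hAp ⟨b, hb⟩
  have hk' : b ^ p ^ k = 1 := by simpa using congrArg Subtype.val hk
  exact Nat.Coprime.coprime_dvd_left (orderOf_dvd_of_pow_eq_one hk')
    (Nat.Coprime.pow_left k ((Nat.coprime_primes hp.out hs.out).mpr hsp.symm))

/-- Rung R1 of B-G 9.6. -/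
theorem pack_unique (hG : Cfsg.IsMinSimpleOddOrder G) {p s t : ℕ} [hp : Fact p.Prime]
    [hs : Fact s.Prime] [ht : Fact t.Prime] {A E H L V V' : Subgroup G}
    (hA : Cfsg.TransitivityHypothesis A) (hAp : IsPGroup p A) (hAc : A ≤ centralizer (A : Set G))
    (hEA : E ≤ A) (hE : Cfsg.IsElementaryAbelian p E) (hE3 : Nat.card E = p ^ 3) (hNC : NC p A)
    (hsp : s ≠ p) (htp : t ≠ p) (hAH : A ≤ H) (hAL : A ≤ L) (hH : Pack H V s) (hL : Pack L V' t) :
    H = L := by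
  by_contra hne
  have hVL : Nat.card (V ⊓ L : Subgroup G) < s ^ 2 := by
    by_contra hcon
    push Not at hcon
    exact hne (uniq_eq (hH.uniq2 _ inf_le_left hcon) hL.coatom inf_le_right hH.coatom
      (inf_le_left.trans hH.le))
  have hV'H : Nat.card (V' ⊓ H : Subgroup G) < t ^ 2 := by
    by_contra hcon
    push Not at hcon
    exact hne (uniq_eq (hL.uniq2 _ inf_le_left hcon) hL.coatom (inf_le_left.trans hL.le) hH.coatom
      inf_le_right)
  obtain ⟨B, hBE, hBc, hVB, hVBn⟩ := hH.exists_hyper hsp hNC hEA hE hE3 (hEA.trans hAH) hVL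
  obtain ⟨B', hBE', hBc', hVB', hVBn'⟩ := hL.exists_hyper htp hNC hEA hE hE3 (hEA.trans hAL) hV'H
  have hβ1 : B ⊓ B' ≠ ⊥ := inf_ne_bot_of_card hE3 hBE hBE' hBc hBc'
  have hβA : B ⊓ B' ≤ A := (inf_le_left.trans hBE).trans hEA
  have hs1 := hs.out.one_lt
  have ht1 := ht.out.one_lt
  have e1 : V ⊓ centralizer (B : Set G) = V ⊓ centralizer ((B ⊓ B' : Subgroup G) : Set G) := by
    have hle : V ⊓ centralizer (B : Set G) ≤ V ⊓ centralizer ((B ⊓ B' : Subgroup G) : Set G) :=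
      inf_le_inf_left V (Subgroup.centralizer_le inf_le_left)
    have hlt : Nat.card (V ⊓ centralizer ((B ⊓ B' : Subgroup G) : Set G) : Subgroup G) < s ^ 2 := by
      by_contra hcon
      push Not at hcon
      have h1 := hH.centralizer_le hG hβ1 hcon
      exact hVBn' ((inf_le_right.trans (Subgroup.centralizer_le inf_le_right)).trans h1)
    have hne1 : V ⊓ centralizer ((B ⊓ B' : Subgroup G) : Set G) ≠ ⊥ := by
      intro h0
      rw [h0, le_bot_iff] at hle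
      rw [hle, Subgroup.card_bot] at hVB
      omega
    have hc := card_eq_prime_of_lt_sq ((ea_isPGroup hH.ea).to_le inf_le_left) hne1 hlt
    exact eq_of_le_of_card_ge hle (by rw [hc, hVB])
  have e2 : V' ⊓ centralizer (B' : Set G) = V' ⊓ centralizer ((B ⊓ B' : Subgroup G) : Set G) := by
    have hle : V' ⊓ centralizer (B' : Set G) ≤ V' ⊓ centralizer ((B ⊓ B' : Subgroup G) : Set G) :=
      inf_le_inf_left V' (Subgroup.centralizer_le inf_le_right)
    have hlt : Nat.card (V' ⊓ centralizer ((B ⊓ B' : Subgroup G) : Set G) : Subgroup G) < t ^ 2 := by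
      by_contra hcon
      push Not at hcon
      have h1 := hL.centralizer_le hG hβ1 hcon
      exact hVBn ((inf_le_right.trans (Subgroup.centralizer_le inf_le_left)).trans h1)
    have hne1 : V' ⊓ centralizer ((B ⊓ B' : Subgroup G) : Set G) ≠ ⊥ := by
      intro h0
      rw [h0, le_bot_iff] at hle
      rw [hle, Subgroup.card_bot] at hVB'
      omega
    have hc := card_eq_prime_of_lt_sq ((ea_isPGroup hL.ea).to_le inf_le_left) hne1 hlt
    exact eq_of_le_of_card_ge hle (by rw [hc, hVB'])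
  have hRH : Root H V (B ⊓ B') (V ⊓ centralizer (B : Set G)) s :=
    ⟨hH, fun b hb => coprime_orderOf_of_mem hsp hAp (hβA hb), hβA.trans hAH, e1.symm, hVB⟩
  have hRL : Root L V' (B ⊓ B') (V' ⊓ centralizer (B' : Set G)) t :=
    ⟨hL, fun b hb => coprime_orderOf_of_mem htp hAp (hβA hb), hβA.trans hAL, e2.symm, hVB'⟩
  have hsA : ¬ s ∣ Nat.card A := not_dvd_card_of_ea hsp.symm hAp
  have htA : ¬ t ∣ Nat.card A := not_dvd_card_of_ea htp.symm hAp
  have hCH := hH.centralizer_A_le hG hsp hNC hEA hE hE3 hAH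
  have hCL := hL.centralizer_A_le hG htp hNC hEA hE hE3 hAL
  rcases lt_trichotomy s t with h | h | h
  · exact root_contra_lt hG h hA hAc hβA hβ1 htA hsA hAL hAH hRL hRH hCL hVBn hVBn'
  · subst h
    exact root_contra_eq hG hA hAc hβA hβ1 hsA hAH hAL hRH hRL hCH hVBn'
  · exact root_contra_lt hG h hA hAc hβA hβ1 hsA htA hAH hAL hRH hRL hCH hVBn' hVBn

end Cfsg.Agent.Lib.Helper2.BG96
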