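import Cfsg.Agent.Lib.Helper30.BG8

/-!
Bender-Glauberman Theorem 9.6 (statement S1402): shared definitions for the rungs of the proof.
-/

set_option autoImplicit false

namespace Cfsg.Agent.Lib.Helper2.BG96

open Subgroup Cfsg.Agent.Lib.Helper30

universe u

variable {G : Type u} [Group G]

/-- `Pack H V s`: `H` is a maximal subgroup, `V` a noncyclic elementary abelian `s`-subgroup normal in
`H`, all of whose noncyclic subgroups are uniqueness subgroups; moreover every noncyclic elementary
abelian `s`-subgroup of `G` that lies in an elementary abelian subgroup of order at least `s ^ 3` is a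
uniqueness subgroup. -/
structure Pack (H V : Subgroup G) (s : ℕ) : Prop where
  coatom : IsCoatom H
  le : V ≤ H
  norm : H ≤ normalizer (V : Set G)
  ea : Cfsg.IsElementaryAbelian s V
  card : s ^ 2 ≤ Nat.card V
  uniq2 : ∀ D : Subgroup G, D ≤ V → s ^ 2 ≤ Nat.card D → Cfsg.InUniqueMaximal D
  uniq4 : ∀ D D' : Subgroup G, Cfsg.IsElementaryAbelian s D' → D ≤ D' → s ^ 2 ≤ Nat.card D →
    s ^ 2 < Nat.card D' → Cfsg.InUniqueMaximal D

/-- `NC p A`: no elementary abelian subgroup of order at least `p ^ 2` of `A` centralizes a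
uniqueness subgroup (this holds when `A` is not a uniqueness subgroup, by B-G 9.3). -/
def NC (p : ℕ) (A : Subgroup G) : Prop :=
  ∀ B : Subgroup G, B ≤ A → Cfsg.IsElementaryAbelian p B → p ^ 2 ≤ Nat.card B →
    ∀ L₀ : Subgroup G, Cfsg.InUniqueMaximal L₀ → B ≤ centralizer (L₀ : Set G) → False

end Cfsg.Agent.Lib.Helper2.BG96
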